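import Mathlib
import Cfsg.Prelude.Def_BaumannBlocks
import Cfsg.Agent.Lib.H13.Basic

/-!
# Irreducibility of the sections in a block

`commutator SL₂(F)` on `F²` and `A_{2m+1}` on even-weight vectors have no proper nonzero invariant additive
subgroups.
-/

set_option autoImplicit false

namespace Cfsg.Agent.H13.Blk

open Cfsg Matrix
open scoped commutatorElement

variable {G : Type*} [Group G]

/-- `E` acts irreducibly on the nontrivial section `U / U₀` -/
def IrrSec (E U U₀ : Subgroup G) : Prop :=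
  U₀ ≠ U ∧ ∀ X : Subgroup G, U₀ ≤ X → X ≤ U → E ≤ Subgroup.normalizer (X : Set G) → X = U₀ ∨ X = U

theorem irrSec_of_action {V : Type*} [AddCommGroup V] [Finite G] {E U U₀ : Subgroup G}
    (S : AddSubgroup V) (hS : S ≠ ⊥) (ψ : ↥U →* Multiplicative V)
    (hψS : ∀ u : ↥U, Multiplicative.toAdd (ψ u) ∈ S)
    (hsurj : ∀ v ∈ S, ∃ u : ↥U, Multiplicative.toAdd (ψ u) = v)
    (hker : ∀ u : ↥U, ψ u = 1 ↔ (u : G) ∈ U₀) (hU₀ : U₀ ≤ U)
    (hirr : ∀ W : AddSubgroup V, W ≤ S →
      (∀ e ∈ E, ∀ u : ↥U, Multiplicative.toAdd (ψ u) ∈ W → ∀ w : ↥U, (w : G) = (e : G) * (u : G) * (e : G)⁻¹ →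
        Multiplicative.toAdd (ψ w) ∈ W) → W = ⊥ ∨ W = S) : IrrSec E U U₀ := by
  refine ⟨?_, ?_⟩
  · intro h
    apply hS
    rw [eq_bot_iff]
    intro v hv
    obtain ⟨u, rfl⟩ := hsurj v hv
    have : ψ u = 1 := (hker u).mpr (h ▸ u.2)
    rw [this]
    simp
  · intro X hX1 hX2 hX3
    -- the image of `X`
    let W : AddSubgroup V :=
      { carrier := {v | ∃ u : ↥U, (u : G) ∈ X ∧ Multiplicative.toAdd (ψ u) = v}
        add_mem' := by
          rintro _ _ ⟨a, ha, rfl⟩ ⟨b, hb, rfl⟩
          exact ⟨a * b, X.mul_mem ha hb, by simp⟩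
        zero_mem' := ⟨1, X.one_mem, by simp⟩
        neg_mem' := by
          rintro _ ⟨a, ha, rfl⟩
          exact ⟨a⁻¹, X.inv_mem ha, by simp⟩ }
    have hW : W ≤ S := by
      rintro _ ⟨u, -, rfl⟩
      exact hψS u
    have hmem : ∀ u : ↥U, Multiplicative.toAdd (ψ u) ∈ W → (u : G) ∈ X := by
      rintro u ⟨a, ha, hau⟩
      have h1 : ψ (a⁻¹ * u) = 1 := by
        have h0 : ψ a = ψ u := Multiplicative.toAdd.injective hau
        rw [map_mul, map_inv, h0]
        simp
      have h2 := hX1 ((hker _).mp h1)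
      have h3 := X.mul_mem ha h2
      simpa using h3
    have hinv : ∀ e ∈ E, ∀ u : ↥U, Multiplicative.toAdd (ψ u) ∈ W → ∀ w : ↥U,
        (w : G) = (e : G) * (u : G) * (e : G)⁻¹ → Multiplicative.toAdd (ψ w) ∈ W := by
      intro e he u hu w hw
      refine ⟨w, ?_, rfl⟩
      rw [hw]
      exact (Subgroup.mem_normalizer_iff.mp (hX3 he) _).mp (hmem u hu)
    rcases hirr W hW hinv with h | h
    · left
      apply le_antisymm _ hX1
      intro x hx
      have h1 : Multiplicative.toAdd (ψ ⟨x, hX2 hx⟩) ∈ W := ⟨⟨x, hX2 hx⟩, hx, rfl⟩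
      rw [h, AddSubgroup.mem_bot] at h1
      exact (hker ⟨x, hX2 hx⟩).mp (by simpa using h1)
    · right
      apply le_antisymm hX2
      intro x hx
      have h1 : Multiplicative.toAdd (ψ ⟨x, hx⟩) ∈ W := by
        rw [h]; exact hψS _
      exact hmem ⟨x, hx⟩ h1

/-! ### `F²` -/

section sl2
variable {F : Type*} [Field F] [Fintype F]

theorem sl_ext {A B : SpecialLinearGroup (Fin 2) F} (h : (A : Matrix (Fin 2) (Fin 2) F) = B) : A = B :=
  Subtype.ext h

/-- upper transvection -/
def upT (t : F) : SpecialLinearGroup (Fin 2) F := ⟨!![1, t; 0, 1], by simp [det_fin_two]⟩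
/-- lower transvection -/
def loT (t : F) : SpecialLinearGroup (Fin 2) F := ⟨!![1, 0; t, 1], by simp [det_fin_two]⟩
/-- diagonal -/
def dgT (l : F) (h : l ≠ 0) : SpecialLinearGroup (Fin 2) F :=
  ⟨!![l, 0; 0, l⁻¹], by simp [det_fin_two, h]⟩

theorem upT_inv (t : F) : (upT t)⁻¹ = upT (-t) := by
  apply inv_eq_of_mul_eq_one_right
  apply sl_ext
  change (!![1, t; 0, 1] : Matrix (Fin 2) (Fin 2) F) * !![1, -t; 0, 1] = 1
  simp [Matrix.mul_fin_two, Matrix.one_fin_two]

theorem loT_inv (t : F) : (loT t)⁻¹ = loT (-t) := by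
  apply inv_eq_of_mul_eq_one_right
  apply sl_ext
  change (!![1, 0; t, 1] : Matrix (Fin 2) (Fin 2) F) * !![1, 0; -t, 1] = 1
  simp [Matrix.mul_fin_two, Matrix.one_fin_two]

theorem dgT_inv (l : F) (h : l ≠ 0) : (dgT l h)⁻¹ = dgT l⁻¹ (inv_ne_zero h) := by
  apply inv_eq_of_mul_eq_one_right
  apply sl_ext
  change (!![l, 0; 0, l⁻¹] : Matrix (Fin 2) (Fin 2) F) * !![l⁻¹, 0; 0, l⁻¹⁻¹] = 1
  simp [Matrix.mul_fin_two, Matrix.one_fin_two, h]

theorem upT_mem_comm {l : F} (hl : l ≠ 0) (hl2 : l ^ 2 ≠ 1) (s : F) :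
    upT s ∈ commutator (SpecialLinearGroup (Fin 2) F) := by
  have h1 : l ^ 2 - 1 ≠ 0 := sub_ne_zero.mpr hl2
  have e : upT s = ⁅dgT l hl, upT (s / (l ^ 2 - 1))⁆ := by
    rw [commutatorElement_def, dgT_inv, upT_inv]
    apply sl_ext
    change (!![1, s; 0, 1] : Matrix (Fin 2) (Fin 2) F) = !![l, 0; 0, l⁻¹] * !![1, s / (l ^ 2 - 1); 0, 1] *
      !![l⁻¹, 0; 0, l⁻¹⁻¹] * !![1, -(s / (l ^ 2 - 1)); 0, 1]
    have h1' : -1 + l ^ 2 ≠ 0 := by rwa [neg_add_eq_sub]
    simp only [Matrix.mul_fin_two]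
    ext i j
    fin_cases i <;> fin_cases j <;> simp
    all_goals (try field_simp)
    all_goals (try ring)
  rw [e, commutator_def]
  exact Subgroup.commutator_mem_commutator (Subgroup.mem_top _) (Subgroup.mem_top _)

theorem loT_mem_comm {l : F} (hl : l ≠ 0) (hl2 : l ^ 2 ≠ 1) (s : F) :
    loT s ∈ commutator (SpecialLinearGroup (Fin 2) F) := by
  have h1 : l ^ 2 - 1 ≠ 0 := sub_ne_zero.mpr hl2
  have e : loT s = ⁅dgT l⁻¹ (inv_ne_zero hl), loT (s / (l ^ 2 - 1))⁆ := by
    rw [commutatorElement_def, dgT_inv, loT_inv]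
    apply sl_ext
    change (!![1, 0; s, 1] : Matrix (Fin 2) (Fin 2) F) = !![l⁻¹, 0; 0, l⁻¹⁻¹] * !![1, 0; s / (l ^ 2 - 1), 1] *
      !![l⁻¹⁻¹, 0; 0, l⁻¹⁻¹⁻¹] * !![1, 0; -(s / (l ^ 2 - 1)), 1]
    have h1' : -1 + l ^ 2 ≠ 0 := by rwa [neg_add_eq_sub]
    simp only [Matrix.mul_fin_two]
    ext i j
    fin_cases i <;> fin_cases j <;> simp
    all_goals (try field_simp)
    all_goals (try ring)
  rw [e, commutator_def]
  exact Subgroup.commutator_mem_commutator (Subgroup.mem_top _) (Subgroup.mem_top _)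

/-- the commutator of `u(1)` and `l(1)` -/
def gT : SpecialLinearGroup (Fin 2) F := ⟨!![3, -1; 1, 0], by simp [det_fin_two]⟩

theorem gT_mem_comm : gT ∈ commutator (SpecialLinearGroup (Fin 2) F) := by
  have e : (gT : SpecialLinearGroup (Fin 2) F) = ⁅upT (1 : F), loT (1 : F)⁆ := by
    rw [commutatorElement_def, upT_inv, loT_inv]
    apply sl_ext
    change (!![3, -1; 1, 0] : Matrix (Fin 2) (Fin 2) F) = !![1, 1; 0, 1] * !![1, 0; 1, 1] *
      !![1, -1; 0, 1] * !![1, 0; -1, 1]
    simp only [Matrix.mul_fin_two]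
    ext i j
    fin_cases i <;> fin_cases j <;> simp
    all_goals ring
  rw [e, commutator_def]
  exact Subgroup.commutator_mem_commutator (Subgroup.mem_top _) (Subgroup.mem_top _)

theorem sl2_small {q : ℕ} (hq : q.Prime) (hc : Fintype.card F = q)
    (hdec : ∀ a b c d : ZMod q, ¬ (a = 0 ∧ b = 0) → ∃ α β γ : Fin 3,
      ((α : ℕ) : ZMod q) * a + ((β : ℕ) : ZMod q) * (3 * a - b) + ((γ : ℕ) : ZMod q) * (3 * (3 * a - b) - a) = c ∧
      ((α : ℕ) : ZMod q) * b + ((β : ℕ) : ZMod q) * a + ((γ : ℕ) : ZMod q) * (3 * a - b) = d)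
    (W : AddSubgroup (Fin 2 → F)) (hg : ∀ a b : F, (fun i => ![a, b] i) ∈ W → (fun i => ![3 * a - b, a] i) ∈ W)
    {v : Fin 2 → F} (hv : v ∈ W) (hv0 : v ≠ 0) : W = ⊤ := by
  let e := ZMod.ringEquivOfPrime F hq hc
  have hvv : (fun i => ![v 0, v 1] i) ∈ W := by
    convert hv using 1
    ext i
    fin_cases i <;> simp
  rw [eq_top_iff]
  intro u _
  have hne : ¬ (e.symm (v 0) = 0 ∧ e.symm (v 1) = 0) := by
    rintro ⟨h0, h1⟩
    apply hv0
    have h0' : v 0 = 0 := by simpa using h0
    have h1' : v 1 = 0 := by simpa using h1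
    ext i
    fin_cases i <;> simp [h0', h1']
  obtain ⟨α, β, γ, h1, h2⟩ := hdec _ _ (e.symm (u 0)) (e.symm (u 1)) hne
  have h1' := congrArg e h1
  have h2' := congrArg e h2
  simp only [map_add, map_mul, map_sub, map_natCast, map_ofNat, RingEquiv.apply_symm_apply] at h1' h2'
  have g1 := hg _ _ hvv
  have g2 := hg _ _ g1
  have key := W.add_mem (W.add_mem (W.nsmul_mem hvv (α : ℕ)) (W.nsmul_mem g1 (β : ℕ))) (W.nsmul_mem g2 (γ : ℕ))
  convert key using 1
  ext i
  fin_cases i
  · simpa [nsmul_eq_mul] using h1'.symm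
  · simpa [nsmul_eq_mul] using h2'.symm

/-- `commutator SL₂(F)` is irreducible on `F²`. -/
theorem sl2_irr (W : AddSubgroup (Fin 2 → F))
    (h : ∀ g ∈ commutator (SpecialLinearGroup (Fin 2) F), ∀ v ∈ W,
      (g : Matrix (Fin 2) (Fin 2) F).mulVec v ∈ W) : W = ⊥ ∨ W = ⊤ := by
  classical
  by_cases hW : W = ⊥
  · exact Or.inl hW
  right
  obtain ⟨v, hv, hv0⟩ : ∃ v ∈ W, v ≠ 0 := by
    by_contra hc
    simp only [not_exists, not_and, not_not] at hc
    exact hW (eq_bot_iff.mpr fun v hv => hc v hv)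
  by_cases hF : 4 ≤ Fintype.card F
  · -- many units
    obtain ⟨l, -, hl⟩ := Finset.exists_mem_notMem_of_card_lt_card
      (s := ({0, 1, -1} : Finset F)) (t := Finset.univ) (by
        rw [Finset.card_univ]
        exact lt_of_le_of_lt Finset.card_le_three (by omega))
    simp only [Finset.mem_insert, Finset.mem_singleton, not_or] at hl
    obtain ⟨hl0, hl1, hl2⟩ := hl
    have hl3 : l ^ 2 ≠ 1 := by
      intro h2
      have h4 : l * l = 1 := by rw [← sq]; exact h2
      rcases mul_self_eq_one_iff.mp h4 with h3 | h3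
      · exact hl1 h3
      · exact hl2 h3
    have hup : ∀ a b s : F, (fun i => ![a, b] i) ∈ W → (fun i => ![a + s * b, b] i) ∈ W := by
      intro a b s h1
      have := h _ (upT_mem_comm hl0 hl3 s) _ h1
      convert this using 1
      ext i
      fin_cases i <;> simp [upT, Matrix.mulVec, dotProduct, Fin.sum_univ_two]
    have hlo : ∀ a b s : F, (fun i => ![a, b] i) ∈ W → (fun i => ![a, b + s * a] i) ∈ W := by
      intro a b s h1
      have := h _ (loT_mem_comm hl0 hl3 s) _ h1
      convert this using 1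
      ext i
      fin_cases i <;> simp [loT, Matrix.mulVec, dotProduct, Fin.sum_univ_two]
      ring
    have hvv : (fun i => ![v 0, v 1] i) ∈ W := by
      convert hv using 1
      ext i
      fin_cases i <;> simp
    -- a vector with nonzero second coordinate
    have hx : ∃ a b : F, b ≠ 0 ∧ (fun i => ![a, b] i) ∈ W := by
      by_cases h1 : v 1 = 0
      · have h0 : v 0 ≠ 0 := by
          intro h0
          apply hv0
          ext i
          fin_cases i <;> simp [h0, h1]
        refine ⟨v 0, v 1 + 1 * v 0, by simpa [h1] using h0, hlo _ _ _ hvv⟩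
      · exact ⟨_, _, h1, hvv⟩
    obtain ⟨a, b, hb, hab⟩ := hx
    -- first axis
    have hax : ∀ s : F, (fun i => ![s, 0] i) ∈ W := by
      intro s
      have h1 := hup a b (s / b) hab
      have h2 := W.sub_mem h1 hab
      convert h2 using 1
      ext i
      fin_cases i <;> simp [hb]
    have hay : ∀ s : F, (fun i => ![0, s] i) ∈ W := by
      intro s
      have h1 := hlo 1 0 s (hax 1)
      have h2 := W.sub_mem h1 (hax 1)
      convert h2 using 1
      ext i
      fin_cases i <;> simp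
    rw [eq_top_iff]
    intro u _
    have h1 := W.add_mem (hax (u 0)) (hay (u 1))
    convert h1 using 1
    ext i
    fin_cases i <;> simp
  · -- at most three elements
    have hcard : Fintype.card F = 2 ∨ Fintype.card F = 3 := by
      have := Fintype.one_lt_card (α := F)
      omega
    have hg : ∀ a b : F, (fun i => ![a, b] i) ∈ W → (fun i => ![3 * a - b, a] i) ∈ W := by
      intro a b h1
      have := h _ gT_mem_comm _ h1
      convert this using 1
      ext i
      fin_cases i <;> simp [gT, Matrix.mulVec, dotProduct, Fin.sum_univ_two, sub_eq_add_neg]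
    rcases hcard with hc | hc
    · exact sl2_small Nat.prime_two hc (by decide) W hg hv hv0
    · exact sl2_small Nat.prime_three hc (by decide) W hg hv hv0

end sl2

/-! ### even-weight vectors -/

section alt

variable {n : ℕ}

/-- permutation action on vectors -/
def pAct (σ : Equiv.Perm (Fin n)) (v : Fin n → ZMod 2) : Fin n → ZMod 2 := fun i => v (σ⁻¹ i)

/-- the even weight vectors -/
def evenW (n : ℕ) : AddSubgroup (Fin n → ZMod 2) where
  carrier := {v | ∑ i, v i = 0}
  add_mem' := by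
    intro a b ha hb
    simp only [Set.mem_setOf_eq] at ha hb ⊢
    simp [Finset.sum_add_distrib, ha, hb]
  zero_mem' := by simp
  neg_mem' := by
    intro a ha
    simp only [Set.mem_setOf_eq] at ha ⊢
    simp [Finset.sum_neg_distrib, ha]

theorem zmod2_cases (a : ZMod 2) : a = 0 ∨ a = 1 := by
  revert a; decide

/-- weight two vector -/
def wt2 (i j : Fin n) : Fin n → ZMod 2 := Pi.single i 1 + Pi.single j 1

theorem pAct_single (σ : Equiv.Perm (Fin n)) (a : Fin n) :
    pAct σ (Pi.single a 1) = Pi.single (σ a) 1 := by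
  ext x
  simp only [pAct, Pi.single_apply]
  have : σ⁻¹ x = a ↔ x = σ a := by
    rw [Equiv.Perm.inv_eq_iff_eq]
  exact if_congr this rfl rfl

theorem pAct_wt2 (σ : Equiv.Perm (Fin n)) (a b : Fin n) : pAct σ (wt2 a b) = wt2 (σ a) (σ b) := by
  have h : pAct σ (wt2 a b) = pAct σ (Pi.single a 1) + pAct σ (Pi.single b 1) := rfl
  rw [h, pAct_single, pAct_single]
  rfl

theorem wt2_comm (a b : Fin n) : wt2 a b = wt2 b a := add_comm _ _

theorem wt2_self (a : Fin n) : wt2 a a = 0 := by
  ext x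
  simp only [wt2, Pi.add_apply]
  exact CharTwo.add_self_eq_zero _

theorem exists_even_pair {a b c d : Fin n} (hab : a ≠ b) (hcd : c ≠ d) :
    ∃ σ ∈ alternatingGroup (Fin n), wt2 (σ a) (σ b) = wt2 c d := by
  classical
  -- a permutation taking `a, b` to `c, d`
  obtain ⟨τ, h1, h2⟩ : ∃ τ : Equiv.Perm (Fin n), τ a = c ∧ τ b = d := by
    set b' := Equiv.swap a c b with hb'
    have hb'c : b' ≠ c := by
      intro h
      have : b = a := by
        have h3 := congrArg (Equiv.swap a c) h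
        rw [hb', Equiv.swap_apply_self, Equiv.swap_apply_right] at h3
        exact h3
      exact hab this.symm
    refine ⟨Equiv.swap b' d * Equiv.swap a c, ?_, ?_⟩
    · rw [Equiv.Perm.mul_apply, Equiv.swap_apply_left]
      exact Equiv.swap_apply_of_ne_of_ne hb'c.symm hcd
    · rw [Equiv.Perm.mul_apply, ← hb', Equiv.swap_apply_left]
  rcases Int.units_eq_one_or (Equiv.Perm.sign τ) with hs | hs
  · exact ⟨τ, Equiv.Perm.mem_alternatingGroup.mpr hs, by rw [h1, h2]⟩
  · refine ⟨τ * Equiv.swap a b, Equiv.Perm.mem_alternatingGroup.mpr ?_, ?_⟩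
    · rw [map_mul, hs, Equiv.Perm.sign_swap hab]
      rfl
    · rw [Equiv.Perm.mul_apply, Equiv.Perm.mul_apply, Equiv.swap_apply_left, Equiv.swap_apply_right, h1, h2]
      exact wt2_comm _ _

theorem alt_irr (hodd : Odd n) (W : AddSubgroup (Fin n → ZMod 2)) (hWS : W ≤ evenW n)
    (h : ∀ σ ∈ alternatingGroup (Fin n), ∀ v ∈ W, pAct σ v ∈ W) : W = ⊥ ∨ W = evenW n := by
  classical
  by_cases hW : W = ⊥
  · exact Or.inl hW
  right
  obtain ⟨v, hv, hv0⟩ : ∃ v ∈ W, v ≠ 0 := by
    by_contra hc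
    simp only [not_exists, not_and, not_not] at hc
    exact hW (eq_bot_iff.mpr fun v hv => hc v hv)
  -- a coordinate with value one, one with value zero
  obtain ⟨i, hi⟩ : ∃ i, v i = 1 := by
    by_contra hc
    simp only [not_exists] at hc
    apply hv0
    ext i
    rw [(zmod2_cases (v i)).resolve_right (hc i)]
    rfl
  obtain ⟨j, hj⟩ : ∃ j, v j = 0 := by
    by_contra hc
    simp only [not_exists] at hc
    have h1 : ∀ j, v j = 1 := fun j => (zmod2_cases (v j)).resolve_left (hc j)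
    have h2 : ∑ k, v k = 0 := hWS hv
    simp only [h1, Finset.sum_const, Finset.card_univ, Fintype.card_fin, nsmul_eq_mul, mul_one] at h2
    have h3 : ((n : ℕ) : ZMod 2) = 1 := hodd.natCast_zmod_two
    rw [h3] at h2
    exact one_ne_zero h2
  have hij : i ≠ j := by
    rintro rfl
    rw [hi] at hj
    exact one_ne_zero hj
  have hn3 : 2 < n := by
    have h1 : 1 < n := by
      have := Fintype.one_lt_card_iff.mpr ⟨i, j, hij⟩
      simpa using this
    rcases hodd with ⟨r, hr⟩
    omega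
  obtain ⟨k, -, hk⟩ := Finset.exists_mem_notMem_of_card_lt_card
    (s := ({i, j} : Finset (Fin n))) (t := Finset.univ) (by
      rw [Finset.card_univ, Fintype.card_fin]
      exact lt_of_le_of_lt Finset.card_le_two hn3)
  simp only [Finset.mem_insert, Finset.mem_singleton, not_or] at hk
  obtain ⟨hki, hkj⟩ := hk
  -- a weight two vector
  have h2v : ∃ a b : Fin n, a ≠ b ∧ wt2 a b ∈ W := by
    set σ : Equiv.Perm (Fin n) := Equiv.swap i j * Equiv.swap j k with hσ
    have hσA : σ ∈ alternatingGroup (Fin n) := by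
      rw [Equiv.Perm.mem_alternatingGroup, hσ, map_mul, Equiv.Perm.sign_swap hij,
        Equiv.Perm.sign_swap (Ne.symm hkj)]
      rfl
    have h1 := W.add_mem hv (h σ hσA v hv)
    have hσ1 : ∀ x, σ⁻¹ x = Equiv.swap j k (Equiv.swap i j x) := by
      intro x
      rw [hσ, _root_.mul_inv_rev, Equiv.swap_inv, Equiv.swap_inv, Equiv.Perm.mul_apply]
    rcases zmod2_cases (v k) with hvk | hvk
    · refine ⟨i, j, hij, ?_⟩
      convert h1 using 1
      ext x
      simp only [wt2, Pi.add_apply, pAct, hσ1, Pi.single_apply]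
      by_cases hxi : x = i
      · subst hxi
        rw [Equiv.swap_apply_left, Equiv.swap_apply_left, hi, hvk]
        simp [hij]
      by_cases hxj : x = j
      · subst hxj
        rw [Equiv.swap_apply_right, Equiv.swap_apply_of_ne_of_ne hij (Ne.symm hki), hi, hj]
        simp [Ne.symm hij]
      by_cases hxk : x = k
      · subst hxk
        rw [Equiv.swap_apply_of_ne_of_ne hki hkj, Equiv.swap_apply_right, hj, hvk]
        simp [hki, hkj]
      · rw [Equiv.swap_apply_of_ne_of_ne hxi hxj, Equiv.swap_apply_of_ne_of_ne hxj hxk]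
        simp only [hxi, hxj, if_false]
        exact (CharTwo.add_self_eq_zero _).symm
    · refine ⟨j, k, Ne.symm hkj, ?_⟩
      convert h1 using 1
      ext x
      simp only [wt2, Pi.add_apply, pAct, hσ1, Pi.single_apply]
      by_cases hxi : x = i
      · subst hxi
        rw [Equiv.swap_apply_left, Equiv.swap_apply_left, hi, hvk]
        simp [hij, Ne.symm hki]
        exact (CharTwo.add_self_eq_zero _).symm
      by_cases hxj : x = j
      · subst hxj
        rw [Equiv.swap_apply_right, Equiv.swap_apply_of_ne_of_ne hij (Ne.symm hki), hi, hj]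
        simp [Ne.symm hkj]
      by_cases hxk : x = k
      · subst hxk
        rw [Equiv.swap_apply_of_ne_of_ne hki hkj, Equiv.swap_apply_right, hj, hvk]
        simp [hkj]
      · rw [Equiv.swap_apply_of_ne_of_ne hxi hxj, Equiv.swap_apply_of_ne_of_ne hxj hxk]
        simp only [hxj, hxk, if_false]
        simp only [add_zero]
        exact (CharTwo.add_self_eq_zero _).symm
  obtain ⟨a, b, hab, h2⟩ := h2v
  have hall : ∀ c d : Fin n, wt2 c d ∈ W := by
    intro c d
    by_cases hcd : c = d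
    · subst hcd
      rw [wt2_self]
      exact W.zero_mem
    · obtain ⟨σ, hσ, hσe⟩ := exists_even_pair hab hcd
      rw [← hσe, ← pAct_wt2]
      exact h σ hσ _ h2
  apply le_antisymm hWS
  intro u hu
  have hu0 : ∑ k, u k = 0 := hu
  have key : u = ∑ x, u x • wt2 x i := by
    ext y
    simp only [Finset.sum_apply, Pi.smul_apply, wt2, Pi.add_apply, smul_eq_mul, mul_add, Finset.sum_add_distrib]
    rw [← Finset.sum_mul, hu0, zero_mul, add_zero]
    simp [Pi.single_apply]
  rw [key]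
  refine W.sum_mem fun x _ => ?_
  rcases zmod2_cases (u x) with hx | hx
  · rw [hx, zero_smul]
    exact W.zero_mem
  · rw [hx, one_smul]
    exact hall x i

end alt

/-! ### the section statements -/

section wrap
variable [Finite G] {E U U₀ : Subgroup G}

theorem irr_of_sl2 {F : Type*} [Field F] [Fintype F]
    (h : ActsAsSL2OnSection F (commutator (SpecialLinearGroup (Fin 2) F)) E U U₀) : IrrSec E U U₀ := by
  obtain ⟨-, hU₀, ρ, ψ, hρ, hψ, hker, hact⟩ := h
  refine irrSec_of_action (⊤ : AddSubgroup (Fin 2 → F)) ?_ ψ (fun _ => AddSubgroup.mem_top _) ?_ hker hU₀ ?_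
  · intro h0
    have h1 : (fun _ => 1 : Fin 2 → F) ∈ (⊤ : AddSubgroup (Fin 2 → F)) := AddSubgroup.mem_top _
    rw [h0, AddSubgroup.mem_bot] at h1
    have := congrFun h1 0
    exact one_ne_zero this
  · intro v _
    obtain ⟨u, hu⟩ := hψ (Multiplicative.ofAdd v)
    exact ⟨u, by rw [hu]; rfl⟩
  · intro W _ hinv
    apply sl2_irr W
    intro g hg v hv
    have hg' : g ∈ ρ.range := by rw [hρ]; exact hg
    obtain ⟨e, rfl⟩ := hg'
    by_cases hv0 : ∃ u : ↥U, Multiplicative.toAdd (ψ u) = v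
    · obtain ⟨u, rfl⟩ := hv0
      obtain ⟨w, hw1, hw2⟩ := hact e u
      rw [← hw2]
      exact hinv e e.2 u hv w hw1
    · exact absurd (by
        obtain ⟨u, hu⟩ := hψ (Multiplicative.ofAdd v)
        exact ⟨u, by rw [hu]; rfl⟩) hv0

theorem irr_of_alt {n : ℕ} (hodd : Odd n) (hn : 1 < n)
    (h : ActsAsOddPermModuleOnSection n (alternatingGroup (Fin n)) E U U₀) : IrrSec E U U₀ := by
  obtain ⟨-, hU₀, ρ, ψ, hρ, hψ, hsurj, hker, hact⟩ := h
  refine irrSec_of_action (evenW n) ?_ ψ hψ hsurj hker hU₀ ?_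
  · intro h0
    have h1 : wt2 (⟨0, by omega⟩ : Fin n) ⟨1, hn⟩ ∈ evenW n := by
      show ∑ k, wt2 (⟨0, by omega⟩ : Fin n) ⟨1, hn⟩ k = 0
      simp only [wt2, Pi.add_apply, Finset.sum_add_distrib]
      simp only [Pi.single_apply, Finset.sum_ite_eq', Finset.mem_univ, if_true]
      decide
    rw [h0, AddSubgroup.mem_bot] at h1
    have h2 := congrFun h1 ⟨0, by omega⟩
    simp [wt2, Pi.single_apply] at h2
  · intro W hWS hinv
    apply alt_irr hodd W hWS
    intro σ hσ v hv
    have hσ' : σ ∈ ρ.range := by rw [hρ]; exact hσ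
    obtain ⟨e, rfl⟩ := hσ'
    obtain ⟨u, rfl⟩ := hsurj v (hWS hv)
    obtain ⟨w, hw1, hw2⟩ := hact e u
    have h3 := hinv e e.2 u hv w hw1
    convert h3 using 1
    ext x
    exact (hw2 x).symm

end wrap

end Cfsg.Agent.H13.Blk
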