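import Mathlib
import Cfsg.Prelude.Def_JComponents
import Cfsg.Agent.Lib.H13.KeyChar
import Cfsg.Agent.Lib.H13.CharP
import Cfsg.Agent.Lib.H12.Core

set_option autoImplicit false

namespace Cfsg.Agent.H13

open Cfsg
open scoped commutatorElement

variable {G : Type*} [Group G] [Finite G]

/-- A `p'`-element of `M K` (`M` a `p`-group normalizing `K`) lies in `K`. -/
theorem coprime_mem_of_mul {p : ℕ} [Fact p.Prime] {K M : Subgroup G}
    (hM : M ≤ Subgroup.normalizer (K : Set G)) (hMp : IsPGroup p M) {m x : G} (hm : m ∈ M) (hx : x ∈ K)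
    (hco : Nat.Coprime (orderOf (m * x)) p) : m * x ∈ K := by
  set N := Subgroup.normalizer (K : Set G) with hN
  have hxN : x ∈ N := Subgroup.le_normalizer hx
  haveI : (K.subgroupOf N).Normal := Subgroup.normal_in_normalizer
  have hY : IsPGroup p (M.subgroupOf N) := isPGroup_subgroupOf hMp
  have hz : (⟨m * x, N.mul_mem (hM hm) hxN⟩ : ↥N) ∈ K.subgroupOf N ⊔ M.subgroupOf N := by
    have : (⟨m * x, N.mul_mem (hM hm) hxN⟩ : ↥N) = ⟨m, hM hm⟩ * ⟨x, hxN⟩ := rfl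
    rw [this]
    apply Subgroup.mul_mem
    · apply Subgroup.mem_sup_right
      rw [Subgroup.mem_subgroupOf]
      exact hm
    · apply Subgroup.mem_sup_left
      rw [Subgroup.mem_subgroupOf]
      exact hx
  have hco' : Nat.Coprime (orderOf (⟨m * x, N.mul_mem (hM hm) hxN⟩ : ↥N)) p := by
    rw [Subgroup.orderOf_mk]
    exact hco
  have := H12.coprime_mem_of_mem_sup _ _ hY hz hco'
  rwa [Subgroup.mem_subgroupOf] at this

theorem normalizes_of_jcomponent {K J Q : Subgroup G} (hJ : IsPGroup 2 J)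
    (hKodd : Subgroup.closure {g : G | g ∈ K ∧ Odd (orderOf g)} = K) (hKJ : ⁅K, J⁆ = K)
    (hidx : (pCoreOf 2 K).relIndex K = 3)
    (hQ1 : K ⊔ J ≤ Subgroup.normalizer (Q : Set G)) (hQ2 : Q ≤ Subgroup.normalizer (J : Set G)) :
    Q ≤ Subgroup.normalizer (K : Set G) := by
  haveI : Fact (Nat.Prime 2) := ⟨Nat.prime_two⟩
  have hKQ : K ≤ Subgroup.normalizer (Q : Set G) := le_sup_left.trans hQ1
  have hJQ : J ≤ Subgroup.normalizer (Q : Set G) := le_sup_right.trans hQ1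
  set O := pCoreOf 2 K with hO
  have hOK : O ≤ K := pCoreOf_le K
  have hOp : IsPGroup 2 O := isPGroup_pCoreOf K
  have hKNO : K ≤ Subgroup.normalizer (O : Set G) := pCoreOf_normalized K
  have hJNK : J ≤ Subgroup.normalizer (K : Set G) := by
    intro j hj
    apply mem_normalizer_of_map_conj_le
    rintro _ ⟨k, hk, rfl⟩
    have h1 : ⁅k⁻¹, j⁆ ∈ K := by
      have h0 : ⁅k⁻¹, j⁆ ∈ ⁅K, J⁆ := Subgroup.commutator_mem_commutator (K.inv_mem hk) hj
      rwa [hKJ] at h0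
    have h2 := K.mul_mem hk h1
    have e : k * ⁅k⁻¹, j⁆ = j * k * j⁻¹ := by
      rw [commutatorElement_def]
      group
    rw [e] at h2
    exact h2
  have hJNO : J ≤ Subgroup.normalizer (O : Set G) := hJNK.trans (normalizer_le_normalizer_pCoreOf K)
  -- `2`-elements of `K` lie in `O`
  set Ot := pCore 2 ↥K with hOt
  have hOOt : Ot = O.subgroupOf K := by
    rw [hO, hOt]
    exact (Subgroup.comap_map_eq_self_of_injective K.subtype_injective _).symm
  have hcard : Nat.card (↥K ⧸ Ot) = 3 := by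
    have : Ot.index = 3 := by
      rw [hOOt]
      exact hidx
    exact this
  have h2el : ∀ a ∈ K, (∃ n : ℕ, a ^ 2 ^ n = 1) → a ∈ O := by
    rintro a ha ⟨n, hn⟩
    have h1 : ((⟨a, ha⟩ : ↥K) : ↥K ⧸ Ot) ^ 3 = 1 := by
      have := pow_card_eq_one' (x := ((⟨a, ha⟩ : ↥K) : ↥K ⧸ Ot))
      rwa [hcard] at this
    have h2 : ((⟨a, ha⟩ : ↥K) : ↥K ⧸ Ot) ^ 2 ^ n = 1 := by
      rw [← QuotientGroup.mk_pow]
      have : (⟨a, ha⟩ : ↥K) ^ 2 ^ n = 1 := Subtype.ext hn
      rw [this]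
      rfl
    have h3 := orderOf_dvd_of_pow_eq_one h1
    have h4 := orderOf_dvd_of_pow_eq_one h2
    have h5 : orderOf ((⟨a, ha⟩ : ↥K) : ↥K ⧸ Ot) = 1 :=
      Nat.eq_one_of_dvd_coprimes (Nat.Coprime.pow_right n (by decide : Nat.Coprime 3 2)) h3 h4
    rw [orderOf_eq_one_iff, QuotientGroup.eq_one_iff, hOOt, Subgroup.mem_subgroupOf] at h5
    exact h5
  have hJK : J ⊓ K ≤ O := by
    intro a ha
    obtain ⟨h1, h2⟩ := Subgroup.mem_inf.1 ha
    obtain ⟨n, hn⟩ := hJ ⟨a, h1⟩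
    exact h2el a h2 ⟨n, congrArg Subtype.val hn⟩
  -- commutators of elements of `Q ∩ K` with `J` lie in `O`
  have hcomm0 : ∀ x ∈ Q ⊓ K, ∀ j ∈ J, ⁅x, j⁆ ∈ O := by
    intro x hx j hj
    obtain ⟨hxQ, hxK⟩ := Subgroup.mem_inf.1 hx
    apply hJK
    refine Subgroup.mem_inf.2 ⟨?_, ?_⟩
    · rw [commutatorElement_def]
      exact J.mul_mem ((Subgroup.mem_normalizer_iff.1 (hQ2 hxQ) j).1 hj) (J.inv_mem hj)
    · rw [commutatorElement_def]
      have h1 := (Subgroup.mem_normalizer_iff.1 (hJNK hj) x⁻¹).1 (K.inv_mem hxK)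
      have h2 := K.mul_mem hxK h1
      have e : x * (j * x⁻¹ * j⁻¹) = x * j * x⁻¹ * j⁻¹ := by group
      rwa [e] at h2
  have hOJ : ∀ o ∈ O, ∀ j ∈ J, ⁅o, j⁆ ∈ O := by
    intro o ho j hj
    rw [commutatorElement_def]
    have h1 := (Subgroup.mem_normalizer_iff.1 (hJNO hj) o⁻¹).1 (O.inv_mem ho)
    have h2 := O.mul_mem ho h1
    have e : o * (j * o⁻¹ * j⁻¹) = o * j * o⁻¹ * j⁻¹ := by group
    rwa [e] at h2
  -- Claim 1
  have hQK : Q ⊓ K ≤ O := by
    intro x hx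
    by_contra hxO
    obtain ⟨hxQ, hxK⟩ := Subgroup.mem_inf.1 hx
    have hxne : ((⟨x, hxK⟩ : ↥K) : ↥K ⧸ Ot) ≠ 1 := by
      intro h
      rw [QuotientGroup.eq_one_iff, hOOt, Subgroup.mem_subgroupOf] at h
      exact hxO h
    haveI : Fact (Nat.card (↥K ⧸ Ot)).Prime := ⟨by rw [hcard]; exact Nat.prime_three⟩
    have hKO : K ≤ O := by
      rw [← hKJ, Subgroup.commutator_le]
      intro k hk j hj
      obtain ⟨i, hi⟩ := Subgroup.mem_zpowers_iff.1
        (mem_zpowers_of_prime_card (p := Nat.card (↥K ⧸ Ot)) rfl hxne (g' := ((⟨k, hk⟩ : ↥K) : ↥K ⧸ Ot)))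
      have hi' : ((⟨x, hxK⟩ : ↥K) ^ i)⁻¹ * ⟨k, hk⟩ ∈ Ot := by
        rw [← QuotientGroup.eq]
        rw [QuotientGroup.mk_zpow]
        exact hi
      rw [hOOt, Subgroup.mem_subgroupOf] at hi'
      set o : G := (((⟨x, hxK⟩ : ↥K) ^ i)⁻¹ * ⟨k, hk⟩ : ↥K).1 with ho
      have hke : k = x ^ i * o := by
        rw [ho]
        simp
      have hxi : x ^ i ∈ Q ⊓ K := (Q ⊓ K).zpow_mem hx i
      have e : ⁅x ^ i * o, j⁆ = (x ^ i) * ⁅o, j⁆ * (x ^ i)⁻¹ * ⁅x ^ i, j⁆ := by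
        simp only [commutatorElement_def]
        group
      rw [hke, e]
      refine O.mul_mem ?_ (hcomm0 _ hxi j hj)
      exact (Subgroup.mem_normalizer_iff.1 (hKNO (Subgroup.mem_inf.1 hxi).2) _).1 (hOJ o hi' j hj)
    have := Subgroup.relIndex_eq_one.2 hKO
    omega
  set D := Q ⊓ J with hD
  have hDK : ∀ d ∈ D, ∀ k ∈ K, k * d * k⁻¹ * d⁻¹ ∈ O := by
    intro d hd k hk
    obtain ⟨hdQ, hdJ⟩ := Subgroup.mem_inf.1 hd
    apply hQK
    refine Subgroup.mem_inf.2 ⟨?_, ?_⟩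
    · exact Q.mul_mem ((Subgroup.mem_normalizer_iff.1 (hKQ hk) d).1 hdQ) (Q.inv_mem hdQ)
    · have h1 := (Subgroup.mem_normalizer_iff.1 (hJNK hdJ) k⁻¹).1 (K.inv_mem hk)
      have h2 := K.mul_mem hk h1
      have e : k * (d * k⁻¹ * d⁻¹) = k * d * k⁻¹ * d⁻¹ := by group
      rwa [e] at h2
  set M : Subgroup G := ⨆ k : ↥K, D.map (MulAut.conj (k : G)).toMonoidHom with hM
  have hgen : ∀ k ∈ K, ∀ d ∈ D, k * d * k⁻¹ ∈ M := by
    intro k hk d hd
    exact (le_iSup (fun k : ↥K => D.map (MulAut.conj (k : G)).toMonoidHom) ⟨k, hk⟩) ⟨d, hd, rfl⟩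
  have hM_le : ∀ X : Subgroup G, (∀ k ∈ K, ∀ d ∈ D, k * d * k⁻¹ ∈ X) → M ≤ X := by
    intro X hX
    apply iSup_le
    rintro ⟨k, hk⟩ _ ⟨d, hd, rfl⟩
    exact hX k hk d hd
  have hMnorm : ∀ g : G, (∀ k ∈ K, ∀ d ∈ D, g * (k * d * k⁻¹) * g⁻¹ ∈ M) →
      g ∈ Subgroup.normalizer (M : Set G) := by
    intro g hg
    apply mem_normalizer_of_map_conj_le
    rw [Subgroup.map_le_iff_le_comap]
    apply hM_le
    intro k hk d hd
    exact hg k hk d hd
  have hDM : D ≤ M := by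
    intro d hd
    have := hgen 1 K.one_mem d hd
    simpa using this
  have hKM : K ≤ Subgroup.normalizer (M : Set G) := by
    intro k₀ hk₀
    apply hMnorm
    intro k hk d hd
    have := hgen (k₀ * k) (K.mul_mem hk₀ hk) d hd
    convert this using 1
    group
  have hJM : J ≤ Subgroup.normalizer (M : Set G) := by
    intro j hj
    apply hMnorm
    intro k hk d hd
    obtain ⟨hdQ, hdJ⟩ := Subgroup.mem_inf.1 hd
    have hd' : j * d * j⁻¹ ∈ D := Subgroup.mem_inf.2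
      ⟨(Subgroup.mem_normalizer_iff.1 (hJQ hj) d).1 hdQ, J.mul_mem (J.mul_mem hj hdJ) (J.inv_mem hj)⟩
    have hk' : j * k * j⁻¹ ∈ K := (Subgroup.mem_normalizer_iff.1 (hJNK hj) k).1 hk
    have := hgen _ hk' _ hd'
    convert this using 1
    group
  have hQM : Q ≤ Subgroup.normalizer (M : Set G) := by
    intro q hq
    apply hMnorm
    intro k hk d hd
    obtain ⟨hdQ, hdJ⟩ := Subgroup.mem_inf.1 hd
    have hq' : k⁻¹ * q * k ∈ Q := by
      have := (Subgroup.mem_normalizer_iff.1 (hKQ (K.inv_mem hk)) q).1 hq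
      simpa using this
    have hd' : (k⁻¹ * q * k) * d * (k⁻¹ * q * k)⁻¹ ∈ D := Subgroup.mem_inf.2
      ⟨Q.mul_mem (Q.mul_mem hq' hdQ) (Q.inv_mem hq'), (Subgroup.mem_normalizer_iff.1 (hQ2 hq') d).1 hdJ⟩
    have := hgen k hk _ hd'
    convert this using 1
    group
  have hMQ : M ≤ Q := by
    apply hM_le
    intro k hk d hd
    exact (Subgroup.mem_normalizer_iff.1 (hKQ hk) d).1 (Subgroup.mem_inf.1 hd).1
  have hPp : IsPGroup 2 (J ⊔ O : Subgroup G) := hJ.to_sup_of_normal_right' hOp hJNO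
  have hMP : M ≤ J ⊔ O := by
    apply hM_le
    intro k hk d hd
    have e : k * d * k⁻¹ = (k * d * k⁻¹ * d⁻¹) * d := by group
    rw [e]
    exact Subgroup.mul_mem _ (Subgroup.mem_sup_right (hDK d hd k hk))
      (Subgroup.mem_sup_left (Subgroup.mem_inf.1 hd).2)
  have hMp : IsPGroup 2 M := hPp.to_le hMP
  have hMNK : M ≤ Subgroup.normalizer (K : Set G) := by
    apply hM_le
    intro k hk d hd
    exact Subgroup.mul_mem _ (Subgroup.mul_mem _ (Subgroup.le_normalizer hk)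
      (hJNK (Subgroup.mem_inf.1 hd).2)) (Subgroup.inv_mem _ (Subgroup.le_normalizer hk))
  have hJQD : ⁅J, Q⁆ ≤ D := le_inf (commutator_le_right_of_le_normalizer hJQ)
    (commutator_le_left_of_le_normalizer hQ2)
  have hDKM : ⁅D, K⁆ ≤ M := by
    rw [Subgroup.commutator_le]
    intro d hd k hk
    rw [commutatorElement_def]
    have h1 := M.mul_mem (hDM hd) (hgen k hk _ (D.inv_mem hd))
    have e : d * (k * d⁻¹ * k⁻¹) = d * k * d⁻¹ * k⁻¹ := by group
    rwa [e] at h1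
  have hmain : ⁅⁅K, J⁆, Q⁆ ≤ M := by
    apply three_subgroups_of_normalizer K J Q M hKM hJM hQM
    · exact (Subgroup.commutator_mono hJQD le_rfl).trans hDKM
    · refine (Subgroup.commutator_mono (commutator_le_left_of_le_normalizer hKQ) le_rfl).trans ?_
      rw [Subgroup.commutator_comm]
      exact hJQD.trans hDM
  rw [hKJ] at hmain
  intro q hq
  apply mem_normalizer_of_map_conj_le
  rw [Subgroup.map_le_iff_le_comap]
  have hle : K ≤ K.comap (MulAut.conj q).toMonoidHom := by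
    conv_lhs => rw [← hKodd]
    rw [Subgroup.closure_le]
    rintro x ⟨hx, hodd⟩
    have hm : q * x * q⁻¹ * x⁻¹ ∈ M := by
      apply hmain
      rw [Subgroup.commutator_comm]
      have := Subgroup.commutator_mem_commutator hq hx
      rwa [commutatorElement_def] at this
    have e : (MulAut.conj q).toMonoidHom x = (q * x * q⁻¹ * x⁻¹) * x := by
      show q * x * q⁻¹ = _
      group
    show (MulAut.conj q).toMonoidHom x ∈ K
    rw [e]
    apply coprime_mem_of_mul hMNK hMp hm hx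
    rw [← e]
    have e2 : orderOf ((MulAut.conj q).toMonoidHom x) = orderOf x :=
      MulEquiv.orderOf_eq (MulAut.conj q) x
    rw [e2]
    exact Nat.coprime_two_right.2 hodd
  exact hle

end Cfsg.Agent.H13
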