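import Mathlib
import Cfsg.Prelude.Def_BaumannBlocks
import Cfsg.Agent.Lib.H14.ZJInst
import Cfsg.Agent.Lib.H13.JComp
import Cfsg.Agent.Lib.H13.BlkIrr
import Cfsg.Agent.Lib.H09.KInf

/-!
# Elementary theory of `B(T)`-blocks

If `E = O^p(E) = [E, B]` with `B` a `p`-group, then every subgroup normalized by `E` that normalizes `B` normalizes
`E` (it normalizes `⟨B^E⟩ = E B` and `E = O^p(E B)`); and a `p`-subgroup normalized by `B(T)` normalizes `B(T)`.
-/

set_option autoImplicit false

namespace Cfsg.Agent.H13.Blk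

open Cfsg Cfsg.Agent.H13
open scoped commutatorElement

variable {G : Type*} [Group G] [Finite G] {p : ℕ} [Fact p.Prime]

omit [Finite G] [Fact p.Prime] in
theorem pResidualOf_eq (E : Subgroup G) :
    pResidualOf p E = Subgroup.closure {x : G | x ∈ E ∧ Nat.Coprime (orderOf x) p} := by
  unfold pResidualOf pResidual
  rw [MonoidHom.map_closure]
  congr 1
  ext x
  constructor
  · rintro ⟨y, hy, rfl⟩
    exact ⟨y.2, by simpa [Subgroup.orderOf_coe] using hy⟩
  · rintro ⟨h1, h2⟩
    exact ⟨⟨x, h1⟩, by simpa [Subgroup.orderOf_mk] using h2, rfl⟩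

omit [Fact p.Prime] in
theorem coprime_mem_of_mem_sup' [Fact p.Prime] {E B : Subgroup G} (hBN : B ≤ Subgroup.normalizer (E : Set G))
    (hBp : IsPGroup p B) {x : G} (hx : x ∈ E ⊔ B) (hco : Nat.Coprime (orderOf x) p) : x ∈ E := by
  set N := Subgroup.normalizer (E : Set G) with hN
  have hEN : E ≤ N := Subgroup.le_normalizer
  haveI : (E.subgroupOf N).Normal := Subgroup.normal_in_normalizer
  have hY : IsPGroup p (B.subgroupOf N) := hBp.comap_subtype
  have hmap : E ⊔ B = (E.subgroupOf N ⊔ B.subgroupOf N).map N.subtype := by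
    rw [Subgroup.map_sup, Subgroup.map_subgroupOf_eq_of_le hEN, Subgroup.map_subgroupOf_eq_of_le hBN]
  rw [hmap] at hx
  obtain ⟨y, hy, rfl⟩ := hx
  have hco' : Nat.Coprime (orderOf y) p := by
    simpa [Subgroup.orderOf_coe] using hco
  have := H12.coprime_mem_of_mem_sup _ _ hY hy hco'
  rwa [Subgroup.mem_subgroupOf] at this

/-- The basic lemma: if `E = O^p(E) = [E, B]` and `Q` is normalized by `E` and normalizes `B`, then `Q` normalizes
`E`. -/
theorem normalizes_block {E B Q : Subgroup G} (hE : pResidualOf p E = E) (hEB : ⁅E, B⁆ = E) (hBp : IsPGroup p B)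
    (hEQ : E ≤ Subgroup.normalizer (Q : Set G)) (hQB : Q ≤ Subgroup.normalizer (B : Set G)) :
    Q ≤ Subgroup.normalizer (E : Set G) := by
  have hBN : B ≤ Subgroup.normalizer (E : Set G) := by
    intro b hb
    apply mem_normalizer_of_map_conj_le
    rintro _ ⟨e, he, rfl⟩
    have h1 : ⁅e⁻¹, b⁆ ∈ E := by
      have h0 : ⁅e⁻¹, b⁆ ∈ ⁅E, B⁆ := Subgroup.commutator_mem_commutator (E.inv_mem he) hb
      rwa [hEB] at h0
    have h2 := E.mul_mem he h1
    have e2 : e * ⁅e⁻¹, b⁆ = b * e * b⁻¹ := by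
      rw [commutatorElement_def]
      group
    rw [e2] at h2
    exact h2
  set D : Subgroup G := ⨆ e : ↥E, B.map (MulAut.conj (e : G)).toMonoidHom with hD
  have hgen : ∀ e ∈ E, ∀ b ∈ B, e * b * e⁻¹ ∈ D := by
    intro e he b hb
    exact (le_iSup (fun e : ↥E => B.map (MulAut.conj (e : G)).toMonoidHom) ⟨e, he⟩) ⟨b, hb, rfl⟩
  have hD_le : ∀ X : Subgroup G, (∀ e ∈ E, ∀ b ∈ B, e * b * e⁻¹ ∈ X) → D ≤ X := by
    intro X hX
    apply iSup_le
    rintro ⟨e, he⟩ _ ⟨b, hb, rfl⟩
    exact hX e he b hb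
  have hBD : B ≤ D := by
    intro b hb
    simpa using hgen 1 E.one_mem b hb
  have hED : E ≤ D := by
    conv_lhs => rw [← hEB]
    rw [Subgroup.commutator_le]
    intro e he b hb
    rw [commutatorElement_def]
    exact D.mul_mem (hgen e he b hb) (D.inv_mem (hBD hb))
  have hQD : Q ≤ Subgroup.normalizer (D : Set G) := by
    intro q hq
    apply mem_normalizer_of_map_conj_le
    rw [Subgroup.map_le_iff_le_comap]
    apply hD_le
    intro e he b hb
    show q * (e * b * e⁻¹) * q⁻¹ ∈ D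
    have hq' : e⁻¹ * q * e ∈ Q := by
      have := (Subgroup.mem_normalizer_iff.1 (hEQ (E.inv_mem he)) q).1 hq
      simpa using this
    have hb' := (Subgroup.mem_normalizer_iff.1 (hQB hq') b).1 hb
    have h3 := hgen e he _ hb'
    convert h3 using 1
    group
  have hDle : D ≤ E ⊔ B := by
    apply hD_le
    intro e he b hb
    exact Subgroup.mul_mem _ (Subgroup.mul_mem _ (Subgroup.mem_sup_left he) (Subgroup.mem_sup_right hb))
      (Subgroup.inv_mem _ (Subgroup.mem_sup_left he))
  intro q hq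
  apply mem_normalizer_of_map_conj_le
  rw [Subgroup.map_le_iff_le_comap]
  have hle : E ≤ E.comap (MulAut.conj q).toMonoidHom := by
    conv_lhs => rw [← hE, pResidualOf_eq]
    rw [Subgroup.closure_le]
    rintro x ⟨hx, hco⟩
    show (MulAut.conj q).toMonoidHom x ∈ E
    have h1 : (MulAut.conj q).toMonoidHom x ∈ D :=
      (Subgroup.mem_normalizer_iff.1 (hQD hq) x).1 (hED hx)
    refine coprime_mem_of_mem_sup' hBN hBp (hDle h1) ?_
    have e2 : orderOf ((MulAut.conj q).toMonoidHom x) = orderOf x :=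
      MulEquiv.orderOf_eq (MulAut.conj q) x
    rwa [e2]
  exact hle

/-! ### the Thompson subgroup -/

omit [Finite G] [Fact p.Prime] in
theorem mx_conj {P A : Subgroup G} (g : G) (h : A ∈ (H14.elFam G p).mx P) :
    A.map (MulAut.conj g).toMonoidHom ∈ (H14.elFam G p).mx (P.map (MulAut.conj g).toMonoidHom) := by
  refine ⟨Subgroup.map_mono h.1, (H14.elFam G p).F_conj A g h.2.1, fun B hB hFB => ?_⟩
  have h1 := h.2.2 (B.map (MulAut.conj g⁻¹).toMonoidHom) ?_ ((H14.elFam G p).F_conj B g⁻¹ hFB)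
  · rwa [card_map_conj, ← card_map_conj g A] at h1
  · have := Subgroup.map_mono (f := (MulAut.conj g⁻¹).toMonoidHom) hB
    rwa [map_conj_inv_map_conj] at this

omit [Finite G] [Fact p.Prime] in
theorem th_conj_le (g : G) (P : Subgroup G) :
    (thompsonSubgroupOf p P).map (MulAut.conj g).toMonoidHom ≤
      thompsonSubgroupOf p (P.map (MulAut.conj g).toMonoidHom) := by
  rw [H14.thompsonSubgroupOf_eq_jj, H14.thompsonSubgroupOf_eq_jj, Subgroup.map_le_iff_le_comap]
  refine sSup_le fun A hA => ?_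
  rw [← Subgroup.map_le_iff_le_comap]
  exact H14.ZJFam.le_jj (mx_conj g hA)

omit [Finite G] [Fact p.Prime] in
theorem th_conj (g : G) (P : Subgroup G) :
    thompsonSubgroupOf p (P.map (MulAut.conj g).toMonoidHom) =
      (thompsonSubgroupOf p P).map (MulAut.conj g).toMonoidHom := by
  apply le_antisymm _ (th_conj_le g P)
  have h1 := th_conj_le (p := p) g⁻¹ (P.map (MulAut.conj g).toMonoidHom)
  rw [map_conj_inv_map_conj] at h1
  have h2 := Subgroup.map_mono (f := (MulAut.conj g).toMonoidHom) h1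
  rwa [map_conj_map_conj_inv] at h2

omit [Fact p.Prime] in
/-- If `P ≤ P'` and `J(P') ≤ P` then `J(P) = J(P')`. -/
theorem th_of_le {P P' : Subgroup G} (h : P ≤ P') (hJ : thompsonSubgroupOf p P' ≤ P) :
    thompsonSubgroupOf p P = thompsonSubgroupOf p P' := by
  rw [H14.thompsonSubgroupOf_eq_jj] at hJ ⊢
  rw [H14.thompsonSubgroupOf_eq_jj]
  set Fm := H14.elFam G p
  have h1 : ∀ A ∈ Fm.mx P', A ∈ Fm.mx P := fun A hA =>
    ⟨(H14.ZJFam.le_jj hA).trans hJ, hA.2.1, fun B hB hFB => hA.2.2 B (hB.trans h) hFB⟩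
  have h2 : ∀ A ∈ Fm.mx P, A ∈ Fm.mx P' := by
    intro A hA
    obtain ⟨A₀, hA₀⟩ := H14.ZJFam.exists_mx Fm P'
    refine ⟨hA.1.trans h, hA.2.1, fun B hB hFB => (hA₀.2.2 B hB hFB).trans ?_⟩
    exact hA.2.2 A₀ (h1 A₀ hA₀).1 hA₀.2.1
  have h3 : Fm.mx P = Fm.mx P' := Set.ext fun A => ⟨h2 A, h1 A⟩
  show sSup (Fm.mx P) = sSup (Fm.mx P')
  rw [h3]

omit [Finite G] [Fact p.Prime] in
theorem omegaOne_conj (g : G) (X : Subgroup G) :
    omegaOne p (X.map (MulAut.conj g).toMonoidHom) = (omegaOne p X).map (MulAut.conj g).toMonoidHom := by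
  unfold omegaOne
  rw [MonoidHom.map_closure]
  congr 1
  ext x
  constructor
  · rintro ⟨⟨y, hy, rfl⟩, h2⟩
    refine ⟨y, ⟨hy, ?_⟩, rfl⟩
    have h3 : (MulAut.conj g).toMonoidHom (y ^ p) = 1 := by rw [map_pow]; exact h2
    exact (map_eq_one_iff _ (MulAut.conj g).injective).mp h3
  · rintro ⟨y, ⟨hy, h2⟩, rfl⟩
    refine ⟨⟨y, hy, rfl⟩, ?_⟩
    rw [← map_pow, h2, map_one]

omit [Finite G] [Fact p.Prime] in
theorem centerTh_conj (g : G) (X : Subgroup G) :
    centerThompsonOf p (X.map (MulAut.conj g).toMonoidHom) =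
      (centerThompsonOf p X).map (MulAut.conj g).toMonoidHom := by
  unfold centerThompsonOf
  rw [map_conj_inf, th_conj, map_conj_centralizer]

omit [Finite G] [Fact p.Prime] in
theorem baumann_conj (g : G) (X : Subgroup G) :
    baumannSubgroupOf p (X.map (MulAut.conj g).toMonoidHom) =
      (baumannSubgroupOf p X).map (MulAut.conj g).toMonoidHom := by
  unfold baumannSubgroupOf
  rw [map_conj_inf, centerTh_conj, omegaOne_conj, map_conj_centralizer]

omit [Finite G] [Fact p.Prime] in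
theorem th_le (P : Subgroup G) : thompsonSubgroupOf p P ≤ P := by
  rw [thompsonSubgroupOf]
  exact Subgroup.map_subtype_le _

omit [Finite G] [Fact p.Prime] in
theorem omegaOne_le (X : Subgroup G) : omegaOne p X ≤ X := by
  unfold omegaOne
  rw [Subgroup.closure_le]
  exact fun _ h => h.1

omit [Finite G] [Fact p.Prime] in
theorem th_le_baumann (P : Subgroup G) : thompsonSubgroupOf p P ≤ baumannSubgroupOf p P := by
  refine le_inf (th_le P) ?_
  rw [Subgroup.le_centralizer_iff]
  intro x hx y hy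
  have h1 : x ∈ centerThompsonOf p P := omegaOne_le _ hx
  exact Subgroup.mem_centralizer_iff.mp h1.2 y hy

/-- A `p`-subgroup normalized by `B(T)` normalizes `B(T)`. -/
theorem le_normalizer_baumann (T : Sylow p G) {Q : Subgroup G} (hQ : IsPGroup p Q)
    (h : baumannSubgroupOf p (T : Subgroup G) ≤ Subgroup.normalizer (Q : Set G)) :
    Q ≤ Subgroup.normalizer (baumannSubgroupOf p (T : Subgroup G) : Set G) := by
  set J := thompsonSubgroupOf p (T : Subgroup G) with hJ
  set B := baumannSubgroupOf p (T : Subgroup G) with hB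
  have hBT : B ≤ T := inf_le_left
  have hBp : IsPGroup p B := T.2.to_le hBT
  have hJB : J ≤ B := th_le_baumann _
  set P := Q ⊔ B with hP
  have hPp : IsPGroup p P := hQ.to_sup_of_normal_left' hBp h
  obtain ⟨T₁, hT₁⟩ := hPp.exists_le_sylow
  obtain ⟨g, hg⟩ := sylow_conj T T₁
  have hJ₁ : thompsonSubgroupOf p (T₁ : Subgroup G) = J.map (MulAut.conj g).toMonoidHom := by
    rw [hg, th_conj]
  have hB₁ : baumannSubgroupOf p (T₁ : Subgroup G) = B.map (MulAut.conj g).toMonoidHom := by
    rw [hg, baumann_conj]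
  -- `J ≤ J(T₁)`
  have hJJ : J = thompsonSubgroupOf p (T₁ : Subgroup G) := by
    have hle : J ≤ thompsonSubgroupOf p (T₁ : Subgroup G) := by
      rw [hJ, H14.thompsonSubgroupOf_eq_jj, H14.thompsonSubgroupOf_eq_jj]
      refine sSup_le fun A hA => H14.ZJFam.le_jj (?_ : A ∈ (H14.elFam G p).mx _)
      refine ⟨?_, hA.2.1, fun C hC hFC => ?_⟩
      · have h1 : A ≤ J := by
          rw [hJ, H14.thompsonSubgroupOf_eq_jj]
          exact H14.ZJFam.le_jj hA
        exact h1.trans (hJB.trans (le_sup_right.trans hT₁))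
      · have h1 := hA.2.2 (C.map (MulAut.conj g⁻¹).toMonoidHom) ?_ ((H14.elFam G p).F_conj C g⁻¹ hFC)
        · rwa [card_map_conj] at h1
        · have := Subgroup.map_mono (f := (MulAut.conj g⁻¹).toMonoidHom) hC
          rwa [hg, map_conj_inv_map_conj] at this
    exact Subgroup.eq_of_le_of_card_ge hle (by rw [hJ₁, card_map_conj])
  have hJP : thompsonSubgroupOf p P = J := by
    rw [hJJ]
    apply th_of_le hT₁
    rw [← hJJ]
    exact hJB.trans le_sup_right
  -- `B = B(P)`
  have hBP : baumannSubgroupOf p P = B := by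
    symm
    have hb1 : B ≤ baumannSubgroupOf p P := by
      refine le_inf le_sup_right ?_
      have : baumannSubgroupOf p (T : Subgroup G) ≤ _ := inf_le_right
      unfold centerThompsonOf
      rw [hJP]
      exact this
    have hb2 : baumannSubgroupOf p P ≤ baumannSubgroupOf p (T₁ : Subgroup G) := by
      have e1 : centerThompsonOf p P = centerThompsonOf p (T₁ : Subgroup G) := by
        unfold centerThompsonOf
        rw [hJP, ← hJJ]
      unfold baumannSubgroupOf
      rw [e1]
      exact inf_le_inf_right _ hT₁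
    exact Subgroup.eq_of_le_of_card_ge hb1 (by
      refine (Subgroup.card_le_of_le hb2).trans ?_
      rw [hB₁, card_map_conj])
  intro q hq
  have hqP : q ∈ P := Subgroup.mem_sup_left hq
  apply mem_normalizer_of_map_conj_eq
  rw [← hBP, ← baumann_conj, map_conj_eq_of_mem_normalizer (Subgroup.le_normalizer hqP)]

end Cfsg.Agent.H13.Blk
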