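import Mathlib
import Cfsg.Agent.Lib.H13.Blocks
import Cfsg.Agent.Lib.H13.CharP2
import Cfsg.Agent.Lib.H09.KSeq2

/-!
# `W_E`: location of the commutator module of a block
-/

set_option autoImplicit false

namespace Cfsg.Agent.H13.Blk

open Cfsg Cfsg.Agent.H13
open scoped commutatorElement

variable {G : Type*} [Group G] [Finite G] {p : ℕ} [Fact p.Prime]

/-- A `p`-group `P` acting on `N / M`, with `M < N`, has a nontrivial fixed point. -/
theorem exists_fixed_mod {P N M : Subgroup G} (hP : IsPGroup p P) (hNP : N ≤ P) (hMN : M ≤ N)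
    (hNn : P ≤ Subgroup.normalizer (N : Set G)) (hMn : P ≤ Subgroup.normalizer (M : Set G)) (hne : M ≠ N) :
    ∃ n ∈ N, n ∉ M ∧ ∀ x ∈ P, x * n * x⁻¹ * n⁻¹ ∈ M := by
  have hYn : (M.subgroupOf P).Normal := by
    constructor
    intro a ha g
    rw [Subgroup.mem_subgroupOf] at ha ⊢
    exact (Subgroup.mem_normalizer_iff.mp (hMn g.2) _).mp ha
  have hNn' : (N.subgroupOf P).Normal := by
    constructor
    intro a ha g
    rw [Subgroup.mem_subgroupOf] at ha ⊢
    exact (Subgroup.mem_normalizer_iff.mp (hNn g.2) _).mp ha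
  set Q := ↥P ⧸ M.subgroupOf P
  have hQp : IsPGroup p Q := IsPGroup.to_quotient hP _
  set K := (N.subgroupOf P).map (QuotientGroup.mk' (M.subgroupOf P)) with hK
  haveI : K.Normal := Subgroup.Normal.map hNn' _ (QuotientGroup.mk'_surjective _)
  have hKne : K ≠ ⊥ := by
    intro h0
    apply hne
    apply le_antisymm hMN
    intro x hx
    have h1 : QuotientGroup.mk' (M.subgroupOf P) (⟨x, hNP hx⟩ : ↥P) ∈ K :=
      ⟨⟨x, hNP hx⟩, by simpa [Subgroup.mem_subgroupOf] using hx, rfl⟩
    rw [h0, Subgroup.mem_bot, QuotientGroup.mk'_apply, QuotientGroup.eq_one_iff,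
      Subgroup.mem_subgroupOf] at h1
    exact h1
  have h2 := H09.normal_inf_center_ne_bot hQp K hKne
  obtain ⟨⟨k, hk⟩, hk1'⟩ := Subgroup.ne_bot_iff_exists_ne_one.mp h2
  have hk1 : k ≠ 1 := fun h0 => hk1' (Subtype.ext h0)
  obtain ⟨⟨y, hyK, rfl⟩, hyc⟩ := hk
  refine ⟨y, hyK, ?_, ?_⟩
  · intro hyM
    apply hk1
    rw [QuotientGroup.mk'_apply, QuotientGroup.eq_one_iff, Subgroup.mem_subgroupOf]
    exact hyM
  · intro x hx
    have h3 := Subgroup.mem_center_iff.mp hyc (QuotientGroup.mk' (M.subgroupOf P) (⟨x, hx⟩ : ↥P))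
    rw [← map_mul, ← map_mul, QuotientGroup.mk'_apply, QuotientGroup.mk'_apply, QuotientGroup.eq] at h3
    rw [Subgroup.mem_subgroupOf] at h3
    have h4 : (y : G)⁻¹ * x⁻¹ * x * y = 1 := by group
    have h5 : (x * (y : G))⁻¹ * (y * x) ∈ M := by simpa using h3
    have h6 : x * (y : G) * x⁻¹ * (y : G)⁻¹ ∈ M := by
      have h7 := (Subgroup.mem_normalizer_iff.mp (hMn (P.mul_mem hx (y.2))) _).mp h5
      have e : (x * (y : G)) * ((x * (y : G))⁻¹ * (y * x)) * (x * (y : G))⁻¹ = y * x * (x * y)⁻¹ := by group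
      rw [e] at h7
      have h8 := M.inv_mem h7
      convert h8 using 1
      group
    exact h6

omit [Finite G] [Fact p.Prime] in
/-- the join of two commuting elementary abelian subgroups is elementary abelian -/
theorem elFam_sup {A W : Subgroup G} (hA : (H14.elFam G p).F A) (hW : (H14.elFam G p).F W)
    (hc : A ≤ Subgroup.centralizer (W : Set G)) : (H14.elFam G p).F (A ⊔ W) := by
  have hcomm : ∀ a ∈ A ⊔ W, ∀ b ∈ A ⊔ W, a * b = b * a := by
    have h1 : A ≤ Subgroup.centralizer ((A ⊔ W : Subgroup G) : Set G) := by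
      rw [Subgroup.le_centralizer_iff]
      refine sup_le ?_ ?_
      · rw [← Subgroup.le_centralizer_iff]
        intro a ha
        rw [Subgroup.mem_centralizer_iff]
        intro b hb
        exact hA.1 b hb a ha
      · exact Subgroup.le_centralizer_iff.mp hc
    have h2 : W ≤ Subgroup.centralizer ((A ⊔ W : Subgroup G) : Set G) := by
      rw [Subgroup.le_centralizer_iff]
      refine sup_le hc ?_
      rw [← Subgroup.le_centralizer_iff]
      intro a ha
      rw [Subgroup.mem_centralizer_iff]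
      intro b hb
      exact hW.1 b hb a ha
    have h3 := sup_le h1 h2
    intro a ha b hb
    exact Subgroup.mem_centralizer_iff.mp (h3 hb) a ha
  refine ⟨hcomm, ?_⟩
  let Y : Subgroup G :=
    { carrier := {x | x ∈ A ⊔ W ∧ x ^ p = 1}
      mul_mem' := by
        rintro a b ⟨ha, ha'⟩ ⟨hb, hb'⟩
        refine ⟨(A ⊔ W).mul_mem ha hb, ?_⟩
        have : Commute a b := hcomm a ha b hb
        rw [this.mul_pow, ha', hb', one_mul]
      one_mem' := ⟨(A ⊔ W).one_mem, one_pow _⟩
      inv_mem' := by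
        rintro a ⟨ha, ha'⟩
        exact ⟨(A ⊔ W).inv_mem ha, by rw [inv_pow, ha', inv_one]⟩ }
  have hY : A ⊔ W ≤ Y := sup_le (fun a ha => ⟨Subgroup.mem_sup_left ha, hA.2 a ha⟩)
    (fun a ha => ⟨Subgroup.mem_sup_right ha, hW.2 a ha⟩)
  exact fun a ha => (hY ha).2

/-! ### facts about `Ω₁(Z(O_p(E)))` -/

omit [Finite G] [Fact p.Prime] in
theorem omegaOneCenter_norm (X : Subgroup G) :
    Subgroup.normalizer (X : Set G) ≤ Subgroup.normalizer (omegaOneCenter p X : Set G) := by
  intro g hg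
  apply mem_normalizer_of_map_conj_eq
  unfold omegaOneCenter
  rw [← omegaOne_conj, map_conj_inf, map_conj_eq_of_mem_normalizer hg, map_conj_centralizer,
    map_conj_eq_of_mem_normalizer hg]

omit [Finite G] [Fact p.Prime] in
theorem omegaOneCenter_comm (X : Subgroup G) {a b : G} (ha : a ∈ omegaOneCenter p X)
    (hb : b ∈ omegaOneCenter p X) : a * b = b * a := by
  have ha' : a ∈ X ⊓ Subgroup.centralizer (X : Set G) := omegaOne_le _ ha
  have hb' : b ∈ X ⊓ Subgroup.centralizer (X : Set G) := omegaOne_le _ hb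
  exact Subgroup.mem_centralizer_iff.mp hb'.2 a ha'.1

theorem omegaOneCenter_pow (X : Subgroup G) {a : G} (ha : a ∈ omegaOneCenter p X) : a ^ p = 1 := by
  refine (mem_omegaOne_of_comm (Z := X ⊓ Subgroup.centralizer (X : Set G)) ?_ ha).2
  intro a ha b hb
  exact Subgroup.mem_centralizer_iff.mp hb.2 a ha.1

omit [Finite G] [Fact p.Prime] in
theorem omegaOneCenter_le (X : Subgroup G) : omegaOneCenter p X ≤ X ⊓ Subgroup.centralizer (X : Set G) :=
  omegaOne_le _

omit [Finite G] [Fact p.Prime] in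
theorem mem_omegaOneCenter {X : Subgroup G} {a : G} (h1 : a ∈ X) (h2 : a ∈ Subgroup.centralizer (X : Set G))
    (h3 : a ^ p = 1) : a ∈ omegaOneCenter p X :=
  Subgroup.subset_closure ⟨⟨h1, h2⟩, h3⟩

theorem block_irr {T E : Subgroup G} (hE : IsBaumannBlock p T E) :
    IrrSec E (omegaOneCenter p (pCoreOf p E))
      (omegaOneCenter p (pCoreOf p E) ⊓ Subgroup.centralizer (E : Set G)) := by
  obtain ⟨h1, -, -, h4, h5⟩ := hE
  rcases h5 with ⟨F, _, _, n, -, -, hact, -⟩ | ⟨-, m, hiso, hact, -⟩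
  · exact irr_of_sl2 hact
  · rcases Nat.eq_zero_or_pos m with hm | hm
    · subst hm
      exfalso
      obtain ⟨e⟩ := hiso
      have hs : Subsingleton (↥E ⧸ pCore p ↥E) := by
        haveI : Subsingleton ↥(alternatingGroup (Fin (2 * 0 + 1))) := by
          haveI : Subsingleton (Equiv.Perm (Fin (2 * 0 + 1))) := by
            simp only [Nat.mul_zero, Nat.zero_add]
            infer_instance
          infer_instance
        exact e.toEquiv.subsingleton
      have htop : pCore p ↥E = ⊤ := QuotientGroup.subgroup_eq_top_of_subsingleton _ hs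
      have hp : IsPGroup p ↥E := by
        have h0 := isPGroup_pCore (p := p) (G := ↥E)
        rw [htop] at h0
        intro x
        obtain ⟨k, hk⟩ := h0 ⟨x, Subgroup.mem_top x⟩
        exact ⟨k, congrArg Subtype.val hk⟩
      have hbot : E = ⊥ := by
        rw [← h1, pResidualOf_eq, Subgroup.closure_eq_bot_iff]
        rintro x ⟨hx, hco⟩
        obtain ⟨k, hk⟩ := hp ⟨x, hx⟩
        have hk' : x ^ p ^ k = 1 := congrArg Subtype.val hk
        have h2 : orderOf x ∣ p ^ k := orderOf_dvd_of_pow_eq_one hk'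
        have h3 := Nat.eq_one_of_dvd_coprimes (hco.pow_right k) (dvd_refl _) h2
        exact orderOf_eq_one_iff.mp h3
      apply h4
      rw [hbot]
      exact Subgroup.commutator_bot_left _
    · exact irr_of_alt (n := 2 * m + 1) ⟨m, rfl⟩ (by omega) hact

section main

variable (T : Sylow p G) {E : Subgroup G} (hE : IsBaumannBlock p (T : Subgroup G) E)

include hE

theorem pCore_le_normalizer_block : pCore p G ≤ Subgroup.normalizer (E : Set G) := by
  haveI : (pCore p G).Normal := Subgroup.sSup_normal _ (fun _ h => h.1)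
  have hN : Subgroup.normalizer ((pCore p G : Subgroup G) : Set G) = ⊤ := Subgroup.normalizer_eq_top_iff.mpr inferInstance
  refine normalizes_block hE.1 hE.2.1 (T.2.to_le inf_le_left) (by rw [hN]; exact le_top) ?_
  exact le_normalizer_baumann T isPGroup_pCore (by rw [hN]; exact le_top)

theorem block_comm_pCore_le : ⁅E, pCore p G⁆ ≤ pCoreOf p E := by
  haveI : (pCore p G).Normal := Subgroup.sSup_normal _ (fun _ h => h.1)
  have hN : Subgroup.normalizer ((pCore p G : Subgroup G) : Set G) = ⊤ := Subgroup.normalizer_eq_top_iff.mpr inferInstance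
  have h1 : ⁅E, pCore p G⁆ ≤ E :=
    commutator_le_left_of_le_normalizer (pCore_le_normalizer_block T hE)
  have h2 : ⁅E, pCore p G⁆ ≤ pCore p G :=
    commutator_le_right_of_le_normalizer (by rw [hN]; exact le_top)
  have h3 : E ⊓ pCore p G ≤ pCoreOf p E := by
    apply le_pCoreOf inf_le_left (isPGroup_pCore.to_le inf_le_right)
    intro e he
    apply mem_normalizer_of_map_conj_eq
    rw [map_conj_inf, map_conj_eq_of_mem_normalizer (Subgroup.le_normalizer he),
      map_conj_eq_of_mem_normalizer (by rw [hN]; trivial)]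
  exact (le_inf h1 h2).trans h3

/-- `[W_E, O_p(G)] = 1` -/
theorem W_comm_pCore : ⁅⁅omegaOneCenter p (pCoreOf p E), E⁆, pCore p G⁆ = ⊥ := by
  haveI hRn : (pCore p G).Normal := Subgroup.sSup_normal _ (fun _ h => h.1)
  set R := pCore p G with hR
  set Q := pCoreOf p E with hQ
  set W₁ := omegaOneCenter p Q with hW₁
  set Z := W₁ ⊓ Subgroup.centralizer (E : Set G) with hZ
  have hirr : IrrSec E W₁ Z := block_irr hE
  have hRE := pCore_le_normalizer_block T hE
  have hNQ : Subgroup.normalizer (E : Set G) ≤ Subgroup.normalizer (W₁ : Set G) :=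
    (normalizer_le_normalizer_pCoreOf E).trans (omegaOneCenter_norm Q)
  have hNZ : Subgroup.normalizer (E : Set G) ≤ Subgroup.normalizer (Z : Set G) := by
    intro g hg
    apply mem_normalizer_of_map_conj_eq
    rw [hZ, map_conj_inf, map_conj_eq_of_mem_normalizer (hNQ hg), map_conj_centralizer,
      map_conj_eq_of_mem_normalizer hg]
  have hW₁ab : ∀ a ∈ W₁, ∀ b ∈ W₁, a * b = b * a := fun a ha b hb => omegaOneCenter_comm Q ha hb
  have hZW : Z ≤ W₁ := inf_le_left
  -- the subgroup of fixed points mod `Z`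
  let X : Subgroup G :=
    { carrier := {w | w ∈ W₁ ∧ ∀ r ∈ R, r * w * r⁻¹ * w⁻¹ ∈ Z}
      mul_mem' := by
        rintro a b ⟨ha, ha'⟩ ⟨hb, hb'⟩
        refine ⟨W₁.mul_mem ha hb, fun r hr => ?_⟩
        have h1 := ha' r hr
        have h2 := hb' r hr
        have h3 : a * (r * b * r⁻¹ * b⁻¹) * a⁻¹ = r * b * r⁻¹ * b⁻¹ := by
          rw [hW₁ab a ha _ (hZW h2)]
          group
        have e : r * (a * b) * r⁻¹ * (a * b)⁻¹ = (r * a * r⁻¹ * a⁻¹) * (a * (r * b * r⁻¹ * b⁻¹) * a⁻¹) := by group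
        rw [e, h3]
        exact Z.mul_mem h1 h2
      one_mem' := ⟨W₁.one_mem, fun r _ => by simp [Z.one_mem]⟩
      inv_mem' := by
        rintro a ⟨ha, ha'⟩
        refine ⟨W₁.inv_mem ha, fun r hr => ?_⟩
        have h1 := Z.inv_mem (ha' r hr)
        have h3 : a⁻¹ * (r * a * r⁻¹ * a⁻¹)⁻¹ * a = (r * a * r⁻¹ * a⁻¹)⁻¹ := by
          rw [hW₁ab _ (W₁.inv_mem ha) _ (hZW h1)]
          group
        have e : r * a⁻¹ * r⁻¹ * a⁻¹⁻¹ = a⁻¹ * (r * a * r⁻¹ * a⁻¹)⁻¹ * a := by group
        rw [e, h3]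
        exact h1 }
  have hZX : Z ≤ X := by
    intro z hz
    refine ⟨hZW hz, fun r hr => ?_⟩
    exact Z.mul_mem ((Subgroup.mem_normalizer_iff.mp (hNZ (hRE hr)) _).mp hz) (Z.inv_mem hz)
  have hXW : X ≤ W₁ := fun x hx => hx.1
  have hEX : E ≤ Subgroup.normalizer (X : Set G) := by
    intro e he
    apply mem_normalizer_of_map_conj_le
    rintro _ ⟨x, ⟨hx1, hx2⟩, rfl⟩
    refine ⟨(Subgroup.mem_normalizer_iff.mp (hNQ (Subgroup.le_normalizer he)) _).mp hx1, fun r hr => ?_⟩
    have hr' : e⁻¹ * r * e ∈ R := by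
      have := hRn.conj_mem r hr e⁻¹
      simpa using this
    have h1 := hx2 _ hr'
    have h2 := (Subgroup.mem_normalizer_iff.mp (hNZ (Subgroup.le_normalizer he)) _).mp h1
    convert h2 using 1
    simp only [MulEquiv.coe_toMonoidHom, MulAut.conj_apply]
    group
  have hRp : IsPGroup p R := isPGroup_pCore
  have hW₁p : IsPGroup p W₁ := by
    refine (isPGroup_pCoreOf E).to_le ((omegaOneCenter_le Q).trans inf_le_left)
  have hP : IsPGroup p (R ⊔ W₁ : Subgroup G) := hW₁p.to_sup_of_normal_right hRp |> fun h => by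
    rwa [sup_comm] at h
  have hPW : R ⊔ W₁ ≤ Subgroup.normalizer (W₁ : Set G) := by
    refine sup_le (hRE.trans hNQ) Subgroup.le_normalizer
  have hPZ : R ⊔ W₁ ≤ Subgroup.normalizer (Z : Set G) := by
    refine sup_le (hRE.trans hNZ) ?_
    intro w hw
    apply mem_normalizer_of_map_conj_le
    rintro _ ⟨z, hz, rfl⟩
    have : w * z * w⁻¹ = z := by
      rw [hW₁ab w hw z (hZW hz)]
      group
    show w * z * w⁻¹ ∈ Z
    rw [this]
    exact hz
  obtain ⟨n, hn1, hn2, hn3⟩ := exists_fixed_mod hP le_sup_right hZW hPW hPZ hirr.1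
  have hXeq : X = W₁ := by
    rcases hirr.2 X hZX hXW hEX with h | h
    · exfalso
      apply hn2
      rw [← h]
      exact ⟨hn1, fun r hr => hn3 r (Subgroup.mem_sup_left hr)⟩
    · exact h
  -- the two commutator computations
  have hRW : ⁅R, W₁⁆ ≤ Z := by
    rw [Subgroup.commutator_le]
    intro r hr w hw
    rw [commutatorElement_def]
    have : w ∈ X := by rw [hXeq]; exact hw
    exact this.2 r hr
  have h1 : ⁅⁅E, R⁆, W₁⁆ = ⊥ := by
    rw [eq_bot_iff]
    refine (Subgroup.commutator_mono (block_comm_pCore_le T hE) le_rfl).trans ?_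
    rw [le_bot_iff, Subgroup.commutator_eq_bot_iff_le_centralizer, Subgroup.le_centralizer_iff]
    intro x hx y hy
    exact Subgroup.mem_centralizer_iff.mp ((omegaOneCenter_le Q hx).2) y hy
  have h2 : ⁅⁅R, W₁⁆, E⁆ = ⊥ := by
    rw [eq_bot_iff]
    refine (Subgroup.commutator_mono hRW le_rfl).trans ?_
    rw [le_bot_iff, Subgroup.commutator_eq_bot_iff_le_centralizer]
    exact inf_le_right
  exact Subgroup.commutator_commutator_eq_bot_of_rotate h1 h2

/-- `W_E ≤ Ω₁(Z(O_p(G)))` -/
theorem W_le_omega (hG : Subgroup.centralizer (pCore p G : Set G) ≤ pCore p G) :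
    ⁅omegaOneCenter p (pCoreOf p E), E⁆ ≤ omegaOneCenter p (pCore p G) := by
  have h1 := W_comm_pCore T hE
  rw [Subgroup.commutator_eq_bot_iff_le_centralizer] at h1
  intro w hw
  have hw1 : w ∈ omegaOneCenter p (pCoreOf p E) :=
    commutator_le_left_of_le_normalizer
      ((Subgroup.le_normalizer (H := E)).trans
        ((normalizer_le_normalizer_pCoreOf E).trans (omegaOneCenter_norm _))) hw
  exact mem_omegaOneCenter (hG (h1 hw)) (h1 hw) (omegaOneCenter_pow _ hw1)

/-- `E = O^p(E O_p(G))` -/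
theorem residual_sup : pResidualOf p (E ⊔ pCore p G) = E := by
  apply le_antisymm
  · rw [pResidualOf_eq, Subgroup.closure_le]
    rintro x ⟨hx, hco⟩
    exact coprime_mem_of_mem_sup' (pCore_le_normalizer_block T hE) isPGroup_pCore hx hco
  · conv_lhs => rw [← hE.1, pResidualOf_eq]
    rw [pResidualOf_eq]
    exact Subgroup.closure_mono fun x hx => ⟨Subgroup.mem_sup_left hx.1, hx.2⟩

/-- `[W_E, J(T)] ≠ 1` -/
theorem W_comm_thompson (hG : Subgroup.centralizer (pCore p G : Set G) ≤ pCore p G) :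
    ⁅⁅omegaOneCenter p (pCoreOf p E), E⁆, thompsonSubgroupOf p (T : Subgroup G)⁆ ≠ ⊥ := by
  intro hc
  set Q := pCoreOf p E with hQ
  set W₁ := omegaOneCenter p Q with hW₁
  set W := ⁅W₁, E⁆ with hW
  set J := thompsonSubgroupOf p (T : Subgroup G) with hJ
  set B := baumannSubgroupOf p (T : Subgroup G) with hB
  have hEW₁ : E ≤ Subgroup.normalizer (W₁ : Set G) :=
    (Subgroup.le_normalizer (H := E)).trans ((normalizer_le_normalizer_pCoreOf E).trans (omegaOneCenter_norm _))
  have hWW₁ : W ≤ W₁ := commutator_le_left_of_le_normalizer hEW₁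
  have hWT : W ≤ T := (W_le_omega T hE hG).trans
    (((omegaOneCenter_le _).trans inf_le_left).trans (pCore_le_sylow T))
  have hWJc : J ≤ Subgroup.centralizer (W : Set G) := by
    rw [← Subgroup.commutator_eq_bot_iff_le_centralizer, Subgroup.commutator_comm]
    exact hc
  -- `W ≤ J`
  have hWF : (H14.elFam G p).F W :=
    ⟨fun a ha b hb => omegaOneCenter_comm Q (hWW₁ ha) (hWW₁ hb), fun a ha => omegaOneCenter_pow Q (hWW₁ ha)⟩
  have hWJ : W ≤ J := by
    obtain ⟨A, hA⟩ := H14.ZJFam.exists_mx (H14.elFam G p) (T : Subgroup G)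
    have hAJ : A ≤ J := by
      rw [hJ, H14.thompsonSubgroupOf_eq_jj]
      exact H14.ZJFam.le_jj hA
    have hFsup := elFam_sup hA.2.1 hWF (hAJ.trans hWJc)
    have h1 := hA.2.2 (A ⊔ W) (sup_le hA.1 hWT) hFsup
    have h2 : A = A ⊔ W := Subgroup.eq_of_le_of_card_ge le_sup_left h1
    rw [h2] at hAJ
    exact le_sup_right.trans hAJ
  have hWcJ : W ≤ Subgroup.centralizer (J : Set G) := Subgroup.le_centralizer_iff.mp hWJc
  have hWΩ : W ≤ omegaOne p (centerThompsonOf p (T : Subgroup G)) := by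
    intro w hw
    exact Subgroup.subset_closure ⟨⟨hWJ hw, hWcJ hw⟩, hWF.2 w hw⟩
  have hBW : B ≤ Subgroup.centralizer (W : Set G) :=
    inf_le_right.trans (Subgroup.centralizer_le hWΩ)
  have hEW : E ≤ Subgroup.normalizer (W : Set G) := by
    intro e he
    apply mem_normalizer_of_map_conj_le
    rw [hW, Subgroup.map_commutator]
    refine Subgroup.commutator_mono ?_ ?_
    · rw [map_conj_eq_of_mem_normalizer (hEW₁ he)]
    · rw [map_conj_eq_of_mem_normalizer (Subgroup.le_normalizer he)]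
  have hWE : ⁅W, E⁆ ≤ W := commutator_le_left_of_le_normalizer hEW
  have hWB : ⁅W, B⁆ = ⊥ := by
    rw [Subgroup.commutator_comm, Subgroup.commutator_eq_bot_iff_le_centralizer]
    exact hBW
  have h1 : ⁅⁅B, W⁆, E⁆ = ⊥ := by
    rw [Subgroup.commutator_comm B W, hWB, Subgroup.commutator_bot_left]
  have h2 : ⁅⁅W, E⁆, B⁆ = ⊥ := by
    rw [eq_bot_iff]
    refine (Subgroup.commutator_mono hWE le_rfl).trans ?_
    rw [hWB]
  have h3 := Subgroup.commutator_commutator_eq_bot_of_rotate h1 h2
  rw [hE.2.1, Subgroup.commutator_eq_bot_iff_le_centralizer] at h3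
  -- `E` centralizes `W₁`
  have hcop : ∀ x ∈ E, Nat.Coprime (orderOf x) p → x ∈ Subgroup.centralizer (W₁ : Set G) := by
    intro x hx hco
    rw [Subgroup.mem_centralizer_iff]
    intro w hw
    set c := x * w * x⁻¹ * w⁻¹ with hc0
    have hcW : c ∈ W := by
      have h0 : ⁅w, x⁆ ∈ W := Subgroup.commutator_mem_commutator hw hx
      have h00 : c = ⁅w, x⁆⁻¹ := by
        rw [hc0, commutatorElement_inv, commutatorElement_def]
      rw [h00]
      exact W.inv_mem h0
    have hxc : x * c = c * x := (Subgroup.mem_centralizer_iff.mp (h3 hx) c hcW).symm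
    have hxw : x * w * x⁻¹ = c * w := by
      rw [hc0]
      group
    have hpow : ∀ k : ℕ, x ^ k * w * (x ^ k)⁻¹ = c ^ k * w := by
      intro k
      induction k with
      | zero => simp
      | succ k ih =>
        have e1 : x ^ (k + 1) * w * (x ^ (k + 1))⁻¹ = x * (x ^ k * w * (x ^ k)⁻¹) * x⁻¹ := by
          rw [pow_succ']
          group
        rw [e1, ih]
        have hck : x * c ^ k = c ^ k * x := (Commute.pow_right hxc k)
        have e2 : x * (c ^ k * w) * x⁻¹ = c ^ k * (x * w * x⁻¹) := by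
          rw [← mul_assoc x, hck]
          group
        rw [e2, hxw, pow_succ]
        group
    have h4 := hpow (orderOf x)
    rw [pow_orderOf_eq_one] at h4
    have h5 : c ^ orderOf x = 1 := by
      have : w = c ^ orderOf x * w := by simpa using h4
      exact (mul_eq_right.mp this.symm)
    have h6 : c ^ p = 1 := hWF.2 c hcW
    have h7 : c = 1 := by
      have := pow_gcd_eq_one.mpr ⟨h5, h6⟩
      rwa [Nat.Coprime.gcd_eq_one hco, pow_one] at this
    have h8 : x * w = w * x := by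
      have : x * w * x⁻¹ * w⁻¹ = 1 := h7
      have h9 := mul_inv_eq_one.mp this
      exact mul_inv_eq_iff_eq_mul.mp h9
    exact h8.symm
  have hEW₁c : E ≤ Subgroup.centralizer (W₁ : Set G) := by
    conv_lhs => rw [← hE.1, pResidualOf_eq]
    rw [Subgroup.closure_le]
    rintro x ⟨hx, hco⟩
    exact hcop x hx hco
  apply (block_irr hE).1
  apply le_antisymm inf_le_left
  exact le_inf le_rfl (Subgroup.le_centralizer_iff.mp hEW₁c)

end main

end Cfsg.Agent.H13.Blk
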