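import Cfsg.Agent.Lib.H13.Weak
import Cfsg.Prelude.Def_SylowControl

/-!
Families of subgroups controlling Sylow intersections.
-/

set_option autoImplicit false

namespace Cfsg.Agent.H13

open Cfsg

variable {G : Type*} [Group G] {p : ℕ}

theorem subgroupConjRight_eq (g : G) (X : Subgroup G) :
    subgroupConjRight g X = X.map (MulAut.conj g⁻¹).toMonoidHom := rfl

/-- `𝓕(Y)` is compatible with conjugation. -/
theorem sylowMembers_map_conj [Finite G] [Fact p.Prime] {𝓕 : Set (Subgroup G)} (h𝓕 : IsNormalSet 𝓕)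
    {X Y : Subgroup G} (hX : X ∈ sylowMembers p 𝓕 Y) (h : G) :
    X.map (MulAut.conj h).toMonoidHom ∈ sylowMembers p 𝓕 (Y.map (MulAut.conj h).toMonoidHom) := by
  obtain ⟨hX𝓕, P, hP⟩ := hX
  refine ⟨?_, ?_⟩
  · have := h𝓕 X hX𝓕 h⁻¹
    rw [subgroupConjRight_eq, inv_inv] at this
    exact this
  · let φ : X ≃* ↥(X.map (MulAut.conj h).toMonoidHom) := MulEquiv.subgroupMap (MulAut.conj h) X
    let f : X →* ↥(X.map (MulAut.conj h).toMonoidHom) := φ.toMonoidHom
    have hf : Function.Surjective f := φ.surjective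
    refine ⟨P.mapSurjective hf, ?_⟩
    rw [Sylow.coe_mapSurjective, ← map_conj_inf, ← hP]
    rw [Subgroup.map_map, Subgroup.map_map]
    congr 1

end Cfsg.Agent.H13
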