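import Mathlib
import Cfsg.Prelude.Def_SylowControl
import Cfsg.Prelude.Def_SylowChains
import Cfsg.Agent.Lib.H13.Weak
import Cfsg.Agent.Lib.H13.SylowControl

set_option autoImplicit false

namespace Cfsg.Agent.H13

open Cfsg

variable {G : Type*} [Group G] [Finite G] {p : ℕ} [Fact p.Prime]

/-- One link of a chain of Sylow subgroups. -/
def SLink (p : ℕ) (𝓕 : Set (Subgroup G)) (D : Subgroup G) (T T' : Sylow p G) : Prop :=
  ∃ (X : Subgroup G) (x : G), X ∈ sylowMembers p 𝓕 (T : Subgroup G) ∧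
    X ∈ sylowMembers p 𝓕 (T' : Subgroup G) ∧ x ∈ X ∧ T' = x • T ∧
    D ≤ (T : Subgroup G) ∧ D ≤ (T' : Subgroup G) ∧ D ≤ X

/-- Chains of links. -/
def SLinked (p : ℕ) (𝓕 : Set (Subgroup G)) (D : Subgroup G) : Sylow p G → Sylow p G → Prop :=
  Relation.ReflTransGen (SLink p 𝓕 D)

omit [Finite G] in
theorem coe_smul_sylow (g : G) (T : Sylow p G) :
    ((g • T : Sylow p G) : Subgroup G) = (T : Subgroup G).map (MulAut.conj g).toMonoidHom := rfl

omit [Finite G] in
theorem SLink.mono {𝓕 : Set (Subgroup G)} {D D' : Subgroup G} (h : D' ≤ D) {T T' : Sylow p G}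
    (hl : SLink p 𝓕 D T T') : SLink p 𝓕 D' T T' := by
  obtain ⟨X, x, h1, h2, h3, h4, h5, h6, h7⟩ := hl
  exact ⟨X, x, h1, h2, h3, h4, h.trans h5, h.trans h6, h.trans h7⟩

omit [Finite G] in
theorem SLinked.mono {𝓕 : Set (Subgroup G)} {D D' : Subgroup G} (h : D' ≤ D) {T T' : Sylow p G}
    (hl : SLinked p 𝓕 D T T') : SLinked p 𝓕 D' T T' := by
  induction hl with
  | refl => exact Relation.ReflTransGen.refl
  | tail _ hs ih => exact Relation.ReflTransGen.tail ih (SLink.mono h hs)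

omit [Finite G] in
theorem controls_of_linked {𝓕 : Set (Subgroup G)}
    (h : ∀ S T : Sylow p G, S ≠ T → (S : Subgroup G) ⊓ (T : Subgroup G) ≠ ⊥ →
      SLinked p 𝓕 ((S : Subgroup G) ⊓ (T : Subgroup G)) S T) :
    ControlsSylowIntersections p 𝓕 := by
  intro S T hne hbot
  set D := (S : Subgroup G) ⊓ (T : Subgroup G) with hD
  have key : ∀ T', SLinked p 𝓕 D S T' → ∃ (n : ℕ) (c : Fin (n + 1) → Sylow p G)
      (X : Fin n → Subgroup G) (x : Fin n → G), c 0 = S ∧ c (Fin.last n) = T' ∧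
      ∀ i : Fin n, X i ∈ sylowMembers p 𝓕 (c i.castSucc : Subgroup G) ∧
        X i ∈ sylowMembers p 𝓕 (c i.succ : Subgroup G) ∧
        x i ∈ X i ∧ subgroupConjRight (x i) (c i.succ : Subgroup G) = (c i.castSucc : Subgroup G) ∧
        D ≤ (c i.succ : Subgroup G) ⊓ X i := by
    intro T' hl
    induction hl with
    | refl => exact ⟨0, fun _ => S, Fin.elim0, Fin.elim0, rfl, rfl, fun i => i.elim0⟩
    | @tail b c' _ hstep ih =>
      obtain ⟨n, c, X, x, h0, hl, hall⟩ := ih
      obtain ⟨X', x', h1, h2, h3, h4, h5, h6, h7⟩ := hstep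
      refine ⟨n + 1, Fin.snoc (α := fun _ => Sylow p G) c c',
        Fin.snoc (α := fun _ => Subgroup G) X X', Fin.snoc (α := fun _ => G) x x', ?_, ?_, ?_⟩
      · have : (0 : Fin (n + 2)) = Fin.castSucc (0 : Fin (n + 1)) := rfl
        rw [this, Fin.snoc_castSucc, h0]
      · rw [Fin.snoc_last]
      · intro i
        induction i using Fin.lastCases with
        | last =>
          have e1 : (Fin.last n).succ = Fin.last (n + 1) := Fin.succ_last n
          have e2 : (Fin.last n).castSucc = Fin.castSucc (Fin.last n) := rfl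
          simp only [e1, Fin.snoc_last, Fin.snoc_castSucc]
          rw [hl]
          refine ⟨h1, h2, h3, ?_, le_inf h6 h7⟩
          rw [subgroupConjRight_eq, h4, coe_smul_sylow, map_conj_inv_map_conj]
        | cast j =>
          have e1 : (Fin.castSucc j).succ = Fin.castSucc j.succ := (Fin.succ_castSucc j)
          simp only [e1, Fin.snoc_castSucc]
          exact hall j
  exact key T (h S T hne hbot)

omit [Finite G] in
theorem chain_induction {α : Type*} {n : ℕ} (c : Fin (n + 1) → α) (P : α → Prop) (h0 : P (c 0))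
    (hs : ∀ i : Fin n, P (c i.castSucc) → P (c i.succ)) : P (c (Fin.last n)) :=
  Fin.induction (motive := fun i => P (c i)) h0 (fun i h => hs i h) (Fin.last n)

/-- a Sylow subgroup of a subgroup containing a Sylow subgroup of `G` is one of `G`. -/
theorem exists_sylow_map {S : Sylow p G} {G₀ : Subgroup G} (hS : (S : Subgroup G) ≤ G₀)
    (c : Sylow p ↥G₀) : ∃ k ∈ G₀, ((k • S : Sylow p G) : Subgroup G) = (c : Subgroup ↥G₀).map G₀.subtype := by
  obtain ⟨k, hk⟩ := sylow_conj (S.subtype hS) c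
  refine ⟨k, k.2, ?_⟩
  rw [hk, map_subtype_conj, Sylow.coe_subtype, Subgroup.map_subgroupOf_eq_of_le hS]
  rfl

/-- `X` contains the Sylow subgroup `V` so lies in `𝓕(V)`. -/
theorem mem_sylowMembers_of_le {𝓕 : Set (Subgroup G)} {X : Subgroup G} (hX : X ∈ 𝓕) {V : Sylow p G}
    (hV : (V : Subgroup G) ≤ X) : X ∈ sylowMembers p 𝓕 (V : Subgroup G) := by
  refine ⟨hX, V.subtype hV, ?_⟩
  rw [Sylow.coe_subtype, Subgroup.map_subgroupOf_eq_of_le hV]
  exact (inf_eq_left.2 hV).symm

/-- Description of the family in the whole group. -/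
theorem mem_functorFamily_top {f : Subgroup G → Set (Subgroup G)} {X : Subgroup G} :
    X ∈ functorFamily p f ⊤ ↔ ∃ V : Sylow p G, ∃ F ∈ f (V : Subgroup G),
      X = Subgroup.normalizer (F : Set G) := by
  constructor
  · rintro ⟨P, F, hF, rfl⟩
    obtain ⟨S⟩ : Nonempty (Sylow p G) := inferInstance
    obtain ⟨k, -, hk⟩ := exists_sylow_map (S := S) (G₀ := ⊤) le_top P
    refine ⟨k • S, F, ?_, top_inf_eq _⟩
    rw [hk]
    exact hF
  · rintro ⟨V, F, hF, rfl⟩
    refine ⟨V.subtype le_top, F, ?_, (top_inf_eq _).symm⟩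
    rw [Sylow.coe_subtype, Subgroup.map_subgroupOf_eq_of_le le_top]
    exact hF

/-- A link from the functor family. -/
theorem sLink_of_functor {f : Subgroup G → Set (Subgroup G)} (hf : IsNormalizerFunctor p f)
    {D F : Subgroup G} {V V' : Sylow p G} (hF : F ∈ f (V' : Subgroup G))
    (hV : (V : Subgroup G) ≤ Subgroup.normalizer (F : Set G)) {y : G}
    (hy : y ∈ Subgroup.normalizer (F : Set G)) (hD : D ≤ V) (hD' : D ≤ ((y • V : Sylow p G) : Subgroup G)) :
    SLink p (functorFamily p f ⊤) D V (y • V) := by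
  have hX : Subgroup.normalizer (F : Set G) ∈ functorFamily p f ⊤ :=
    mem_functorFamily_top.2 ⟨V', F, hF, rfl⟩
  refine ⟨_, y, mem_sylowMembers_of_le hX hV, mem_sylowMembers_of_le hX ?_, hy, rfl, hD, hD',
    hD.trans hV⟩
  rintro _ ⟨v, hv, rfl⟩
  exact Subgroup.mul_mem _ (Subgroup.mul_mem _ hy (hV hv)) (Subgroup.inv_mem _ hy)

/-- If a family member `X` contains one Sylow subgroup, then it contains all members `c` with `X ∈ 𝓕(c)`. -/
theorem sylow_le_of_member {𝓕 : Set (Subgroup G)} {X : Subgroup G} {P c : Sylow p G}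
    (hP : (P : Subgroup G) ≤ X) (hX : X ∈ sylowMembers p 𝓕 (c : Subgroup G)) :
    (c : Subgroup G) ≤ X := by
  obtain ⟨-, Q, hQ⟩ := hX
  have h1 : Nat.card ((Q : Subgroup ↥X).map X.subtype) = Nat.card (Q : Subgroup ↥X) :=
    Subgroup.card_map_of_injective X.subtype_injective
  have h2 : Nat.card P ≤ Nat.card (Q : Subgroup ↥X) := by
    obtain ⟨Q₀, hQ₀⟩ := exists_sylow_subgroup_le (K := X) hP P.2
    have h3 : Nat.card ((Q₀ : Subgroup ↥X).map X.subtype) = Nat.card (Q₀ : Subgroup ↥X) :=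
      Subgroup.card_map_of_injective X.subtype_injective
    have h4 : Nat.card (Q₀ : Subgroup ↥X) = Nat.card (Q : Subgroup ↥X) := by
      rw [Sylow.card_eq_multiplicity, Sylow.card_eq_multiplicity]
    rw [← h4, ← h3]
    exact Subgroup.card_le_of_le hQ₀
  have h5 : Nat.card P = Nat.card c := by
    rw [Sylow.card_eq_multiplicity, Sylow.card_eq_multiplicity]
  rw [hQ] at h1
  have h6 : Nat.card (c : Subgroup G) ≤ Nat.card ((c : Subgroup G) ⊓ X : Subgroup G) := by
    rw [h1, ← h5]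
    exact h2
  have h7 := Subgroup.eq_of_le_of_card_ge (inf_le_left : (c : Subgroup G) ⊓ X ≤ c) h6
  exact inf_eq_left.1 h7

theorem isNormalSet_functorFamily {f : Subgroup G → Set (Subgroup G)}
    (hf : IsNormalizerFunctor p f) : IsNormalSet (functorFamily p f ⊤) := by
  intro X hX g
  obtain ⟨V, F, hF, rfl⟩ := mem_functorFamily_top.1 hX
  rw [subgroupConjRight_eq, map_conj_normalizer]
  refine mem_functorFamily_top.2 ⟨g⁻¹ • V, F.map (MulAut.conj g⁻¹).toMonoidHom, ?_, rfl⟩
  rw [coe_smul_sylow, (hf (V : Subgroup G) V.2).2 g⁻¹]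
  exact ⟨F, hF, rfl⟩

theorem SLink.conj {𝓕 : Set (Subgroup G)} (h𝓕 : IsNormalSet 𝓕) {D : Subgroup G} {T T' : Sylow p G}
    (hl : SLink p 𝓕 D T T') (g : G) :
    SLink p 𝓕 (D.map (MulAut.conj g).toMonoidHom) (g • T) (g • T') := by
  obtain ⟨X, x, h1, h2, h3, h4, h5, h6, h7⟩ := hl
  refine ⟨X.map (MulAut.conj g).toMonoidHom, g * x * g⁻¹, sylowMembers_map_conj h𝓕 h1 g,
    sylowMembers_map_conj h𝓕 h2 g, conj_mem_map_conj h3, ?_, Subgroup.map_mono h5,
    Subgroup.map_mono h6, Subgroup.map_mono h7⟩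
  rw [h4, smul_smul, smul_smul]
  simp

theorem SLinked.conj {𝓕 : Set (Subgroup G)} (h𝓕 : IsNormalSet 𝓕) {D : Subgroup G} {T T' : Sylow p G}
    (hl : SLinked p 𝓕 D T T') (g : G) :
    SLinked p 𝓕 (D.map (MulAut.conj g).toMonoidHom) (g • T) (g • T') := by
  induction hl with
  | refl => exact Relation.ReflTransGen.refl
  | tail _ hs ih => exact Relation.ReflTransGen.tail ih (hs.conj h𝓕 g)

/-- Lemma L: regularity in a subgroup containing a Sylow subgroup gives chains. -/
theorem sLinked_of_regular {f : Subgroup G → Set (Subgroup G)} (hf : IsNormalizerFunctor p f)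
    {S : Sylow p G} {G₀ : Subgroup G} (hS : (S : Subgroup G) ≤ G₀) (hr : IsFunctorRegular p f G₀)
    {V V' : Sylow p G} (hV : (V : Subgroup G) ≤ G₀) (hV' : (V' : Subgroup G) ≤ G₀) {D : Subgroup G}
    (hD1 : D ≠ ⊥) (hD : D ≤ V) (hD' : D ≤ V') : SLinked p (functorFamily p f ⊤) D V V' := by
  by_cases hne : V = V'
  · rw [hne]
    exact Relation.ReflTransGen.refl
  have hDG : D ≤ G₀ := hD.trans hV
  set Vt := V.subtype hV with hVt
  set Vt' := V'.subtype hV' with hVt'
  have hcV : (Vt : Subgroup ↥G₀).map G₀.subtype = V := by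
    rw [hVt, Sylow.coe_subtype, Subgroup.map_subgroupOf_eq_of_le hV]
  have hcV' : (Vt' : Subgroup ↥G₀).map G₀.subtype = V' := by
    rw [hVt', Sylow.coe_subtype, Subgroup.map_subgroupOf_eq_of_le hV']
  have hne' : Vt ≠ Vt' := by
    intro h
    apply hne
    apply Sylow.ext
    rw [← hcV, ← hcV', h]
  have hDle : D.subgroupOf G₀ ≤ (Vt : Subgroup ↥G₀) ⊓ (Vt' : Subgroup ↥G₀) := by
    refine le_inf ?_ ?_
    · intro x hx
      exact hD hx
    · intro x hx
      exact hD' hx
  have hbot : (Vt : Subgroup ↥G₀) ⊓ (Vt' : Subgroup ↥G₀) ≠ ⊥ := by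
    intro h
    apply hD1
    rw [eq_bot_iff]
    intro x hx
    have h1 : (⟨x, hDG hx⟩ : ↥G₀) ∈ (⊥ : Subgroup ↥G₀) := h ▸ hDle hx
    have h2 := Subgroup.mem_bot.1 h1
    exact Subgroup.mem_bot.2 (congrArg Subtype.val h2)
  obtain ⟨n, c, X, x, h0, hl, hall⟩ := hr Vt Vt' hne' hbot
  let Pr : Sylow p ↥G₀ → Prop := fun U => ∃ W : Sylow p G,
    (W : Subgroup G) = (U : Subgroup ↥G₀).map G₀.subtype ∧ SLinked p (functorFamily p f ⊤) D V W ∧
      D ≤ (W : Subgroup G)
  have hfinal : Pr (c (Fin.last n)) := by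
    apply chain_induction c Pr
    · rw [h0]
      exact ⟨V, hcV.symm, Relation.ReflTransGen.refl, hD⟩
    · intro i hi
      obtain ⟨W, hW, hlink, hDW⟩ := hi
      obtain ⟨h1, h2, h3, h4, h5⟩ := hall i
      obtain ⟨X', ⟨P, F, hF, rfl⟩, hXe⟩ := h1.1
      have hXi : X i = (G₀ ⊓ Subgroup.normalizer (F : Set G)).subgroupOf G₀ := hXe.symm
      obtain ⟨k, hkG, hk⟩ := exists_sylow_map hS P
      have hF' : F ∈ f ((k • S : Sylow p G) : Subgroup G) := by
        rw [hk]
        exact hF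
      have hN := ((hf _ (k • S).2).1 F hF').2
      have hPX : (P : Subgroup ↥G₀) ≤ X i := by
        intro y hy
        rw [hXi, Subgroup.mem_subgroupOf]
        refine Subgroup.mem_inf.2 ⟨y.2, hN ?_⟩
        apply Subgroup.le_normalizer
        rw [hk]
        exact ⟨y, hy, rfl⟩
      have hcX := sylow_le_of_member hPX h1
      have hWN : (W : Subgroup G) ≤ Subgroup.normalizer (F : Set G) := by
        rw [hW]
        rintro _ ⟨y, hy, rfl⟩
        have := hcX hy
        rw [hXi, Subgroup.mem_subgroupOf] at this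
        exact (Subgroup.mem_inf.1 this).2
      have hxi := h3
      rw [hXi, Subgroup.mem_subgroupOf] at hxi
      obtain ⟨hxG, hxN⟩ := Subgroup.mem_inf.1 hxi
      have hcs : (c i.succ : Subgroup ↥G₀) = (c i.castSucc : Subgroup ↥G₀).map (MulAut.conj (x i)).toMonoidHom := by
        rw [← h4, subgroupConjRight_eq, map_conj_map_conj_inv]
      have hW' : (((x i : ↥G₀) : G) • W : Sylow p G) = (W : Subgroup G).map (MulAut.conj ((x i : ↥G₀) : G)).toMonoidHom := rfl
      have hW'' : ((((x i : ↥G₀) : G) • W : Sylow p G) : Subgroup G) = (c i.succ : Subgroup ↥G₀).map G₀.subtype := by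
        rw [coe_smul_sylow, hW, hcs, map_subtype_conj]
      have hDnew : D ≤ ((((x i : ↥G₀) : G) • W : Sylow p G) : Subgroup G) := by
        rw [hW'']
        intro y hy
        have h6 : (⟨y, hDG hy⟩ : ↥G₀) ∈ (c i.succ : Subgroup ↥G₀) :=
          (le_trans hDle (h5.trans inf_le_left)) hy
        exact ⟨_, h6, rfl⟩
      refine ⟨((x i : ↥G₀) : G) • W, hW'', ?_, hDnew⟩
      exact Relation.ReflTransGen.tail hlink (sLink_of_functor hf hF' hWN hxN hDW hDnew)
  rw [hl] at hfinal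
  obtain ⟨W, hW, hlink, -⟩ := hfinal
  have : W = V' := by
    apply Sylow.ext
    rw [hW, hcV']
  rwa [this] at hlink

theorem sylow_top_repr (S' : Sylow p ↥(⊤ : Subgroup G)) : ∃ V : Sylow p G, S' = V.subtype le_top := by
  obtain ⟨S₀⟩ : Nonempty (Sylow p G) := inferInstance
  obtain ⟨k, -, hk⟩ := exists_sylow_map (S := S₀) (G₀ := ⊤) le_top S'
  refine ⟨k • S₀, ?_⟩
  apply Sylow.ext
  rw [Sylow.coe_subtype, hk]
  exact (Subgroup.comap_map_eq_self_of_injective (⊤ : Subgroup G).subtype_injective _).symm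

theorem SLink.toTop {f : Subgroup G → Set (Subgroup G)} {D : Subgroup G} {T T' : Sylow p G}
    (hf : IsNormalizerFunctor p f)
    (hl : SLink p (functorFamily p f ⊤) D T T') :
    SLink p ((fun X : Subgroup G => X.subgroupOf (⊤ : Subgroup G)) '' functorFamily p f ⊤)
      (D.subgroupOf ⊤) (T.subtype le_top) (T'.subtype le_top) := by
  obtain ⟨X, x, h1, h2, h3, h4, h5, h6, h7⟩ := hl
  obtain ⟨V, F, hF, hXe⟩ := mem_functorFamily_top.1 h1.1
  have hVX : (V : Subgroup G) ≤ X := by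
    rw [hXe]
    exact Subgroup.le_normalizer.trans ((hf _ V.2).1 F hF).2
  have hT := sylow_le_of_member hVX h1
  have hT' := sylow_le_of_member hVX h2
  have hX' : X.subgroupOf ⊤ ∈ (fun X : Subgroup G => X.subgroupOf (⊤ : Subgroup G)) '' functorFamily p f ⊤ :=
    ⟨X, h1.1, rfl⟩
  refine ⟨X.subgroupOf ⊤, ⟨x, trivial⟩, mem_sylowMembers_of_le hX' ?_, mem_sylowMembers_of_le hX' ?_,
    h3, ?_, ?_, ?_, ?_⟩
  · intro y hy
    exact hT hy
  · intro y hy
    exact hT' hy
  · subst h4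
    apply Sylow.ext
    ext y
    rw [Sylow.coe_subtype, Subgroup.mem_subgroupOf, coe_smul_sylow, mem_map_conj, coe_smul_sylow,
      mem_map_conj, Sylow.coe_subtype, Subgroup.mem_subgroupOf]
    rfl
  · intro y hy
    exact h5 hy
  · intro y hy
    exact h6 hy
  · intro y hy
    exact h7 hy

theorem SLinked.toTop {f : Subgroup G → Set (Subgroup G)} {D : Subgroup G} {T T' : Sylow p G}
    (hf : IsNormalizerFunctor p f)
    (hl : SLinked p (functorFamily p f ⊤) D T T') :
    SLinked p ((fun X : Subgroup G => X.subgroupOf (⊤ : Subgroup G)) '' functorFamily p f ⊤)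
      (D.subgroupOf ⊤) (T.subtype le_top) (T'.subtype le_top) := by
  induction hl with
  | refl => exact Relation.ReflTransGen.refl
  | tail _ hs ih => exact Relation.ReflTransGen.tail ih (hs.toTop hf)

/-- Transfer to the subgroup `⊤`. -/
theorem regular_top_of_linked {f : Subgroup G → Set (Subgroup G)} (hf : IsNormalizerFunctor p f)
    (h : ∀ V V' : Sylow p G, V ≠ V' → (V : Subgroup G) ⊓ (V' : Subgroup G) ≠ ⊥ →
      SLinked p (functorFamily p f ⊤) ((V : Subgroup G) ⊓ (V' : Subgroup G)) V V') :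
    IsFunctorRegular p f ⊤ := by
  apply controls_of_linked
  intro S' T' hne hbot
  obtain ⟨V, rfl⟩ := sylow_top_repr S'
  obtain ⟨V', rfl⟩ := sylow_top_repr T'
  have hne' : V ≠ V' := fun h => hne (by rw [h])
  have e1 : ((V.subtype le_top : Sylow p ↥(⊤ : Subgroup G)) : Subgroup ↥(⊤ : Subgroup G)) ⊓
      ((V'.subtype le_top : Sylow p ↥(⊤ : Subgroup G)) : Subgroup ↥(⊤ : Subgroup G))
      = ((V : Subgroup G) ⊓ (V' : Subgroup G)).subgroupOf ⊤ := by
    rw [Sylow.coe_subtype, Sylow.coe_subtype]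
    exact (Subgroup.comap_inf _ _ _).symm
  rw [e1] at hbot ⊢
  have hbot' : (V : Subgroup G) ⊓ (V' : Subgroup G) ≠ ⊥ := by
    intro h0
    apply hbot
    rw [h0]
    exact Subgroup.bot_subgroupOf _
  exact (h V V' hne' hbot').toTop hf

end Cfsg.Agent.H13
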