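import Mathlib
import Cfsg.Agent.Lib.H13.FunctorChain

set_option autoImplicit false

namespace Cfsg.Agent.H13

open Cfsg

variable {G : Type*} [Group G] [Finite G] {p : ℕ} [Fact p.Prime]

omit [Finite G] [Fact p.Prime] in
theorem sylowMembers_family_mono {𝓕 𝓖 : Set (Subgroup G)} (h : 𝓕 ⊆ 𝓖) {Y X : Subgroup G}
    (hX : X ∈ sylowMembers p 𝓕 Y) : X ∈ sylowMembers p 𝓖 Y :=
  ⟨h hX.1, hX.2⟩

omit [Finite G] [Fact p.Prime] in
theorem SLink.family_mono {𝓕 𝓖 : Set (Subgroup G)} (h : 𝓕 ⊆ 𝓖) {D : Subgroup G} {T T' : Sylow p G}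
    (hl : SLink p 𝓕 D T T') : SLink p 𝓖 D T T' := by
  obtain ⟨X, x, h1, h2, h3, h4, h5, h6, h7⟩ := hl
  exact ⟨X, x, sylowMembers_family_mono h h1, sylowMembers_family_mono h h2, h3, h4, h5, h6, h7⟩

/-- `V ∩ M` is a Sylow subgroup of `M`. -/
def Tame (V : Sylow p G) (M : Subgroup G) : Prop :=
  ∃ P : Sylow p ↥M, (P : Subgroup ↥M).map M.subtype = (V : Subgroup G) ⊓ M

omit [Finite G] [Fact p.Prime] in
theorem map_conj_self_of_mem {M : Subgroup G} {x : G} (hx : x ∈ M) :
    M.map (MulAut.conj x).toMonoidHom = M :=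
  map_conj_eq_of_mem_normalizer (Subgroup.le_normalizer hx)

theorem Tame.smul {V : Sylow p G} {M : Subgroup G} (h : Tame V M) {x : G} (hx : x ∈ M) :
    Tame (x • V) M := by
  obtain ⟨P, hP⟩ := h
  refine ⟨(⟨x, hx⟩ : ↥M) • P, ?_⟩
  have e : (((⟨x, hx⟩ : ↥M) • P : Sylow p ↥M) : Subgroup ↥M) =
      (P : Subgroup ↥M).map (MulAut.conj (⟨x, hx⟩ : ↥M)).toMonoidHom := rfl
  rw [e, map_subtype_conj, hP, map_conj_inf, map_conj_self_of_mem hx]
  rfl

theorem tame_of_le {M : Subgroup G} (W : Sylow p ↥M) {V : Sylow p G}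
    (h : (W : Subgroup ↥M).map M.subtype ≤ V) : Tame V M := by
  refine ⟨W, le_antisymm (le_inf h (Subgroup.map_subtype_le _)) ?_⟩
  have h1 : IsPGroup p ((((V : Subgroup G) ⊓ M).subgroupOf M : Subgroup ↥M)) :=
    isPGroup_subgroupOf (V.2.to_le inf_le_left)
  have h2 : (W : Subgroup ↥M) ≤ ((V : Subgroup G) ⊓ M).subgroupOf M := by
    intro y hy
    rw [Subgroup.mem_subgroupOf]
    exact Subgroup.mem_inf.2 ⟨h ⟨y, hy, rfl⟩, y.2⟩
  have h3 := W.3 h1 h2
  intro y hy
  have hy2 : (⟨y, (Subgroup.mem_inf.1 hy).2⟩ : ↥M) ∈ ((V : Subgroup G) ⊓ M).subgroupOf M := by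
    rw [Subgroup.mem_subgroupOf]
    exact hy
  rw [h3] at hy2
  exact ⟨_, hy2, rfl⟩

theorem exists_maxLocal {Q : Subgroup G} (hQ : IsPGroup p Q) (hQ1 : Q ≠ ⊥) :
    ∃ M, IsMaximalPLocal p M ∧ Subgroup.normalizer (Q : Set G) ≤ M := by
  let S : Set (Subgroup G) := {N | IsPLocal p N ∧ Subgroup.normalizer (Q : Set G) ≤ N}
  have hS : S.Nonempty := ⟨_, ⟨Q, hQ, hQ1, rfl⟩, le_rfl⟩
  obtain ⟨M, hM⟩ := S.toFinite.exists_maximal hS
  refine ⟨M, ⟨hM.1.1, fun N hN hMN => ?_⟩, hM.1.2⟩
  exact le_antisymm (hM.2 ⟨hN, hM.1.2.trans hMN⟩ hMN) hMN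

theorem lt_inf_normalizer_of_lt {D V : Subgroup G} (hV : IsPGroup p V) (h : D < V) :
    D < V ⊓ Subgroup.normalizer (D : Set G) := by
  haveI : Group.IsNilpotent V := hV.isNilpotent
  have h1 := normalizerCondition_of_isNilpotent (G := V)
  have h2 : D.subgroupOf V ≠ ⊤ := by
    intro h3
    apply not_le_of_gt h
    intro v hv
    have : (⟨v, hv⟩ : ↥V) ∈ D.subgroupOf V := h3 ▸ Subgroup.mem_top _
    exact this
  have h3 := h1 _ (lt_top_iff_ne_top.2 h2)
  obtain ⟨v, hv1, hv2⟩ := SetLike.exists_of_lt h3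
  have hDV : D ≤ V := h.le
  refine lt_of_le_of_ne (le_inf hDV Subgroup.le_normalizer) ?_
  intro h4
  apply hv2
  have hv3 : (v : G) ∈ V ⊓ Subgroup.normalizer (D : Set G) := by
    refine Subgroup.mem_inf.2 ⟨v.2, ?_⟩
    rw [Subgroup.mem_normalizer_iff]
    intro y
    by_cases hy : y ∈ V
    · have := Subgroup.mem_normalizer_iff.1 hv1 ⟨y, hy⟩
      simpa [Subgroup.mem_subgroupOf] using this
    · have e1 : y ∉ D := fun h => hy (hDV h)
      have e2 : (v : G) * y * (v : G)⁻¹ ∉ D := by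
        intro h5
        apply hy
        have := V.mul_mem (V.mul_mem (V.inv_mem v.2) (hDV h5)) v.2
        simpa [mul_assoc] using this
      exact iff_of_false e1 e2
  rw [← h4] at hv3
  exact hv3

theorem card_le_of_isPGroup_le {M U : Subgroup G} (P : Sylow p ↥M) (hU : U ≤ M) (hUp : IsPGroup p U) :
    Nat.card U ≤ Nat.card (P : Subgroup ↥M) := by
  obtain ⟨Q₀, hQ₀⟩ := exists_sylow_subgroup_le (K := M) hU hUp
  have h3 : Nat.card ((Q₀ : Subgroup ↥M).map M.subtype) = Nat.card (Q₀ : Subgroup ↥M) :=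
    Subgroup.card_map_of_injective M.subtype_injective
  have h4 : Nat.card (Q₀ : Subgroup ↥M) = Nat.card (P : Subgroup ↥M) := by
    rw [Sylow.card_eq_multiplicity, Sylow.card_eq_multiplicity]
  rw [← h4, ← h3]
  exact Subgroup.card_le_of_le hQ₀

theorem subgroup_card_lt {A B : Subgroup G} (h : A < B) : Nat.card A < Nat.card B := by
  by_contra hc
  exact h.ne (Subgroup.eq_of_le_of_card_ge h.le (not_lt.1 hc))

/-- The family of the statement. -/
def bigFamily (p : ℕ) (f : Subgroup G → Set (Subgroup G)) : Set (Subgroup G) :=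
  functorFamily p f ⊤ ∪ {M | IsMaximalPLocal p M ∧ ¬ IsFunctorRegular p f M}

section inner

variable {f : Subgroup G → Set (Subgroup G)} {D : Subgroup G}

/-- Auxiliary step `T(Y)`. -/
theorem functor_step (hD1 : D ≠ ⊥)
    (hClaim : ∀ D' : Subgroup G, D' ≠ ⊥ → Nat.card D < Nat.card D' → ∀ S T : Sylow p G,
      D' ≤ S → D' ≤ T → SLinked p (bigFamily p f) D' S T)
    {k : ℕ}
    (IH : ∀ (M : Subgroup G) (V : Sylow p G) (x : G), k < Nat.card ((V : Subgroup G) ⊓ M : Subgroup G) →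
      IsMaximalPLocal p M → Tame V M → x ∈ M → D ≤ M → D ≤ V → D ≤ ((x • V : Sylow p G) : Subgroup G) →
      SLinked p (bigFamily p f) D V (x • V))
    (V' : Sylow p G) (Y M' : Subgroup G) (y : G) (hY : Y ≤ V') (hYM : Y ≤ M')
    (hM' : IsMaximalPLocal p M') (hy : y ∈ M') (hDY : D ≤ Y) (hcard : Nat.card D < Nat.card Y)
    (hDy : D ≤ Y.map (MulAut.conj y).toMonoidHom)
    {U : Subgroup G} (hU : U ≤ M') (hUp : IsPGroup p U) (hUk : k < Nat.card U) :
    SLinked p (bigFamily p f) D V' (y • V') := by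
  have hYp : IsPGroup p Y := V'.2.to_le hY
  obtain ⟨W, hW⟩ := exists_sylow_subgroup_le hYM hYp
  have hWp : IsPGroup p ((W : Subgroup ↥M').map M'.subtype) := W.2.map _
  obtain ⟨V'', hV''⟩ := hWp.exists_le_sylow
  have ht := tame_of_le W hV''
  have hYV'' : Y ≤ V'' := hW.trans hV''
  have hYb : Y ≠ ⊥ := fun h => hD1 (le_bot_iff.1 (h ▸ hDY))
  have hcardY' : Nat.card (Y.map (MulAut.conj y).toMonoidHom) = Nat.card Y :=
    Subgroup.card_map_of_injective (MulAut.conj y).injective
  have hYb' : Y.map (MulAut.conj y).toMonoidHom ≠ ⊥ := fun h =>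
    hD1 (le_bot_iff.1 (h ▸ hDy))
  have hlink1 := (hClaim Y hYb hcard V' V'' hY hYV'').mono hDY
  have hlink3 := (hClaim _ hYb' (hcardY'.symm ▸ hcard) (y • V'') (y • V') (Subgroup.map_mono hYV'')
    (Subgroup.map_mono hY)).mono hDy
  have hcardV : k < Nat.card ((V'' : Subgroup G) ⊓ M' : Subgroup G) := by
    obtain ⟨P, hP⟩ := ht
    rw [← hP, Subgroup.card_map_of_injective M'.subtype_injective]
    exact lt_of_lt_of_le hUk (card_le_of_isPGroup_le P hU hUp)
  have hlink2 := IH M' V'' y hcardV hM' (tame_of_le W hV'') hy (hDY.trans hYM) (hDY.trans hYV'')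
    (hDy.trans (Subgroup.map_mono hYV''))
  exact (hlink1.trans hlink2).trans hlink3

/-- The inner induction: conjugating inside a maximal `p`-local subgroup. -/
theorem functor_inner (hf : IsNormalizerFunctor p f)
    (hf1 : ∀ P : Subgroup G, IsPGroup p ↥P → P ≠ ⊥ → ∀ F ∈ f P, F ≠ ⊥) (hD1 : D ≠ ⊥)
    (hClaim : ∀ D' : Subgroup G, D' ≠ ⊥ → Nat.card D < Nat.card D' → ∀ S T : Sylow p G,
      D' ≤ S → D' ≤ T → SLinked p (bigFamily p f) D' S T) :
    ∀ (n : ℕ) (M : Subgroup G) (V : Sylow p G) (x : G),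
      Nat.card G - Nat.card ((V : Subgroup G) ⊓ M : Subgroup G) = n →
      IsMaximalPLocal p M → Tame V M → x ∈ M → D ≤ M → D ≤ V → D ≤ ((x • V : Sylow p G) : Subgroup G) →
      SLinked p (bigFamily p f) D V (x • V) := by
  intro n
  induction n using Nat.strong_induction_on with
  | _ n IHn =>
  intro M V x hn hM htame hx hDM hDV hDxV
  -- The induction hypothesis in the convenient form.
  have IH : ∀ (M' : Subgroup G) (V' : Sylow p G) (x' : G),
      Nat.card ((V : Subgroup G) ⊓ M : Subgroup G) < Nat.card ((V' : Subgroup G) ⊓ M' : Subgroup G) →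
      IsMaximalPLocal p M' → Tame V' M' → x' ∈ M' → D ≤ M' → D ≤ V' →
      D ≤ ((x' • V' : Sylow p G) : Subgroup G) → SLinked p (bigFamily p f) D V' (x' • V') := by
    intro M' V' x' hc
    have h1 : Nat.card ((V' : Subgroup G) ⊓ M' : Subgroup G) ≤ Nat.card G :=
      Subgroup.card_le_card_group _
    exact IHn _ (by omega) M' V' x' rfl
  have hstep := fun (V' : Sylow p G) (Y M' : Subgroup G) (y : G) => functor_step hD1 hClaim IH V' Y M' y
  set W := (V : Subgroup G) ⊓ M with hW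
  have hDW : D ≤ W := le_inf hDV hDM
  by_cases hreg : IsFunctorRegular p f M
  swap
  · -- the singular case: one step
    have hmem : M ∈ bigFamily p f := Or.inr ⟨hM, hreg⟩
    refine Relation.ReflTransGen.single ⟨M, x, ⟨hmem, htame⟩, ⟨hmem, htame.smul hx⟩, hx, rfl, hDV,
      hDxV, hDM⟩
  -- the regular case
  obtain ⟨P, hP⟩ := htame
  replace hP : (P : Subgroup ↥M).map M.subtype = W := hP
  set xt : ↥M := ⟨x, hx⟩ with hxt
  set P' : Sylow p ↥M := xt • P with hP'
  have hP'c : (P' : Subgroup ↥M) = (P : Subgroup ↥M).map (MulAut.conj xt).toMonoidHom := rfl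
  have hP'map : (P' : Subgroup ↥M).map M.subtype = W.map (MulAut.conj x).toMonoidHom := by
    rw [hP'c, map_subtype_conj, hP]
  have hcW : Nat.card W = Nat.card (P : Subgroup ↥M) := by
    rw [← hP, Subgroup.card_map_of_injective M.subtype_injective]
  have hWx : W.map (MulAut.conj x).toMonoidHom ≤ ((x • V : Sylow p G) : Subgroup G) :=
    Subgroup.map_mono inf_le_left
  have hDWx : D ≤ W.map (MulAut.conj x).toMonoidHom := by
    rw [hW, map_conj_inf, map_conj_self_of_mem hx]
    exact le_inf hDxV hDM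
  have hWVle : W ≤ V := inf_le_left
  have hWM : W ≤ M := inf_le_right
  by_cases hPP : P' = P
  · -- `x` normalizes `W`
    have hWW : W.map (MulAut.conj x).toMonoidHom = W := by
      rw [← hP'map, hPP, hP]
    by_cases hcard : Nat.card D < Nat.card W
    · have hWb : W ≠ ⊥ := fun h => hD1 (le_bot_iff.1 (h ▸ hDW))
      exact (hClaim W hWb hcard V (x • V) hWVle (hWW ▸ hWx)).mono hDW
    · have hDeq : D = W := Subgroup.eq_of_le_of_card_ge hDW (not_lt.1 hcard)
      by_cases hVD : (V : Subgroup G) = D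
      · have hxV : x • V = V := by
          apply Sylow.ext
          rw [coe_smul_sylow, hVD, hDeq, hWW]
        rw [hxV]
        exact Relation.ReflTransGen.refl
      · have hlt : D < V := lt_of_le_of_ne hDV (Ne.symm hVD)
        have hY := lt_inf_normalizer_of_lt V.2 hlt
        obtain ⟨M', hM', hNM'⟩ := exists_maxLocal (V.2.to_le hDV) hD1
        have hxN : x ∈ Subgroup.normalizer (D : Set G) := by
          apply mem_normalizer_of_map_conj_eq
          rw [hDeq, hWW]
        have hYM' : (V : Subgroup G) ⊓ Subgroup.normalizer (D : Set G) ≤ M' := inf_le_right.trans hNM'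
        have hcardY := subgroup_card_lt hY
        refine hstep V _ M' x inf_le_left hYM' hM' (hNM' hxN) hY.le hcardY ?_ hYM' (V.2.to_le inf_le_left) ?_
        · have h1 := Subgroup.map_mono (f := (MulAut.conj x).toMonoidHom) hY.le
          rw [map_conj_eq_of_mem_normalizer hxN] at h1
          exact h1
        · rw [← hDeq]
          exact hcardY
  -- `W ≠ W^x`: the chain in `M`
  have hDle : D.subgroupOf M ≤ (P : Subgroup ↥M) ⊓ (P' : Subgroup ↥M) := by
    refine le_inf ?_ ?_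
    · intro y hy
      have h1 : (y : G) ∈ (P : Subgroup ↥M).map M.subtype := by
        rw [hP]
        exact hDW hy
      obtain ⟨z, hz, hzy⟩ := h1
      have : z = y := Subtype.ext hzy
      rwa [← this]
    · intro y hy
      have h1 : (y : G) ∈ (P' : Subgroup ↥M).map M.subtype := by
        rw [hP'map]
        exact hDWx hy
      obtain ⟨z, hz, hzy⟩ := h1
      have : z = y := Subtype.ext hzy
      rwa [← this]
  have hbot : (P : Subgroup ↥M) ⊓ (P' : Subgroup ↥M) ≠ ⊥ := by
    intro h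
    apply hD1
    rw [eq_bot_iff]
    intro y hy
    have h1 : (⟨y, hDM hy⟩ : ↥M) ∈ (⊥ : Subgroup ↥M) := h ▸ hDle hy
    exact Subgroup.mem_bot.2 (congrArg Subtype.val (Subgroup.mem_bot.1 h1))
  have hcD : Nat.card D < Nat.card W := by
    by_contra hc
    have hDeq : D = W := Subgroup.eq_of_le_of_card_ge hDW (not_lt.1 hc)
    have hcWx : Nat.card (W.map (MulAut.conj x).toMonoidHom) = Nat.card W :=
      Subgroup.card_map_of_injective (MulAut.conj x).injective
    have hDeq2 : D = W.map (MulAut.conj x).toMonoidHom :=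
      Subgroup.eq_of_le_of_card_ge hDWx (by rw [hcWx, ← hDeq])
    apply hPP
    apply Sylow.ext
    apply Subgroup.map_injective M.subtype_injective
    rw [hP'map, hP, ← hDeq2, hDeq]
  obtain ⟨m, c, X, y, h0, hl, hall⟩ := hreg P P' (Ne.symm hPP) hbot
  let Pr : Sylow p ↥M → Prop := fun U => ∃ V' : Sylow p G,
    (U : Subgroup ↥M).map M.subtype ≤ V' ∧ SLinked p (bigFamily p f) D V V' ∧
      D ≤ (U : Subgroup ↥M).map M.subtype
  have hfinal : Pr (c (Fin.last m)) := by
    apply chain_induction c Pr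
    · rw [h0]
      refine ⟨V, ?_, Relation.ReflTransGen.refl, ?_⟩
      · rw [hP]
        exact hWVle
      · rw [hP]
        exact hDW
    · intro i hi
      obtain ⟨Vi, hVi, hlink, hDc⟩ := hi
      obtain ⟨h1, h2, h3, h4, h5⟩ := hall i
      obtain ⟨X', ⟨Q, F, hF, rfl⟩, hXe⟩ := h1.1
      have hXi : X i = (M ⊓ Subgroup.normalizer (F : Set G)).subgroupOf M := hXe.symm
      set Q' := (Q : Subgroup ↥M).map M.subtype with hQ'
      have hQ'p : IsPGroup p Q' := Q.2.map _
      obtain ⟨hFle, hFN⟩ := (hf Q' hQ'p).1 F hF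
      have hQ'N : Q' ≤ Subgroup.normalizer (F : Set G) := Subgroup.le_normalizer.trans hFN
      have hQX : (Q : Subgroup ↥M) ≤ X i := by
        intro z hz
        rw [hXi, Subgroup.mem_subgroupOf]
        exact Subgroup.mem_inf.2 ⟨z.2, hQ'N ⟨z, hz, rfl⟩⟩
      have hcX := sylow_le_of_member hQX h1
      set Y := (c i.castSucc : Subgroup ↥M).map M.subtype with hY
      have hYM : Y ≤ M := Subgroup.map_subtype_le _
      have hYN : Y ≤ Subgroup.normalizer (F : Set G) := by
        rintro _ ⟨z, hz, rfl⟩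
        have := hcX hz
        rw [hXi, Subgroup.mem_subgroupOf] at this
        exact (Subgroup.mem_inf.1 this).2
      -- `F ∈ f Y`
      have hFY : F ∈ f Y := by
        obtain ⟨n', hn'⟩ := sylow_conj (Q.subtype hQX) ((c i.castSucc).subtype hcX)
        rw [Sylow.coe_subtype, Sylow.coe_subtype] at hn'
        have hXN : ∀ z : ↥M, z ∈ X i → (z : G) ∈ Subgroup.normalizer (F : Set G) := by
          rw [hXi]
          intro z hz
          rw [Subgroup.mem_subgroupOf] at hz
          exact (Subgroup.mem_inf.1 hz).2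
        have hn'1 : ((n' : ↥M) : G) ∈ Subgroup.normalizer (F : Set G) := hXN _ n'.2
        have e1 : (c i.castSucc : Subgroup ↥M) = (Q : Subgroup ↥M).map (MulAut.conj (n' : ↥M)).toMonoidHom := by
          have e2 := congrArg (Subgroup.map (X i).subtype) hn'
          rw [Subgroup.map_subgroupOf_eq_of_le hcX, map_subtype_conj,
            Subgroup.map_subgroupOf_eq_of_le hQX] at e2
          exact e2
        have e3 : Y = Q'.map (MulAut.conj ((n' : ↥M) : G)).toMonoidHom := by
          rw [hY, e1, map_subtype_conj]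
        rw [e3, (hf Q' hQ'p).2]
        exact ⟨F, hF, map_conj_eq_of_mem_normalizer hn'1⟩
      set yi : G := ((y i : ↥M) : G) with hyi
      have hyX : yi ∈ M ⊓ Subgroup.normalizer (F : Set G) := by
        have := h3
        rw [hXi, Subgroup.mem_subgroupOf] at this
        exact this
      obtain ⟨hyM, hyN⟩ := Subgroup.mem_inf.1 hyX
      have hcs : (c i.succ : Subgroup ↥M).map M.subtype = Y.map (MulAut.conj yi).toMonoidHom := by
        have e1 : (c i.succ : Subgroup ↥M) = (c i.castSucc : Subgroup ↥M).map (MulAut.conj (y i)).toMonoidHom := by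
          rw [← h4, subgroupConjRight_eq, map_conj_map_conj_inv]
        rw [e1, map_subtype_conj]
      have hDs : D ≤ (c i.succ : Subgroup ↥M).map M.subtype := by
        intro z hz
        have h6 : (⟨z, hDM hz⟩ : ↥M) ∈ (c i.succ : Subgroup ↥M) :=
          (le_trans hDle (h5.trans inf_le_left)) hz
        exact ⟨_, h6, rfl⟩
      have hDYy : D ≤ Y.map (MulAut.conj yi).toMonoidHom := hcs ▸ hDs
      have hcardY : Nat.card D < Nat.card Y := by
        rw [hY, Subgroup.card_map_of_injective M.subtype_injective]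
        have e1 : Nat.card (c i.castSucc : Subgroup ↥M) = Nat.card (P : Subgroup ↥M) := by
          rw [Sylow.card_eq_multiplicity, Sylow.card_eq_multiplicity]
        rw [e1, ← hcW]
        exact hcD
      have hYVi : Y ≤ Vi := hVi
      have hDVi : D ≤ Vi := hDc.trans hVi
      have hsmul : Y.map (MulAut.conj yi).toMonoidHom ≤ ((yi • Vi : Sylow p G) : Subgroup G) :=
        Subgroup.map_mono hYVi
      refine ⟨yi • Vi, hcs ▸ hsmul, Relation.ReflTransGen.trans hlink ?_, hDs⟩
      by_cases hYeq : Y = Vi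
      · -- a single link
        have hFV : F ∈ f (Vi : Subgroup G) := hYeq ▸ hFY
        have hVN : (Vi : Subgroup G) ≤ Subgroup.normalizer (F : Set G) := hYeq ▸ hYN
        have h7 := sLink_of_functor hf hFV hVN hyN hDVi (hDYy.trans hsmul)
        exact Relation.ReflTransGen.single (h7.family_mono (fun _ h => Or.inl h))
      · have hYlt : Y < Vi := lt_of_le_of_ne hYVi hYeq
        have hU := lt_inf_normalizer_of_lt Vi.2 hYlt
        have hYp : IsPGroup p Y := Vi.2.to_le hYVi
        have hYb : Y ≠ ⊥ := fun h => hD1 (le_bot_iff.1 (hDc.trans (le_of_eq h)))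
        have hFb : F ≠ ⊥ := hf1 Y hYp hYb F hFY
        have hFp : IsPGroup p F := hYp.to_le ((hf Y hYp).1 F hFY).1
        obtain ⟨M', hM', hNM'⟩ := exists_maxLocal hFp hFb
        have hNY : Subgroup.normalizer (Y : Set G) ≤ M' := ((hf Y hYp).1 F hFY).2.trans hNM'
        have hUM' : (Vi : Subgroup G) ⊓ Subgroup.normalizer (Y : Set G) ≤ M' := inf_le_right.trans hNY
        have hcU := subgroup_card_lt hU
        refine hstep Vi Y M' yi hYVi (hYN.trans hNM') hM' (hNM' hyN) hDc hcardY hDYy hUM'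
          (Vi.2.to_le inf_le_left) ?_
        have e1 : Nat.card Y = Nat.card W := by
          rw [hY, Subgroup.card_map_of_injective M.subtype_injective, hcW]
          rw [Sylow.card_eq_multiplicity, Sylow.card_eq_multiplicity]
        rw [← e1]
        exact hcU
  rw [hl] at hfinal
  obtain ⟨Vk, hVk, hlink, -⟩ := hfinal
  rw [hP'map] at hVk
  have hcWx : Nat.card (W.map (MulAut.conj x).toMonoidHom) = Nat.card W :=
    Subgroup.card_map_of_injective (MulAut.conj x).injective
  have hWxb : W.map (MulAut.conj x).toMonoidHom ≠ ⊥ := fun h => hD1 (le_bot_iff.1 (h ▸ hDWx))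
  have hlast := (hClaim _ hWxb (hcWx.symm ▸ hcD) Vk (x • V) hVk hWx).mono hDWx
  exact hlink.trans hlast

/-- The main claim. -/
theorem functor_claim (hf : IsNormalizerFunctor p f)
    (hf1 : ∀ P : Subgroup G, IsPGroup p ↥P → P ≠ ⊥ → ∀ F ∈ f P, F ≠ ⊥) :
    ∀ (n : ℕ) (D : Subgroup G), Nat.card G - Nat.card D = n → D ≠ ⊥ → ∀ S T : Sylow p G,
      D ≤ S → D ≤ T → SLinked p (bigFamily p f) D S T := by
  intro n
  induction n using Nat.strong_induction_on with
  | _ n IHn =>
  intro D hn hD1 S T hDS hDT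
  have hClaim : ∀ D' : Subgroup G, D' ≠ ⊥ → Nat.card D < Nat.card D' → ∀ S T : Sylow p G,
      D' ≤ S → D' ≤ T → SLinked p (bigFamily p f) D' S T := by
    intro D' hb hc
    have h1 : Nat.card D' ≤ Nat.card G := Subgroup.card_le_card_group _
    exact IHn _ (by omega) D' rfl hb
  have hinner := fun (M : Subgroup G) (V : Sylow p G) (x : G) =>
    functor_inner hf hf1 hD1 hClaim _ M V x rfl
  have hcST : Nat.card (S : Subgroup G) = Nat.card (T : Subgroup G) := by
    rw [Sylow.card_eq_multiplicity, Sylow.card_eq_multiplicity]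
  by_cases hSD : (S : Subgroup G) = D
  · have hST : S = T := by
      apply Sylow.ext
      refine Subgroup.eq_of_le_of_card_ge (hSD.le.trans hDT) ?_
      rw [hcST]
    rw [hST]
    exact Relation.ReflTransGen.refl
  by_cases hTD : (T : Subgroup G) = D
  · have hST : S = T := by
      apply Sylow.ext
      refine (Subgroup.eq_of_le_of_card_ge (hTD.le.trans hDS) ?_).symm
      rw [hcST]
    rw [hST]
    exact Relation.ReflTransGen.refl
  have hY₁ := lt_inf_normalizer_of_lt S.2 (lt_of_le_of_ne hDS (Ne.symm hSD))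
  have hY₂ := lt_inf_normalizer_of_lt T.2 (lt_of_le_of_ne hDT (Ne.symm hTD))
  obtain ⟨M, hM, hNM⟩ := exists_maxLocal (S.2.to_le hDS) hD1
  set Y₁ := (S : Subgroup G) ⊓ Subgroup.normalizer (D : Set G) with hY₁d
  set Y₂ := (T : Subgroup G) ⊓ Subgroup.normalizer (D : Set G) with hY₂d
  have hY₁M : Y₁ ≤ M := inf_le_right.trans hNM
  have hY₂M : Y₂ ≤ M := inf_le_right.trans hNM
  obtain ⟨W₁, hW₁⟩ := exists_sylow_subgroup_le hY₁M (S.2.to_le inf_le_left)
  obtain ⟨W₂, hW₂⟩ := exists_sylow_subgroup_le hY₂M (T.2.to_le inf_le_left)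
  obtain ⟨V₁, hV₁⟩ := (W₁.2.map M.subtype : IsPGroup p ((W₁ : Subgroup ↥M).map M.subtype)).exists_le_sylow
  obtain ⟨V₂, hV₂⟩ := (W₂.2.map M.subtype : IsPGroup p ((W₂ : Subgroup ↥M).map M.subtype)).exists_le_sylow
  obtain ⟨xt, hxt⟩ := sylow_conj W₁ W₂
  set x : G := (xt : G) with hx
  have hW₂' : (W₂ : Subgroup ↥M).map M.subtype = ((W₁ : Subgroup ↥M).map M.subtype).map (MulAut.conj x).toMonoidHom := by
    rw [hxt, map_subtype_conj]
  have hY₁b : Y₁ ≠ ⊥ := fun h => hD1 (le_bot_iff.1 (h ▸ hY₁.le))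
  have hY₂b : Y₂ ≠ ⊥ := fun h => hD1 (le_bot_iff.1 (h ▸ hY₂.le))
  have hc₁ := subgroup_card_lt hY₁
  have hc₂ := subgroup_card_lt hY₂
  have hl₁ := (hClaim Y₁ hY₁b hc₁ S V₁ inf_le_left (hW₁.trans hV₁)).mono hY₁.le
  have hl₃ := (hClaim Y₂ hY₂b hc₂ V₂ T (hW₂.trans hV₂) inf_le_left).mono hY₂.le
  have hW₂x : (W₂ : Subgroup ↥M).map M.subtype ≤ ((x • V₁ : Sylow p G) : Subgroup G) := by
    rw [hW₂']
    exact Subgroup.map_mono hV₁
  have hW₂b : (W₂ : Subgroup ↥M).map M.subtype ≠ ⊥ := fun h => hY₂b (le_bot_iff.1 (h ▸ hW₂))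
  have hc₃ : Nat.card D < Nat.card ((W₂ : Subgroup ↥M).map M.subtype : Subgroup G) :=
    lt_of_lt_of_le hc₂ (Subgroup.card_le_of_le hW₂)
  have hDW₂ : D ≤ (W₂ : Subgroup ↥M).map M.subtype := hY₂.le.trans hW₂
  have hl₂' := (hClaim _ hW₂b hc₃ (x • V₁) V₂ hW₂x hV₂).mono hDW₂
  have hl₂ := hinner M V₁ x hM (tame_of_le W₁ hV₁) xt.2 (Subgroup.le_normalizer.trans hNM)
    (hY₁.le.trans (hW₁.trans hV₁)) (hDW₂.trans hW₂x)
  exact (hl₁.trans hl₂).trans (hl₂'.trans hl₃)

end inner

end Cfsg.Agent.H13
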