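import Cfsg.Agent.Lib.H13.CharP2

/-!
Parabolic characteristic `p`: centralizers of central elements of Sylow subgroups.
-/

set_option autoImplicit false

namespace Cfsg.Agent.H13

open Cfsg
open scoped commutatorElement

variable {G : Type*} [Group G] {p : ℕ}

section
variable [Finite G] [Fact p.Prime]

/-- The centralizer of an element of order `p` in the centre of a Sylow subgroup
has characteristic `p`, when `G` has parabolic characteristic `p`. -/
theorem isCharP_centralizer_of_parabolic (hG : IsOfParabolicCharacteristic p G) (S : Sylow p G) {z : G}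
    (hzC : z ∈ Subgroup.centralizer ((S : Subgroup G) : Set G)) (hzo : orderOf z = p) :
    IsCharP p (Subgroup.centralizer ({z} : Set G)) := by
  have hpp : p.Prime := Fact.out
  have hz1 : z ≠ 1 := by
    intro h0
    rw [h0, orderOf_one] at hzo
    exact hpp.one_lt.ne hzo
  have hzpg : IsPGroup p (Subgroup.zpowers z) := by
    apply IsPGroup.of_card (n := 1)
    rw [Nat.card_zpowers, hzo, pow_one]
  have hz1' : Subgroup.zpowers z ≠ ⊥ := by
    intro h0
    rw [Subgroup.zpowers_eq_bot] at h0
    exact hz1 h0
  have hpar : IsParabolic p (Subgroup.normalizer ((Subgroup.zpowers z : Subgroup G) : Set G)) := by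
    refine ⟨S, fun s hs => ?_⟩
    apply centralizer_le_normalizer_of_le
    rw [Subgroup.mem_centralizer_iff]
    intro w hw
    obtain ⟨k, rfl⟩ := hw
    have h2 : Commute s z := Subgroup.mem_centralizer_iff.mp hzC s hs
    exact (h2.symm.zpow_left k)
  have h3 := hG _ hzpg hz1' hpar
  exact isCharP_centralizer_of_normalizer h3

/-- An element of order `p` in a nontrivial `p`-subgroup normal in a Sylow subgroup, central
in the Sylow subgroup. -/
theorem exists_central_of_parabolic {R : Subgroup G} (hRp : IsPGroup p R) (hR1 : R ≠ ⊥)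
    (hpar : IsParabolic p (Subgroup.normalizer (R : Set G))) :
    ∃ (T : Sylow p G) (z : G), R ≤ (T : Subgroup G) ∧ z ∈ R ∧ z ∈ (T : Subgroup G) ∧
      z ∈ Subgroup.centralizer ((T : Subgroup G) : Set G) ∧ orderOf z = p := by
  obtain ⟨T, hT⟩ := hpar
  have hRT : R ≤ (T : Subgroup G) := by
    have hsup : IsPGroup p ((T : Subgroup G) ⊔ R : Subgroup G) :=
      IsPGroup.to_sup_of_normal_right' T.2 hRp hT
    exact (T.is_maximal' hsup le_sup_left) ▸ le_sup_right
  have h1 := inf_center_ne_bot_of_pgroup T.2 hRT hR1 hT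
  obtain ⟨z', ⟨hz'R, hz'T, hz'C⟩, hz'o⟩ := exists_orderOf_eq_of_pgroup (hRp.to_le inf_le_left) h1
  exact ⟨T, z', hRT, hz'R, hz'T, hz'C, hz'o⟩

/-- The intersection of a normal subgroup `N` with a subgroup `A` of characteristic `p`
has characteristic `p`, seen inside `N`. -/
theorem isCharP_centralizer_subgroupOf (N : Subgroup G) [hN : N.Normal] (z : N)
    (hz : IsCharP p (Subgroup.centralizer ({(z : G)} : Set G))) :
    IsCharP p (Subgroup.centralizer ({z} : Set N)) := by
  have h1 : IsCharP p (N ⊓ Subgroup.centralizer ({(z : G)} : Set G) : Subgroup G) := by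
    apply isCharP_of_le_of_normalizer hz inf_le_right
    intro c hc
    rw [Subgroup.mem_normalizer_iff]
    intro x
    have hcx : c * x * c⁻¹ ∈ Subgroup.centralizer ({(z : G)} : Set G) ↔ x ∈ Subgroup.centralizer ({(z : G)} : Set G) := by
      constructor
      · intro h2
        have h3 := Subgroup.mul_mem _ (Subgroup.mul_mem _ (Subgroup.inv_mem _ hc) h2) hc
        have h4 : c⁻¹ * (c * x * c⁻¹) * c = x := by group
        rwa [h4] at h3
      · intro h2
        exact Subgroup.mul_mem _ (Subgroup.mul_mem _ hc h2) (Subgroup.inv_mem _ hc)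
    have hcx' : c * x * c⁻¹ ∈ N ↔ x ∈ N := by
      constructor
      · intro h2
        have h3 := hN.conj_mem _ h2 c⁻¹
        have h4 : c⁻¹ * (c * x * c⁻¹) * c⁻¹⁻¹ = x := by group
        rwa [h4] at h3
      · intro h2
        exact hN.conj_mem _ h2 c
    simp only [Subgroup.mem_inf, hcx, hcx']
  have heq : (Subgroup.centralizer ({z} : Set N)).map N.subtype
      = N ⊓ Subgroup.centralizer ({(z : G)} : Set G) := by
    ext c
    constructor
    · rintro ⟨w, hw, rfl⟩
      refine ⟨w.2, ?_⟩
      show (w : G) ∈ Subgroup.centralizer ({(z : G)} : Set G)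
      rw [Subgroup.mem_centralizer_iff]
      intro u hu
      rw [Set.mem_singleton_iff.mp hu]
      exact congrArg Subtype.val (Subgroup.mem_centralizer_iff.mp hw z rfl)
    · rintro ⟨hcN, hc⟩
      replace hc : c ∈ Subgroup.centralizer ({(z : G)} : Set G) := hc
      refine ⟨⟨c, hcN⟩, ?_, rfl⟩
      rw [SetLike.mem_coe, Subgroup.mem_centralizer_iff]
      intro u hu
      rw [Set.mem_singleton_iff.mp hu]
      apply Subtype.ext
      exact Subgroup.mem_centralizer_iff.mp hc z rfl
  rw [← heq] at h1
  exact charP_of_mulEquiv (Subgroup.equivMapOfInjective _ N.subtype N.subtype_injective).symm h1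

end

end Cfsg.Agent.H13
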