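import Mathlib
import Cfsg.Agent.Lib.H13.RT10

/-!
Two `p`-regular class sizes: the structure.
-/

set_option autoImplicit false
set_option linter.style.haveILetI false
set_option linter.unusedSectionVars false
set_option linter.unusedVariables false

namespace Cfsg.Agent.H13.RT

open Cfsg H19

universe u

variable {G : Type u} [Group G] [Finite G]

/-- A Sylow subgroup of the Fitting subgroup is normal in the group. -/
theorem sylow_fitting_normal {u : ℕ} [Fact u.Prime] (P₀ : Sylow u (fittingSubgroup G)) :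
    ((P₀ : Subgroup (fittingSubgroup G)).map (fittingSubgroup G).subtype).Normal := by
  haveI hFn : (fittingSubgroup G).Normal := H01.fitting_normal
  haveI hFnil : Group.IsNilpotent (fittingSubgroup G) := H01.fitting_nilpotent
  have h2 := Sylow.normalizer_sup_eq_top (N := fittingSubgroup G) P₀
  have h3 : fittingSubgroup G ≤ Subgroup.normalizer
      (((P₀ : Subgroup (fittingSubgroup G)).map (fittingSubgroup G).subtype : Subgroup G) : Set G) := by
    intro g hg
    have hnor : (P₀ : Subgroup (fittingSubgroup G)).Normal := inferInstance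
    apply mem_normalizer_of_conj_le
    rintro x ⟨y, hy, rfl⟩
    refine ⟨⟨g, hg⟩ * y * (⟨g, hg⟩ : fittingSubgroup G)⁻¹, hnor.conj_mem y hy ⟨g, hg⟩, ?_⟩
    simp
  rw [sup_eq_left.mpr h3] at h2
  exact Subgroup.normalizer_eq_top_iff.mp h2

/-- If all `p`-regular classes have `p`-power size, then there is an abelian `p`-complement. -/
theorem abelian_complement_of_regular {p : ℕ} (hp : p.Prime)
    (h : ∀ x : G, (orderOf x).Coprime p → ∃ k, (cz x).index = p ^ k) :
    ∃ H : Subgroup G, (∀ a ∈ H, ∀ b ∈ H, a * b = b * a) ∧ ¬ p ∣ Nat.card H ∧ ∃ k : ℕ, H.index = p ^ k := by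
  classical
  haveI : Fact p.Prime := ⟨hp⟩
  haveI hsol : Group.IsSolvable G := isSolvable_of_regular_classes hp h
  set V := pCore p G with hV
  haveI hVn : V.Normal := H01.pCore_normal p
  set q : G →* G ⧸ V := QuotientGroup.mk' V with hq
  have hqs : Function.Surjective q := QuotientGroup.mk'_surjective V
  have hcore : pCore p (G ⧸ V) = ⊥ := pCore_quotient_bot p
  haveI : Group.IsSolvable (G ⧸ V) := inferInstance
  have hclq : ∀ y : G ⧸ V, (orderOf y).Coprime p → ∃ k, (cz y).index = p ^ k := by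
    intro y hy
    obtain ⟨x, hxy, hx⟩ := exists_pi_lift q hqs {t | t ≠ p} y (by
      rintro t ht htd rfl
      exact ht.one_lt.ne' (Nat.Coprime.eq_one_of_dvd hy.symm htd))
    have hxc : (orderOf x).Coprime p := by
      refine ((Nat.Prime.coprime_iff_not_dvd hp).mpr ?_).symm
      intro hd
      exact hx p hp hd rfl
    obtain ⟨k, hk⟩ := h x hxc
    have h1 := H21.index_centralizer_eq_fibCount_mul V x
    have h2 : (cz y).index ∣ (cz x).index := by
      rw [h1, ← hxy]
      exact Dvd.intro_left _ rfl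
    rw [hk] at h2
    obtain ⟨j, _, hj⟩ := (Nat.dvd_prime_pow hp).mp h2
    exact ⟨j, hj⟩
  set F := fittingSubgroup (G ⧸ V) with hF
  haveI hFn : F.Normal := H01.fitting_normal
  have hFc : ∀ y : G ⧸ V, (orderOf y).Coprime p → F ≤ cz y := by
    intro y hy
    obtain ⟨k, hk⟩ := hclq y hy
    rw [hF, H01.fitting_eq_iSup_pCore]
    apply iSup_le
    rintro ⟨t, ht⟩
    show pCore t (G ⧸ V) ≤ _
    haveI : Fact t.Prime := ⟨ht⟩
    by_cases htp : t = p
    · subst htp
      rw [hcore]
      exact bot_le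
    · obtain ⟨T, hT⟩ := exists_sylow_le_of_not_dvd (t := t) (D := cz y) (by
        rw [hk]
        intro hd
        exact htp ((Nat.prime_dvd_prime_iff_eq ht hp).mp (ht.dvd_of_dvd_pow hd)))
      exact (H01.pCore_le_sylow t T).trans hT
  have hyF : ∀ y : G ⧸ V, (orderOf y).Coprime p → y ∈ F := by
    intro y hy
    apply H01.centralizer_fitting_le
    rw [Subgroup.mem_centralizer_iff]
    intro f hf
    exact (mem_cz.mp (hFc y hy hf))
  have hpF : ¬ p ∣ Nat.card F := by
    intro hd
    obtain ⟨P₀⟩ : Nonempty (Sylow p F) := inferInstance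
    have hne := P₀.ne_bot_of_dvd_card hd
    have hn := sylow_fitting_normal P₀
    have hle := H01.le_pCore hn (P₀.isPGroup'.map _)
    rw [hcore, le_bot_iff] at hle
    apply hne
    exact (Subgroup.map_eq_bot_iff_of_injective _ (Subgroup.subtype_injective _)).mp hle
  have hFcop : ∀ y ∈ F, (orderOf y).Coprime p := by
    intro y hy
    have h1 : orderOf y ∣ Nat.card F := Subgroup.orderOf_dvd_natCard F hy
    refine ((Nat.Prime.coprime_iff_not_dvd hp).mpr ?_).symm
    exact fun hd => hpF (hd.trans h1)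
  have hFab : ∀ a ∈ F, ∀ b ∈ F, a * b = b * a := by
    intro a ha b hb
    exact mem_cz.mp (hFc b (hFcop b hb) ha)
  obtain ⟨c, hc⟩ : ∃ c, F.index = p ^ c := by
    refine ⟨_, Nat.eq_prime_pow_of_unique_prime_dvd Subgroup.FiniteIndex.index_ne_zero ?_⟩
    intro t ht htd
    by_contra htp
    haveI : Fact t.Prime := ⟨ht⟩
    obtain ⟨T⟩ : Nonempty (Sylow t (G ⧸ V)) := inferInstance
    apply T.not_dvd_index
    refine htd.trans (Subgroup.index_dvd_of_le ?_)
    intro y hy
    obtain ⟨j, hj⟩ := elt_of_pgroup ht T.isPGroup' hy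
    apply hyF
    rw [hj]
    exact Nat.Coprime.pow_left j ((Nat.coprime_primes ht hp).mpr htp)
  -- pull back
  set L : Subgroup G := F.comap q with hL
  have hVL : V ≤ L := by
    intro x hx
    show q x ∈ F
    rw [show q x = 1 from (QuotientGroup.eq_one_iff x).mpr hx]
    exact F.one_mem
  haveI hNn : (V.subgroupOf L).Normal := Subgroup.normal_subgroupOf
  have hVp : IsPGroup p V := H01.pCore_isPGroup p
  obtain ⟨v, hv⟩ := IsPGroup.iff_card.mp hVp
  have hLidx : L.index = F.index := Subgroup.index_comap_of_surjective F hqs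
  have hGV : Nat.card V * Nat.card (G ⧸ V) = Nat.card G := by
    have := V.card_mul_index
    rwa [Subgroup.index_eq_card] at this
  have hFidx := F.card_mul_index
  have hLcard : Nat.card L = Nat.card V * Nat.card F := by
    have h1 := L.card_mul_index
    rw [hLidx, ← hGV, ← hFidx, ← mul_assoc] at h1
    exact Nat.eq_of_mul_eq_mul_right (Nat.pos_of_ne_zero Subgroup.FiniteIndex.index_ne_zero) h1
  have hNcard : Nat.card (V.subgroupOf L) = Nat.card V :=
    Nat.card_congr (Subgroup.subgroupOfEquivOfLe hVL).toEquiv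
  have hNidx : (V.subgroupOf L).index = Nat.card F := by
    have h1 := (V.subgroupOf L).card_mul_index
    rw [hNcard, hLcard] at h1
    exact Nat.eq_of_mul_eq_mul_left Nat.card_pos h1
  have hcop : (Nat.card (V.subgroupOf L)).Coprime (V.subgroupOf L).index := by
    rw [hNcard, hNidx, hv]
    exact Nat.Coprime.pow_left v ((Nat.Prime.coprime_iff_not_dvd hp).mpr hpF)
  obtain ⟨H₀, hH₀⟩ := Subgroup.exists_right_complement'_of_coprime hcop
  have hH₀card : Nat.card H₀ = Nat.card F := by
    have h1 := hH₀.card_mul_card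
    rw [hNcard, hLcard] at h1
    exact Nat.eq_of_mul_eq_mul_left Nat.card_pos h1
  set H : Subgroup G := H₀.map L.subtype with hH
  have hHcard : Nat.card H = Nat.card F := by
    rw [hH, Subgroup.card_map_of_injective (Subgroup.subtype_injective _), hH₀card]
  have hHL : H ≤ L := Subgroup.map_subtype_le _
  refine ⟨H, ?_, ?_, ?_⟩
  · intro a ha b hb
    have hca : a⁻¹ * b⁻¹ * a * b ∈ H := H.mul_mem (H.mul_mem (H.mul_mem (H.inv_mem ha) (H.inv_mem hb)) ha) hb
    have hcq : q (a⁻¹ * b⁻¹ * a * b) = 1 := by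
      have hab := hFab (q a) (hHL ha) (q b) (hHL hb)
      simp only [map_mul, map_inv]
      calc (q a)⁻¹ * (q b)⁻¹ * q a * q b = (q a)⁻¹ * (q b)⁻¹ * (q a * q b) := by group
        _ = (q a)⁻¹ * (q b)⁻¹ * (q b * q a) := by rw [hab]
        _ = 1 := by group
    have hcV : a⁻¹ * b⁻¹ * a * b ∈ V := (QuotientGroup.eq_one_iff _).mp hcq
    have h1 : orderOf (a⁻¹ * b⁻¹ * a * b) ∣ Nat.card H := Subgroup.orderOf_dvd_natCard H hca
    have h2 : orderOf (a⁻¹ * b⁻¹ * a * b) ∣ Nat.card V := Subgroup.orderOf_dvd_natCard V hcV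
    have h3 : (Nat.card H).Coprime (Nat.card V) := by
      rw [hHcard, hv]
      exact Nat.Coprime.pow_right v (((Nat.Prime.coprime_iff_not_dvd hp).mpr hpF).symm)
    have h4 : orderOf (a⁻¹ * b⁻¹ * a * b) = 1 := Nat.eq_one_of_dvd_coprimes h3 h1 h2
    have h5 := orderOf_eq_one_iff.mp h4
    have h6 : a * b = b * a := by
      have : b * a * (a⁻¹ * b⁻¹ * a * b) = a * b := by group
      rw [← this, h5, mul_one]
    exact h6
  · rw [hHcard]
    exact hpF
  · refine ⟨v + c, ?_⟩
    have h1 := H.card_mul_index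
    rw [hHcard, ← hGV, ← hFidx, hc] at h1
    have h2 : Nat.card F * H.index = Nat.card F * p ^ (v + c) := by
      rw [h1, hv, pow_add]
      ring
    exact Nat.eq_of_mul_eq_mul_left Nat.card_pos h2

theorem direct_of_central {p s : ℕ} [hp : Fact p.Prime] [hs : Fact s.Prime] (hsp : s ≠ p)
    (hc : ∀ x : G, (orderOf x).Coprime p → (orderOf x).Coprime s → x ∈ Subgroup.center G) :
    ∃ (P : Sylow p G) (Q : Sylow s G) (A : Subgroup G), A ≤ Subgroup.center G ∧
      Nat.card ↥((P : Subgroup G) ⊔ (Q : Subgroup G)) = Nat.card P * Nat.card Q ∧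
      ((P : Subgroup G) ⊔ (Q : Subgroup G)).Normal ∧
      ((P : Subgroup G) ⊔ (Q : Subgroup G)) ⊓ A = ⊥ ∧ ((P : Subgroup G) ⊔ (Q : Subgroup G)) ⊔ A = ⊤ := by
  classical
  have hpp : p.Prime := hp.out
  have hsp' : s.Prime := hs.out
  let A : Subgroup G :=
    { carrier := {x | (orderOf x).Coprime p ∧ (orderOf x).Coprime s}
      mul_mem' := by
        rintro a b ⟨h1, h2⟩ ⟨h3, h4⟩
        have hcm : Commute a b := (Subgroup.mem_center_iff.mp (hc b h3 h4) a)
        have hd := hcm.orderOf_mul_dvd_mul_orderOf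
        exact ⟨Nat.Coprime.of_dvd_left hd (Nat.Coprime.mul_left h1 h3),
          Nat.Coprime.of_dvd_left hd (Nat.Coprime.mul_left h2 h4)⟩
      one_mem' := by simp
      inv_mem' := by
        intro a ha
        simpa [orderOf_inv] using ha }
  have hAZ : A ≤ Subgroup.center G := fun x hx => hc x hx.1 hx.2
  haveI hAn : A.Normal := by
    constructor
    intro a ha g
    rw [Subgroup.mem_center_iff.mp (hAZ ha) g]
    simpa using ha
  have hAcard : ∀ t : ℕ, t.Prime → t ∣ Nat.card A → t ≠ p ∧ t ≠ s := by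
    intro t ht hd
    haveI : Fact t.Prime := ⟨ht⟩
    obtain ⟨y, hy⟩ := exists_prime_orderOf_dvd_card' t hd
    have hy' : orderOf (y : G) = t := by rw [Subgroup.orderOf_coe, hy]
    have h1 : (orderOf (y : G)).Coprime p := y.2.1
    have h2 : (orderOf (y : G)).Coprime s := y.2.2
    rw [hy'] at h1 h2
    constructor
    · rintro rfl
      exact ht.one_lt.ne' (Nat.coprime_self t |>.mp h1)
    · rintro rfl
      exact ht.one_lt.ne' (Nat.coprime_self t |>.mp h2)
  have hAidx : ∀ t : ℕ, t.Prime → t ∣ A.index → t = p ∨ t = s := by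
    intro t ht hd
    by_contra hcon
    push Not at hcon
    haveI : Fact t.Prime := ⟨ht⟩
    obtain ⟨T⟩ : Nonempty (Sylow t G) := inferInstance
    apply T.not_dvd_index
    refine hd.trans (Subgroup.index_dvd_of_le ?_)
    intro y hy
    obtain ⟨j, hj⟩ := elt_of_pgroup ht T.isPGroup' hy
    constructor
    · show (orderOf y).Coprime p
      rw [hj]
      exact Nat.Coprime.pow_left j ((Nat.coprime_primes ht hpp).mpr hcon.1)
    · show (orderOf y).Coprime s
      rw [hj]
      exact Nat.Coprime.pow_left j ((Nat.coprime_primes ht hsp').mpr hcon.2)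
  have hcop : (Nat.card A).Coprime A.index := by
    apply Nat.coprime_of_dvd
    intro t ht h1 h2
    have h3 := hAcard t ht h1
    rcases hAidx t ht h2 with h4 | h4
    · exact h3.1 h4
    · exact h3.2 h4
  obtain ⟨L, hL⟩ := Subgroup.exists_right_complement'_of_coprime hcop
  have hLcard := hL.card_mul_card
  have hAi := A.card_mul_index
  have hLi : L.index = Nat.card A := by
    have h1 := L.card_mul_index
    rw [← hLcard, mul_comm] at h1
    exact Nat.eq_of_mul_eq_mul_right Nat.card_pos h1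
  have hLA : Nat.card L = A.index := by
    rw [← hAi] at hLcard
    exact Nat.eq_of_mul_eq_mul_left Nat.card_pos hLcard
  haveI hLn : L.Normal := by
    constructor
    intro n hn g
    obtain ⟨⟨a, l⟩, hal⟩ := hL.2 g
    have hg : g = a.1 * l.1 := hal.symm
    have haZ := Subgroup.mem_center_iff.mp (hAZ a.2)
    have h1 : g * n * g⁻¹ = l.1 * n * l.1⁻¹ := by
      rw [hg, mul_inv_rev]
      have h2 : a.1 * l.1 * n * (l.1⁻¹ * a.1⁻¹) = a.1 * (l.1 * n * l.1⁻¹) * a.1⁻¹ := by group
      rw [h2, ← haZ (l.1 * n * l.1⁻¹)]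
      group
    rw [h1]
    exact L.mul_mem (L.mul_mem l.2 hn) (L.inv_mem l.2)
  obtain ⟨P⟩ : Nonempty (Sylow p G) := inferInstance
  obtain ⟨Q⟩ : Nonempty (Sylow s G) := inferInstance
  have hAp : ¬ p ∣ Nat.card A := fun h => (hAcard p hpp h).1 rfl
  have hAs : ¬ s ∣ Nat.card A := fun h => (hAcard s hsp' h).2 rfl
  have hinL : ∀ {t : ℕ}, t.Prime → ¬ t ∣ Nat.card A → ∀ {R : Subgroup G}, IsPGroup t R → R ≤ L := by
    intro t ht htA R hR x hx
    obtain ⟨j, hj⟩ := elt_of_pgroup ht hR hx
    have h1 : orderOf (QuotientGroup.mk' L x) ∣ t ^ j := by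
      rw [← hj]
      exact orderOf_map_dvd _ _
    have h2 : orderOf (QuotientGroup.mk' L x) ∣ Nat.card A := by
      rw [← hLi, Subgroup.index_eq_card]
      exact orderOf_dvd_natCard _
    have h3 : (t ^ j).Coprime (Nat.card A) := Nat.Coprime.pow_left j ((Nat.Prime.coprime_iff_not_dvd ht).mpr htA)
    have h4 := Nat.eq_one_of_dvd_coprimes h3 h1 h2
    have h5 := orderOf_eq_one_iff.mp h4
    exact (QuotientGroup.eq_one_iff x).mp h5
  have hPL : (P : Subgroup G) ≤ L := hinL hpp hAp P.isPGroup'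
  have hQL : (Q : Subgroup G) ≤ L := hinL hsp' hAs Q.isPGroup'
  obtain ⟨a, b, hab⟩ := card_two_prime (c := Nat.card L) Nat.card_pos.ne' hpp hsp' (by
    intro t ht hd
    rw [hLA] at hd
    exact hAidx t ht hd)
  have hpsc : ∀ i j : ℕ, (p ^ i).Coprime (s ^ j) := fun i j =>
    Nat.Coprime.pow _ _ ((Nat.coprime_primes hpp hsp').mpr hsp.symm)
  have hcP : Nat.card P = p ^ a := by
    apply Nat.dvd_antisymm
    · obtain ⟨i, hi⟩ := IsPGroup.iff_card.mp P.isPGroup'
      have h1 : Nat.card P ∣ Nat.card L := Subgroup.card_dvd_of_le hPL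
      rw [hab, hi] at h1
      rw [hi]
      exact (Nat.Coprime.dvd_of_dvd_mul_right (hpsc i b) h1)
    · apply Sylow.pow_dvd_card_of_pow_dvd_card
      rw [← hLcard, hab]
      exact Dvd.dvd.mul_left (Dvd.intro _ rfl) _
  have hcQ : Nat.card Q = s ^ b := by
    apply Nat.dvd_antisymm
    · obtain ⟨i, hi⟩ := IsPGroup.iff_card.mp Q.isPGroup'
      have h1 : Nat.card Q ∣ Nat.card L := Subgroup.card_dvd_of_le hQL
      rw [hab, hi] at h1
      rw [hi]
      exact (Nat.Coprime.dvd_of_dvd_mul_left (hpsc a i).symm h1)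
    · apply Sylow.pow_dvd_card_of_pow_dvd_card
      rw [← hLcard, hab]
      exact Dvd.dvd.mul_left (Dvd.intro_left _ rfl) _
  have hJL : (P : Subgroup G) ⊔ (Q : Subgroup G) ≤ L := sup_le hPL hQL
  have hJcard : Nat.card L ≤ Nat.card ↥((P : Subgroup G) ⊔ (Q : Subgroup G)) := by
    have h1 : Nat.card P ∣ Nat.card ↥((P : Subgroup G) ⊔ (Q : Subgroup G)) := Subgroup.card_dvd_of_le le_sup_left
    have h2 : Nat.card Q ∣ Nat.card ↥((P : Subgroup G) ⊔ (Q : Subgroup G)) := Subgroup.card_dvd_of_le le_sup_right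
    rw [hcP] at h1
    rw [hcQ] at h2
    have h3 := Nat.Coprime.mul_dvd_of_dvd_of_dvd (hpsc a b) h1 h2
    rw [hab]
    exact Nat.le_of_dvd Nat.card_pos h3
  have hJ : (P : Subgroup G) ⊔ (Q : Subgroup G) = L := Subgroup.eq_of_le_of_card_ge hJL hJcard
  refine ⟨P, Q, A, hAZ, ?_, ?_, ?_, ?_⟩
  · rw [hJ, hab, hcP, hcQ]
  · rw [hJ]
    exact hLn
  · rw [hJ, inf_comm]
    exact hL.disjoint.eq_bot
  · rw [hJ, sup_comm]
    exact hL.sup_eq_top

end Cfsg.Agent.H13.RT
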