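import Mathlib

set_option autoImplicit false

namespace Cfsg.Agent.H13

open Equiv Equiv.Perm

variable {α : Type*} [Fintype α] [DecidableEq α]

/-- the 3-cycle `a ↦ b ↦ c ↦ a`. -/
def tri (a b c : α) : Perm α := swap a b * swap b c

theorem tri_isThreeCycle {a b c : α} (ab : a ≠ b) (ac : a ≠ c) (bc : b ≠ c) :
    (tri a b c).IsThreeCycle := by
  unfold tri
  rw [swap_comm a b]
  exact isThreeCycle_swap_mul_swap_same ab.symm bc ac

theorem tri_apply_left {a b c : α} (ab : a ≠ b) (ac : a ≠ c) : tri a b c a = b := by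
  simp [tri, swap_apply_of_ne_of_ne ab ac]

theorem tri_apply_mid {a b c : α} (ac : a ≠ c) (bc : b ≠ c) : tri a b c b = c := by
  simp only [tri, Perm.mul_apply, swap_apply_left]
  exact swap_apply_of_ne_of_ne ac.symm bc.symm

theorem tri_apply_right {a b c : α} : tri a b c c = a := by
  simp [tri]

theorem tri_apply_of_ne {a b c x : α} (hxa : x ≠ a) (hxb : x ≠ b) (hxc : x ≠ c) : tri a b c x = x := by
  simp only [tri, Perm.mul_apply]
  rw [swap_apply_of_ne_of_ne hxb hxc, swap_apply_of_ne_of_ne hxa hxb]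

theorem tri_conj (g : Perm α) (a b c : α) : g * tri a b c * g⁻¹ = tri (g a) (g b) (g c) := by
  unfold tri
  rw [swap_apply_apply, swap_apply_apply]
  group

theorem tri_rot {a b c : α} (ab : a ≠ b) (ac : a ≠ c) (bc : b ≠ c) : tri a b c = tri b c a := by
  ext x
  by_cases hxa : x = a
  · subst hxa
    rw [tri_apply_left ab ac, tri_apply_right]
  by_cases hxb : x = b
  · subst hxb
    rw [tri_apply_mid ac bc, tri_apply_left bc ab.symm]
  by_cases hxc : x = c
  · subst hxc
    rw [tri_apply_right, tri_apply_mid ab.symm ac.symm]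
  rw [tri_apply_of_ne hxa hxb hxc, tri_apply_of_ne hxb hxc hxa]

theorem tri_inv (a b c : α) : (tri a b c)⁻¹ = tri c b a := by
  unfold tri
  rw [mul_inv_rev, swap_inv, swap_inv, swap_comm b c, swap_comm a b]

theorem tri_distinct {t : Perm α} (ht : t.IsThreeCycle) {a : α} (ha : t a ≠ a) :
    a ≠ t a ∧ a ≠ t (t a) ∧ t a ≠ t (t a) := by
  have h1 := ht.nodup_iff_mem_support.2 (mem_support.2 ha)
  refine ⟨ha.symm, ?_, t.injective.ne ha.symm⟩
  simp only [List.nodup_cons, List.mem_cons, List.not_mem_nil, or_false, not_or] at h1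
  exact h1.1.2

theorem eq_tri_of_isThreeCycle {t : Perm α} (ht : t.IsThreeCycle) {a : α} (ha : t a ≠ a) :
    t = tri a (t a) (t (t a)) :=
  (ht.eq_swap_mul_swap_iff_mem_support).2 (mem_support.2 ha)

theorem mem_support_three {t : Perm α} (ht : t.IsThreeCycle) {a x : α} (ha : t a ≠ a)
    (hx : t x ≠ x) : x = a ∨ x = t a ∨ x = t (t a) := by
  have h1 := (ht.support_eq_iff_mem_support).2 (mem_support.2 ha)
  have h2 : x ∈ t.support := mem_support.2 hx
  rw [h1] at h2
  simpa using h2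

/-- Even permutations supported on `Δ`. -/
def altOn (Δ : Finset α) : Subgroup (Perm α) where
  carrier := {g | sign g = 1 ∧ ∀ x, x ∉ Δ → g x = x}
  mul_mem' := by
    rintro g h ⟨hg, hg2⟩ ⟨hh, hh2⟩
    refine ⟨by rw [map_mul, hg, hh, one_mul], fun x hx => ?_⟩
    rw [Perm.mul_apply, hh2 x hx, hg2 x hx]
  one_mem' := ⟨map_one _, fun _ _ => rfl⟩
  inv_mem' := by
    rintro g ⟨hg, hg2⟩
    refine ⟨by rw [map_inv, hg, inv_one], fun x hx => ?_⟩
    rw [Perm.inv_eq_iff_eq]
    exact (hg2 x hx).symm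

theorem mem_altOn {Δ : Finset α} {g : Perm α} :
    g ∈ altOn Δ ↔ sign g = 1 ∧ ∀ x, x ∉ Δ → g x = x := Iff.rfl

theorem altOn_mono {Δ Δ' : Finset α} (h : Δ ⊆ Δ') : altOn Δ ≤ altOn Δ' := fun _ hg =>
  ⟨hg.1, fun x hx => hg.2 x (fun hc => hx (h hc))⟩

theorem apply_mem_of_fix {Δ : Finset α} {g : Perm α} (hg : ∀ x, x ∉ Δ → g x = x) {x : α} (hx : x ∈ Δ) :
    g x ∈ Δ := by
  by_contra hc
  have := hg _ hc
  have h2 : g x = x := g.injective this
  rw [h2] at hc
  exact hc hx

theorem tri_mem_altOn {Δ : Finset α} {a b c : α} (ab : a ≠ b) (ac : a ≠ c) (bc : b ≠ c)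
    (ha : a ∈ Δ) (hb : b ∈ Δ) (hc : c ∈ Δ) : tri a b c ∈ altOn Δ := by
  refine ⟨(tri_isThreeCycle ab ac bc).sign, fun x hx => ?_⟩
  exact tri_apply_of_ne (fun h => hx (h ▸ ha)) (fun h => hx (h ▸ hb)) (fun h => hx (h ▸ hc))

theorem altOn_eq_map (Δ : Finset α) :
    altOn Δ = (alternatingGroup {x // x ∈ Δ}).map (ofSubtype (p := (· ∈ Δ))) := by
  apply le_antisymm
  · rintro g ⟨hg, hg2⟩
    have h1 : ∀ x, (g x ∈ Δ) ↔ x ∈ Δ := by
      intro x
      constructor
      · intro h
        by_contra hc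
        rw [hg2 x hc] at h
        exact hc h
      · exact apply_mem_of_fix hg2
    have h2 : ∀ x, g x ≠ x → x ∈ Δ := fun x hx => by
      by_contra hc
      exact hx (hg2 x hc)
    have h3 := ofSubtype_subtypePerm (p := (· ∈ Δ)) h1 h2
    refine ⟨g.subtypePerm h1, SetLike.mem_coe.2 ?_, h3⟩
    rw [Equiv.Perm.mem_alternatingGroup, ← sign_ofSubtype, h3, hg]
  · rintro _ ⟨f, hf, rfl⟩
    refine ⟨?_, fun x hx => ofSubtype_apply_of_not_mem f hx⟩
    rw [sign_ofSubtype]
    exact hf

/-- `altOn Δ` is an alternating group. -/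
noncomputable def altOnEquiv (Δ : Finset α) : ↥(altOn Δ) ≃* ↥(alternatingGroup {x // x ∈ Δ}) :=
  (MulEquiv.subgroupCongr (altOn_eq_map Δ)).trans
    ((alternatingGroup {x // x ∈ Δ}).equivMapOfInjective (ofSubtype (p := (· ∈ Δ))) ofSubtype_injective).symm

theorem altOn_le_of_three {Δ : Finset α} {H : Subgroup (Perm α)}
    (h : ∀ t : Perm α, t.IsThreeCycle → (∀ x, x ∉ Δ → t x = x) → t ∈ H) : altOn Δ ≤ H := by
  rw [altOn_eq_map, ← closure_three_cycles_eq_alternating, MonoidHom.map_closure, Subgroup.closure_le]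
  rintro _ ⟨f, hf, rfl⟩
  refine h _ ?_ (fun x hx => ofSubtype_apply_of_not_mem f hx)
  have hf' : f.IsThreeCycle := hf
  unfold IsThreeCycle at hf' ⊢
  rw [cycleType_ofSubtype]
  exact hf'

section growth

variable {H : Subgroup (Perm α)}

/-- one new letter. -/
theorem growth_one {Δ : Finset α} (hΔ : altOn Δ ≤ H) {a b z : α} (ha : a ∈ Δ) (hb : b ∈ Δ) (ab : a ≠ b)
    (hz : z ∉ Δ) (ht : tri a b z ∈ H) : altOn (insert z Δ) ≤ H := by
  have haz : a ≠ z := fun h => hz (h ▸ ha)
  have hbz : b ≠ z := fun h => hz (h ▸ hb)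
  have hne : ∀ w, w ∉ Δ → ∀ u, u ∈ Δ → w ≠ u := fun w hw u hu h => hw (h ▸ hu)
  have key : ∀ x y : α, x ∈ Δ → y ∈ Δ → x ≠ y → tri x y z ∈ H := by
    intro x y hx hy hxy
    have hxz : x ≠ z := fun h => hz (h ▸ hx)
    have hyz : y ≠ z := fun h => hz (h ▸ hy)
    set s₁ := swap a x with hs₁
    set b' := s₁ b with hb'
    have hb'Δ : b' ∈ Δ := by
      have h1 : ∀ w, w ∉ Δ → s₁ w = w := fun w hw =>
        swap_apply_of_ne_of_ne (hne w hw a ha) (hne w hw x hx)
      exact apply_mem_of_fix h1 hb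
    have hxb' : x ≠ b' := by
      have h1 : s₁ a = x := swap_apply_left a x
      intro h
      rw [← h1] at h
      exact ab (s₁.injective h)
    set σ := swap b' y * s₁ with hσ
    have hσa : σ a = x := by
      rw [hσ, Perm.mul_apply, hs₁, swap_apply_left]
      exact swap_apply_of_ne_of_ne hxb' hxy
    have hσb : σ b = y := by
      rw [hσ, Perm.mul_apply, ← hb', swap_apply_left]
    have hσfix : ∀ w, w ∉ Δ → σ w = w := by
      intro w hw
      rw [hσ, Perm.mul_apply, hs₁, swap_apply_of_ne_of_ne (hne w hw a ha) (hne w hw x hx)]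
      exact swap_apply_of_ne_of_ne (hne w hw b' hb'Δ) (hne w hw y hy)
    have hσz : σ z = z := hσfix z hz
    obtain hsign | hsign := Int.units_eq_one_or (sign σ)
    · have hmem : σ ∈ H := hΔ ⟨hsign, hσfix⟩
      have h1 := H.mul_mem (H.mul_mem hmem ht) (H.inv_mem hmem)
      rw [tri_conj, hσa, hσb, hσz] at h1
      exact h1
    · set τ := swap x y * σ with hτ
      have hτa : τ a = y := by rw [hτ, Perm.mul_apply, hσa, swap_apply_left]
      have hτb : τ b = x := by rw [hτ, Perm.mul_apply, hσb, swap_apply_right]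
      have hτz : τ z = z := by
        rw [hτ, Perm.mul_apply, hσz]
        exact swap_apply_of_ne_of_ne hxz.symm hyz.symm
      have hτs : sign τ = 1 := by
        rw [hτ, map_mul, sign_swap hxy, hsign]
        decide
      have hτfix : ∀ w, w ∉ Δ → τ w = w := by
        intro w hw
        rw [hτ, Perm.mul_apply, hσfix w hw]
        exact swap_apply_of_ne_of_ne (hne w hw x hx) (hne w hw y hy)
      have hmem : τ ∈ H := hΔ ⟨hτs, hτfix⟩
      have h1 := H.mul_mem (H.mul_mem hmem ht) (H.inv_mem hmem)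
      rw [tri_conj, hτa, hτb, hτz] at h1
      -- `tri y x z` is the inverse of `tri x y z`
      have h2 := H.inv_mem h1
      rw [tri_inv, tri_rot hxz.symm hyz.symm hxy] at h2
      exact h2
  apply altOn_le_of_three
  intro t ht3 htfix
  by_cases htz : t z = z
  · apply hΔ
    refine ⟨ht3.sign, fun x hx => ?_⟩
    by_cases hxz : x = z
    · rw [hxz, htz]
    · exact htfix x (by simp [hxz, hx])
  -- `z` is moved
  have htE := eq_tri_of_isThreeCycle ht3 htz
  obtain ⟨h1, h2, h3⟩ := tri_distinct ht3 htz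
  have hin : ∀ w, t w ≠ w → w ∈ insert z Δ := fun w hw => by
    by_contra hc
    exact hw (htfix w hc)
  have hx : t z ∈ Δ := by
    have h4 := hin (t z) h3.symm
    rw [Finset.mem_insert] at h4
    exact h4.resolve_left h1.symm
  have hy : t (t z) ∈ Δ := by
    have h4 := hin (t (t z)) (fun h => htz (t.injective (t.injective (by rw [h]))))
    rw [Finset.mem_insert] at h4
    exact h4.resolve_left h2.symm
  rw [htE, tri_rot h1 h2 h3]
  exact key _ _ hx hy h3

/-- two new letters. -/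
theorem growth_two {Δ : Finset α} (hΔ : altOn Δ ≤ H) (hcard : 3 ≤ Δ.card) {a y z : α} (ha : a ∈ Δ)
    (hy : y ∉ Δ) (hz : z ∉ Δ) (hyz : y ≠ z) (ht : tri a y z ∈ H) :
    altOn (insert z (insert y Δ)) ≤ H := by
  have hay : a ≠ y := fun h => hy (h ▸ ha)
  have haz : a ≠ z := fun h => hz (h ▸ ha)
  -- two further letters
  have h1 : 1 < (Δ.erase a).card := by
    rw [Finset.card_erase_of_mem ha]
    omega
  obtain ⟨b, hb, c, hc, hbc⟩ := Finset.one_lt_card.1 h1
  rw [Finset.mem_erase] at hb hc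
  have hs := hΔ (tri_mem_altOn hb.1.symm hc.1.symm hbc ha hb.2 hc.2)
  have hby : b ≠ y := fun h => hy (h ▸ hb.2)
  have hbz : b ≠ z := fun h => hz (h ▸ hb.2)
  have hcy : c ≠ y := fun h => hy (h ▸ hc.2)
  have hcz : c ≠ z := fun h => hz (h ▸ hc.2)
  have h2 := H.mul_mem (H.mul_mem ht hs) (H.inv_mem ht)
  rw [tri_conj, tri_apply_left hay haz, tri_apply_of_ne hb.1 hby hbz, tri_apply_of_ne hc.1 hcy hcz,
    tri_rot hby.symm hcy.symm hbc] at h2
  have h3 := growth_one hΔ hb.2 hc.2 hbc hy h2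
  refine growth_one h3 (Finset.mem_insert_of_mem ha) (Finset.mem_insert_self y Δ) hay ?_ ht
  rw [Finset.mem_insert, not_or]
  exact ⟨hyz.symm, hz⟩


theorem union_three_subset {Δ Δ' : Finset α} {a b c : α} (h : Δ ⊆ Δ') (ha : a ∈ Δ') (hb : b ∈ Δ')
    (hc : c ∈ Δ') : Δ ∪ {a, b, c} ⊆ Δ' := by
  intro x hx
  simp only [Finset.mem_union, Finset.mem_insert, Finset.mem_singleton] at hx
  rcases hx with hx | hx | hx | hx
  · exact h hx
  · exact hx ▸ ha
  · exact hx ▸ hb
  · exact hx ▸ hc

theorem growth {Δ : Finset α} (hΔ : altOn Δ ≤ H) (hcard : 3 ≤ Δ.card) {t : Perm α} (ht3 : t.IsThreeCycle)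
    (htH : t ∈ H) {a : α} (haΔ : a ∈ Δ) (hta : t a ≠ a) : altOn (Δ ∪ t.support) ≤ H := by
  have hE := eq_tri_of_isThreeCycle ht3 hta
  obtain ⟨h1, h2, h3⟩ := tri_distinct ht3 hta
  have hsupp := (ht3.support_eq_iff_mem_support).2 (mem_support.2 hta)
  rw [hsupp]
  have hmem : tri a (t a) (t (t a)) ∈ H := hE ▸ htH
  by_cases hbΔ : t a ∈ Δ
  · by_cases hcΔ : t (t a) ∈ Δ
    · have h4 : Δ ∪ {a, t a, t (t a)} = Δ := by
        apply le_antisymm (union_three_subset (le_refl _) haΔ hbΔ hcΔ)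
        exact Finset.subset_union_left
      rwa [h4]
    · have h4 := growth_one hΔ haΔ hbΔ h1 hcΔ hmem
      refine (altOn_mono ?_).trans h4
      exact union_three_subset (Finset.subset_insert _ _) (Finset.mem_insert_of_mem haΔ)
        (Finset.mem_insert_of_mem hbΔ) (Finset.mem_insert_self _ _)
  · by_cases hcΔ : t (t a) ∈ Δ
    · have h5 : tri (t (t a)) a (t a) ∈ H := by
        rw [← tri_rot h3 h1.symm h2.symm, ← tri_rot h1 h2 h3]
        exact hmem
      have h4 := growth_one hΔ hcΔ haΔ h2.symm hbΔ h5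
      refine (altOn_mono ?_).trans h4
      exact union_three_subset (Finset.subset_insert _ _) (Finset.mem_insert_of_mem haΔ)
        (Finset.mem_insert_self _ _) (Finset.mem_insert_of_mem hcΔ)
    · have h4 := growth_two hΔ hcard haΔ hbΔ hcΔ h3 hmem
      refine (altOn_mono ?_).trans h4
      exact union_three_subset ((Finset.subset_insert _ _).trans (Finset.subset_insert _ _))
        (Finset.mem_insert_of_mem (Finset.mem_insert_of_mem haΔ))
        (Finset.mem_insert_of_mem (Finset.mem_insert_self _ _)) (Finset.mem_insert_self _ _)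

/-- The two 3-cycles on the support. -/
theorem altOn_support_le {t : Perm α} (ht3 : t.IsThreeCycle) (htH : t ∈ H) : altOn t.support ≤ H := by
  apply altOn_le_of_three
  intro s hs hsfix
  obtain ⟨a, ha⟩ : ∃ a, t a ≠ a := by
    by_contra hc
    push Not at hc
    exact ht3.ne_one (Equiv.ext hc)
  have hE := eq_tri_of_isThreeCycle ht3 ha
  obtain ⟨h1, h2, h3⟩ := tri_distinct ht3 ha
  have hsupp := (ht3.support_eq_iff_mem_support).2 (mem_support.2 ha)
  have hss : s.support = t.support := by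
    apply Finset.eq_of_subset_of_card_le
    · intro x hx
      rw [mem_support] at hx
      by_contra hc
      exact hx (hsfix x hc)
    · rw [ht3.card_support, hs.card_support]
  have hsa : s a ≠ a := by
    have : a ∈ s.support := by rw [hss, hsupp]; simp
    exact mem_support.1 this
  obtain ⟨k1, k2, k3⟩ := tri_distinct hs hsa
  have hsE := eq_tri_of_isThreeCycle hs hsa
  have hsmem : ∀ x, s x ≠ x → x = a ∨ x = t a ∨ x = t (t a) := by
    intro x hx
    have : x ∈ t.support := by rw [← hss]; exact mem_support.2 hx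
    rw [hsupp] at this
    simpa using this
  have hsa' : s (s a) ≠ s a := fun h => hsa (s.injective h)
  have hsaa : s (s (s a)) ≠ s (s a) := fun h => hsa' (s.injective h)
  rcases hsmem _ hsa' with h4 | h4 | h4
  · exact absurd h4 hsa
  · rcases hsmem _ hsaa with h5 | h5 | h5
    · exact absurd h5 k2.symm
    · exact absurd (h5.trans h4.symm) hsa'
    · have : s = t := hsE.trans (by rw [h5, h4]; exact hE.symm)
      rw [this]
      exact htH
  · rcases hsmem _ hsaa with h5 | h5 | h5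
    · exact absurd h5 k2.symm
    · have : s = t⁻¹ := by
        refine hsE.trans ?_
        rw [h5, h4]
        have h6 : t⁻¹ = tri (t (t a)) (t a) a := by
          conv_lhs => rw [hE]
          exact tri_inv _ _ _
        rw [h6, tri_rot h3.symm h2.symm h1.symm, tri_rot h1.symm h3 h2]
      rw [this]
      exact H.inv_mem htH
    · exact absurd (h5.trans h4.symm) hsa'

end growth

end Cfsg.Agent.H13
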