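import Mathlib
import Cfsg.Agent.Lib.H13.Tri
import Cfsg.Agent.Lib.H13.PTrans2

set_option autoImplicit false

namespace Cfsg.Agent.H13

open Equiv Equiv.Perm
open Cfsg

variable {α : Type*} [Fintype α] [DecidableEq α]

theorem isPGroup_zpowers_tri {t : Perm α} (ht : t.IsThreeCycle) :
    IsPGroup 3 (Subgroup.zpowers t) := by
  apply isPGroup_zpowers_of_pow_eq_one (k := 1)
  rw [pow_one]
  have := pow_orderOf_eq_one t
  rwa [ht.orderOf] at this

/-- A Sylow `3`-subgroup of a symmetric group has at most two fixed points. -/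
theorem sylow3_no_three_fixed (P : Sylow 3 (Perm α)) {a b c : α} (ab : a ≠ b) (ac : a ≠ c) (bc : b ≠ c)
    (hfix : ∀ g ∈ (P : Subgroup (Perm α)), g a = a ∧ g b = b ∧ g c = c) : False := by
  have ht := tri_isThreeCycle ab ac bc
  have hn : (P : Subgroup (Perm α)) ≤ Subgroup.normalizer ((Subgroup.zpowers (tri a b c) : Subgroup (Perm α)) : Set (Perm α)) := by
    intro g hg
    apply mem_normalizer_zpowers_of_comm
    have h1 := tri_conj g a b c
    obtain ⟨h2, h3, h4⟩ := hfix g hg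
    rw [h2, h3, h4] at h1
    exact mul_inv_eq_iff_eq_mul.1 h1
  have h1 : IsPGroup 3 ((P : Subgroup (Perm α)) ⊔ Subgroup.zpowers (tri a b c) : Subgroup (Perm α)) :=
    P.2.to_sup_of_normal_right' (isPGroup_zpowers_tri ht) hn
  have h2 := P.is_maximal' h1 le_sup_left
  have h3 : tri a b c ∈ (P : Subgroup (Perm α)) := by
    rw [← h2]
    exact Subgroup.mem_sup_right (Subgroup.mem_zpowers _)
  have h4 := (hfix _ h3).1
  rw [tri_apply_left ab ac] at h4
  exact ab h4.symm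

/-- Permutations supported on `Δ`. -/
def permOn (Δ : Finset α) : Subgroup (Perm α) where
  carrier := {g | ∀ x, x ∉ Δ → g x = x}
  mul_mem' := by
    intro g h hg hh x hx
    rw [Perm.mul_apply, hh x hx, hg x hx]
  one_mem' := fun _ _ => rfl
  inv_mem' := by
    intro g hg x hx
    rw [Perm.inv_eq_iff_eq]
    exact (hg x hx).symm

theorem sylow3_exists_three (P : Sylow 3 (Perm α)) {x : α}
    (hx : ∃ g ∈ (P : Subgroup (Perm α)), g x ≠ x) :
    ∃ t ∈ (P : Subgroup (Perm α)), t.IsThreeCycle ∧ t x ≠ x := by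
  classical
  obtain ⟨g₀, hg₀, hg₀x⟩ := hx
  set O := MulAction.orbit (↥(P : Subgroup (Perm α))) x with hO
  obtain ⟨k, hk⟩ := IsPGroup.card_orbit P.2 x
  set O' := O.toFinset with hO'
  have hmem : ∀ y, y ∈ O' ↔ ∃ g ∈ (P : Subgroup (Perm α)), g x = y := by
    intro y
    rw [hO', Set.mem_toFinset, hO, MulAction.mem_orbit_iff]
    constructor
    · rintro ⟨g, rfl⟩
      exact ⟨g, g.2, rfl⟩
    · rintro ⟨g, hg, rfl⟩
      exact ⟨⟨g, hg⟩, rfl⟩
  have hcard : O'.card = 3 ^ k := by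
    rw [hO', Set.toFinset_card, ← Nat.card_eq_fintype_card]
    exact hk
  have hxO : x ∈ O' := (hmem x).2 ⟨1, Subgroup.one_mem _, rfl⟩
  have hgO : g₀ x ∈ O' := (hmem _).2 ⟨g₀, hg₀, rfl⟩
  have h2 : 2 < O'.card := by
    have h3 : 1 < O'.card := Finset.one_lt_card.2 ⟨x, hxO, g₀ x, hgO, hg₀x.symm⟩
    rw [hcard] at h3 ⊢
    have hk0 : k ≠ 0 := by
      rintro rfl
      simp at h3
    calc 2 < 3 ^ 1 := by norm_num
      _ ≤ 3 ^ k := Nat.pow_le_pow_right (by norm_num) (Nat.one_le_iff_ne_zero.2 hk0)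
  obtain ⟨a, ha, b, hb, c, hc, ab, ac, bc⟩ := Finset.two_lt_card.1 h2
  set K := permOn O' with hK
  have hinvO : ∀ g ∈ (P : Subgroup (Perm α)), ∀ y, y ∉ O' → g y ∉ O' := by
    intro g hg y hy hc
    apply hy
    obtain ⟨h, hh, hhx⟩ := (hmem _).1 hc
    refine (hmem _).2 ⟨g⁻¹ * h, (P : Subgroup (Perm α)).mul_mem ((P : Subgroup (Perm α)).inv_mem hg) hh, ?_⟩
    rw [Perm.mul_apply, hhx]
    simp
  have hPK : (P : Subgroup (Perm α)) ≤ Subgroup.normalizer ((K : Subgroup (Perm α)) : Set (Perm α)) := by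
    intro g hg
    apply mem_normalizer_of_map_conj_le
    rintro _ ⟨h, hh, rfl⟩ y hy
    show (g * h * g⁻¹) y = y
    rw [Perm.mul_apply, Perm.mul_apply, hh _ (hinvO g⁻¹ ((P : Subgroup (Perm α)).inv_mem hg) y hy)]
    simp
  have h1 := ((isSylIn_top P).of_le hPK le_top).inf_normal Subgroup.le_normalizer (le_refl _)
  set s := tri a b c with hs
  have hs3 : s.IsThreeCycle := tri_isThreeCycle ab ac bc
  have hsK : s ∈ K := fun w hw =>
    tri_apply_of_ne (fun h => hw (h ▸ ha)) (fun h => hw (h ▸ hb)) (fun h => hw (h ▸ hc))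
  obtain ⟨k, hk, hle⟩ := h1.exists_conj (S' := Subgroup.zpowers s) (by simpa using hsK)
    (isPGroup_zpowers_tri hs3)
  have hmems := hle (Subgroup.mem_zpowers s)
  rw [mem_map_conj] at hmems
  set s' := k⁻¹ * s * k with hs'
  have hs'3 : s'.IsThreeCycle := by
    unfold IsThreeCycle at hs3 ⊢
    have h2 := cycleType_conj (σ := s) (τ := k⁻¹)
    rw [inv_inv] at h2
    rw [hs', h2]
    exact hs3
  obtain ⟨y, hy⟩ : ∃ y, s' y ≠ y := by
    by_contra hc
    push Not at hc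
    exact hs'3.ne_one (Equiv.ext hc)
  have hyO : y ∈ O' := by
    by_contra hc
    exact hy (hmems.2 y hc)
  obtain ⟨g, hg, hgx⟩ := (hmem y).1 hyO
  refine ⟨g⁻¹ * s' * g, (P : Subgroup (Perm α)).mul_mem ((P : Subgroup (Perm α)).mul_mem
    ((P : Subgroup (Perm α)).inv_mem hg) hmems.1) hg, ?_, ?_⟩
  · unfold IsThreeCycle at hs'3 ⊢
    have h2 := cycleType_conj (σ := s') (τ := g⁻¹)
    rw [inv_inv] at h2
    rw [h2]
    exact hs'3
  · rw [Perm.mul_apply, Perm.mul_apply, hgx]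
    intro h2
    apply hy
    have h3 := congrArg g h2
    simpa [hgx] using h3

end Cfsg.Agent.H13
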