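import Mathlib
import Cfsg.Prelude.Def_Local
import Cfsg.Agent.Lib.H13.TriSyl
import Cfsg.Agent.Lib.H12.Quasi
import Cfsg.Agent.Lib.H07.FStar
import Cfsg.Agent.Lib.H05.Comp2
import Cfsg.Agent.Lib.H05.Comp

set_option autoImplicit false

namespace Cfsg.Agent.H13

open Equiv Equiv.Perm
open Cfsg
open scoped commutatorElement

variable {α : Type*} [Fintype α] [DecidableEq α]

/-- A perfect subgroup commuting pointwise on the orbit of `x` fixes `x`. -/
theorem fix_of_comm_at {L : Subgroup (Perm α)} (hL : ⁅L, L⁆ = L) {x : α}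
    (key : ∀ u ∈ L, ∀ v ∈ L, u (v x) = v (u x)) : ∀ ℓ ∈ L, ℓ x = x := by
  have h1 : L ≤ MulAction.stabilizer (Perm α) x := by
    rw [← hL, Subgroup.commutator_le]
    intro a ha b hb
    rw [MulAction.mem_stabilizer_iff, Perm.smul_def, commutatorElement_def]
    simp only [Perm.mul_apply]
    rw [key a⁻¹ (L.inv_mem ha) b⁻¹ (L.inv_mem hb)]
    simp
  intro ℓ hℓ
  have := h1 hℓ
  rwa [MulAction.mem_stabilizer_iff, Perm.smul_def] at this

theorem fix_of_comm_three {L : Subgroup (Perm α)} (hL : ⁅L, L⁆ = L) {t : Perm α} (ht3 : t.IsThreeCycle)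
    (hc : ∀ ℓ ∈ L, ℓ * t = t * ℓ) {x : α} (hx : t x ≠ x) : ∀ ℓ ∈ L, ℓ x = x := by
  apply fix_of_comm_at hL
  have hform : ∀ u ∈ L, ∃ i : ℕ, u x = (t ^ i) x := by
    intro u hu
    have h1 : t (u x) ≠ u x := by
      intro h2
      apply hx
      have h3 : (t * u) x = (u * t) x := by rw [hc u hu]
      rw [Perm.mul_apply, Perm.mul_apply, h2] at h3
      exact (u.injective h3).symm
    rcases mem_support_three ht3 hx h1 with h2 | h2 | h2
    · exact ⟨0, by simpa using h2⟩
    · exact ⟨1, by simpa using h2⟩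
    · exact ⟨2, by simpa [pow_two] using h2⟩
  have hcomm : ∀ u ∈ L, ∀ i : ℕ, ∀ y, u ((t ^ i) y) = (t ^ i) (u y) := by
    intro u hu i y
    have h1 : Commute u t := hc u hu
    have h2 := (h1.pow_right i).eq
    have h3 := congrArg (fun f : Perm α => f y) h2
    simpa using h3
  intro u hu v hv
  obtain ⟨i, hi⟩ := hform u hu
  obtain ⟨j, hj⟩ := hform v hv
  rw [hj, hcomm u hu j x, hi, hcomm v hv i x, hj]
  rw [← Perm.mul_apply, ← Perm.mul_apply, ← pow_add, ← pow_add, add_comm]

theorem fix_of_two {L : Subgroup (Perm α)} (hL : ⁅L, L⁆ = L) {F : Finset α} (hF : F.card ≤ 2)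
    (hinv : ∀ ℓ ∈ L, ∀ x ∈ F, ℓ x ∈ F) : ∀ ℓ ∈ L, ∀ x ∈ F, ℓ x = x := by
  intro ℓ hℓ x hx
  refine fix_of_comm_at hL ?_ ℓ hℓ
  intro u hu v hv
  -- all of the images lie in `{x, y}`
  by_cases hex : ∃ y ∈ F, y ≠ x
  · obtain ⟨y, hy, hyx⟩ := hex
    have hpair : ∀ z ∈ F, z = x ∨ z = y := by
      intro z hz
      by_contra hc
      push Not at hc
      have h3 : 2 < F.card := Finset.two_lt_card.2 ⟨x, hx, y, hy, z, hz, hyx.symm, hc.1.symm, hc.2.symm⟩
      omega
    have hux := hpair _ (hinv u hu x hx)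
    have hvx := hpair _ (hinv v hv x hx)
    have huy := hpair _ (hinv u hu y hy)
    have hvy := hpair _ (hinv v hv y hy)
    rcases hux with h1 | h1 <;> rcases hvx with h2 | h2
    · rw [h1, h2, h1]
    · rw [h2, h1, h2]
      rcases huy with h3 | h3
      · exact absurd (u.injective (h3.trans h1.symm)) hyx
      · exact h3
    · rw [h2, h1]
      rcases hvy with h3 | h3
      · exact absurd (v.injective (h3.trans h2.symm)) hyx
      · exact h3.symm
    · rw [h1, h2]
      have h3 : u y = x := by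
        rcases huy with h3 | h3
        · exact h3
        · exact absurd (u.injective (h3.trans h1.symm)) hyx
      have h4 : v y = x := by
        rcases hvy with h4 | h4
        · exact h4
        · exact absurd (v.injective (h4.trans h2.symm)) hyx
      rw [h3, h4]
  · push Not at hex
    have h1 := hex _ (hinv u hu x hx)
    have h2 := hex _ (hinv v hv x hx)
    rw [h1, h2, h1]

/-- The alternating group on four letters has an abelian derived group. -/
theorem altOn_four_metabelian {Δ : Finset α} (hΔ : Δ.card = 4) :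
    ⁅⁅altOn Δ, altOn Δ⁆, ⁅altOn Δ, altOn Δ⁆⁆ = ⊥ := by
  set A := altOn Δ with hA
  have hc : Nat.card {x // x ∈ Δ} = 4 := by simpa using hΔ
  haveI hK := alternatingGroup.kleinFour_isKleinFour (α := {x // x ∈ Δ}) hc
  have hKc := alternatingGroup.kleinFour_eq_commutator (α := {x // x ∈ Δ}) hc
  have hcomm : ∀ a ∈ commutator ↥(alternatingGroup {x // x ∈ Δ}), ∀ b ∈ commutator ↥(alternatingGroup {x // x ∈ Δ}),
      a * b = b * a := by
    intro a ha b hb
    rw [← hKc] at ha hb
    have h1 := (IsKleinFour.isMulCommutative (G := alternatingGroup.kleinFour {x // x ∈ Δ})).is_comm.comm ⟨a, ha⟩ ⟨b, hb⟩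
    exact congrArg Subtype.val h1
  set e := altOnEquiv Δ with he
  have h2 : (commutator ↥A).map e.toMonoidHom = commutator ↥(alternatingGroup {x // x ∈ Δ}) := by
    rw [commutator_def, commutator_def, Subgroup.map_commutator, Subgroup.map_top_of_surjective _ e.surjective]
  have h3 : (commutator ↥A).map A.subtype = ⁅A, A⁆ := by
    have h0 : (⊤ : Subgroup A).map A.subtype = A := by
      rw [← MonoidHom.range_eq_map, Subgroup.range_subtype]
    rw [commutator_def, Subgroup.map_commutator, h0]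
  apply Cfsg.Agent.H13.commutator_bot_of_comm
  rw [← h3]
  rintro _ ⟨a, ha, rfl⟩ _ ⟨b, hb, rfl⟩
  have h4 : e a ∈ commutator ↥(alternatingGroup {x // x ∈ Δ}) := h2 ▸ Subgroup.mem_map_of_mem _ ha
  have h5 : e b ∈ commutator ↥(alternatingGroup {x // x ∈ Δ}) := h2 ▸ Subgroup.mem_map_of_mem _ hb
  have h6 := hcomm _ h4 _ h5
  rw [← map_mul, ← map_mul] at h6
  have h7 := e.injective h6
  exact congrArg Subtype.val h7

/-- A perfect subgroup of the alternating group on at most four letters is trivial. -/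
theorem perfect_le_altOn_small (hα : 4 ≤ Fintype.card α) {L : Subgroup (Perm α)} (hL : ⁅L, L⁆ = L)
    {Δ : Finset α} (hΔ : Δ.card ≤ 4) (hLA : L ≤ altOn Δ) : L = ⊥ := by
  obtain ⟨Δ', hsub, hcard⟩ := Finset.exists_superset_card_eq hΔ (by simpa using hα)
  have h1 : L ≤ altOn Δ' := hLA.trans (altOn_mono hsub)
  rw [eq_bot_iff, ← altOn_four_metabelian hcard]
  have h2 : L = ⁅⁅L, L⁆, ⁅L, L⁆⁆ := by rw [hL, hL]
  rw [h2]
  exact Subgroup.commutator_mono (Subgroup.commutator_mono h1 h1) (Subgroup.commutator_mono h1 h1)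

/-- `altOn Δ` is simple for at least five letters. -/
theorem altOn_isSimple {Δ : Finset α} (hΔ : 5 ≤ Δ.card) : IsSimpleGroup ↥(altOn Δ) := by
  haveI : IsSimpleGroup ↥(alternatingGroup {x // x ∈ Δ}) :=
    alternatingGroup.isSimpleGroup (by simpa using hΔ)
  exact (altOnEquiv Δ).isSimpleGroup

/-- A permutation fixing `Δ` pointwise commutes with `altOn Δ`. -/
theorem comm_altOn_of_fix {Δ : Finset α} {t : Perm α} (ht : ∀ x ∈ Δ, t x = x) {a : Perm α}
    (ha : a ∈ altOn Δ) : t * a = a * t := by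
  have h1 : Perm.Disjoint t a := by
    intro x
    by_cases hx : x ∈ Δ
    · exact Or.inl (ht x hx)
    · exact Or.inr (ha.2 x hx)
  exact h1.commute

/-- `S2929`, in the form of a finite set of letters. -/
theorem fstar_alt_of_sylow3 (hα : 5 ≤ Fintype.card α) (H : Subgroup (Perm α))
    (hF : IsQuasisimple ↥(generalizedFittingSubgroup ↥H)) (P : Sylow 3 (Perm α))
    (hP : (P : Subgroup (Perm α)) ≤ H) :
    ∃ Δ : Finset α, Fintype.card α ≤ Δ.card + 2 ∧
      Nonempty (↥(generalizedFittingSubgroup ↥H) ≃* ↥(alternatingGroup {x // x ∈ Δ})) := by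
  classical
  set L₀ := generalizedFittingSubgroup ↥H with hL₀
  haveI hL₀n : L₀.Normal := H07.generalizedFitting_normal _
  set L := L₀.map H.subtype with hLdef
  have hq : IsQuasisimple ↥L :=
    H07.isQuasisimple_of_mulEquiv (L₀.equivMapOfInjective H.subtype H.subtype_injective) hF
  have hLH : L ≤ H := Subgroup.map_subtype_le _
  have hnL : H ≤ Subgroup.normalizer (L : Set (Perm α)) := by
    intro h hh
    apply mem_normalizer_of_map_conj_le
    rintro _ ⟨_, ⟨x, hx, rfl⟩, rfl⟩
    exact ⟨_, hL₀n.conj_mem x hx ⟨h, hh⟩, rfl⟩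
  have hcent : ∀ x ∈ H, x ∈ Subgroup.centralizer (L : Set (Perm α)) → x ∈ L := by
    intro x hx hxc
    have h1 : (⟨x, hx⟩ : H) ∈ Subgroup.centralizer (L₀ : Set ↥H) := by
      rw [Subgroup.mem_centralizer_iff]
      intro h hh
      exact Subtype.ext ((Subgroup.mem_centralizer_iff.1 hxc) h ⟨h, hh, rfl⟩)
    exact ⟨_, H05.centralizer_fstar_le h1, rfl⟩
  have hperf : ⁅L, L⁆ = L := H12.qs_perfect_at hq
  have hne : L ≠ ⊥ := by
    intro h
    have := H05.qs_nontrivial hq
    rw [Subgroup.nontrivial_iff_ne_bot] at this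
    exact this h
  -- the `3`-cycles in `H`
  set 𝒯 : Set (Perm α) := {t | t ∈ H ∧ t.IsThreeCycle} with h𝒯
  set D := Subgroup.closure 𝒯 with hD
  have hDH : D ≤ H := (Subgroup.closure_le _).2 fun t ht => ht.1
  have hDn : H ≤ Subgroup.normalizer (D : Set (Perm α)) := by
    intro h hh
    apply mem_normalizer_of_map_conj_le
    rw [hD, MonoidHom.map_closure]
    apply Subgroup.closure_mono
    rintro _ ⟨t, ht, rfl⟩
    refine ⟨H.mul_mem (H.mul_mem hh ht.1) (H.inv_mem hh), ?_⟩
    have h3 := ht.2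
    unfold IsThreeCycle at h3 ⊢
    show (h * t * h⁻¹).cycleType = _
    rw [cycleType_conj]
    exact h3
  -- few points are not moved
  have hmoved : ∀ x, (∀ t ∈ 𝒯, t x = x) → ∀ g ∈ (P : Subgroup (Perm α)), g x = x := by
    intro x hx g hg
    by_contra hc
    obtain ⟨t, ht, ht3, htx⟩ := sylow3_exists_three P ⟨g, hg, hc⟩
    exact htx (hx t ⟨hP ht, ht3⟩)
  have hfew : ∀ F : Finset α, (∀ x ∈ F, ∀ t ∈ 𝒯, t x = x) → F.card ≤ 2 := by
    intro F hF
    by_contra hc
    obtain ⟨a, ha, b, hb, c, hc, ab, ac, bc⟩ := Finset.two_lt_card.1 (not_le.1 hc)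
    exact sylow3_no_three_fixed P ab ac bc (fun g hg =>
      ⟨hmoved a (hF a ha) g hg, hmoved b (hF b hb) g hg, hmoved c (hF c hc) g hg⟩)
  -- Step 1
  have hLD : L ≤ D := by
    by_contra hLD
    have h1 : D ⊓ L = L ∨ D ⊓ L ≤ Subgroup.centralizer (L : Set (Perm α)) := by
      apply H12.qs_normal_at hq inf_le_right
      intro ℓ hℓ
      apply mem_normalizer_of_map_conj_eq
      rw [map_conj_inf, map_conj_eq_of_mem_normalizer (hDn (hLH hℓ)),
        map_conj_eq_of_mem_normalizer (Subgroup.le_normalizer hℓ)]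
    have h2 : D ≤ Subgroup.centralizer (L : Set (Perm α)) := by
      rcases h1 with h1 | h1
      · exact absurd (inf_eq_right.1 h1) hLD
      · apply H12.le_centralizer_of_comm_central hq
        refine le_trans (le_inf ?_ ?_) h1
        · exact commutator_le_left_of_le_normalizer (hLH.trans hDn)
        · exact commutator_le_right_of_le_normalizer (hDH.trans hnL)
    have hfix1 : ∀ t ∈ 𝒯, ∀ x, t x ≠ x → ∀ ℓ ∈ L, ℓ x = x := by
      intro t ht x hx
      apply fix_of_comm_three hperf ht.2 _ hx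
      intro ℓ hℓ
      exact (Subgroup.mem_centralizer_iff.1 (h2 (Subgroup.subset_closure ht))) ℓ hℓ
    set F := Finset.univ.filter (fun x => ∀ t ∈ 𝒯, t x = x) with hFdef
    have hFmem : ∀ x, x ∈ F ↔ ∀ t ∈ 𝒯, t x = x := by
      intro x
      simp [hFdef]
    have hFc : F.card ≤ 2 := hfew F (fun x hx => (hFmem x).1 hx)
    have hinv : ∀ ℓ ∈ L, ∀ x ∈ F, ℓ x ∈ F := by
      intro ℓ hℓ x hx
      rw [hFmem]
      intro t ht
      by_contra hc
      have h3 := hfix1 t ht _ hc ℓ hℓ
      have h4 : ℓ x = x := ℓ.injective h3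
      rw [h4] at hc
      exact hc ((hFmem x).1 hx t ht)
    have hfix2 := fix_of_two hperf hFc hinv
    apply hne
    rw [eq_bot_iff]
    intro ℓ hℓ
    rw [Subgroup.mem_bot]
    ext x
    by_cases hx : x ∈ F
    · simpa using hfix2 ℓ hℓ x hx
    · rw [hFmem] at hx
      push Not at hx
      obtain ⟨t, ht, htx⟩ := hx
      simpa using hfix1 t ht x htx ℓ hℓ
  -- maximal good sets
  let Good : Finset α → Prop := fun Δ => altOn Δ ≤ H ∧ 3 ≤ Δ.card
  let MaxGood : Finset α → Prop := fun Δ => Good Δ ∧ ∀ Δ', Good Δ' → Δ ⊆ Δ' → Δ' = Δ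
  have hexmax : ∀ t ∈ 𝒯, ∃ Δ, MaxGood Δ ∧ t.support ⊆ Δ := by
    intro t ht
    set S : Set (Finset α) := {Δ | Good Δ ∧ t.support ⊆ Δ} with hS
    have hSne : S.Nonempty := ⟨t.support, ⟨altOn_support_le ht.2 ht.1, by rw [ht.2.card_support]⟩, subset_refl _⟩
    obtain ⟨Δ, hΔ⟩ := S.toFinite.exists_maximal hSne
    refine ⟨Δ, ⟨hΔ.1.1, fun Δ' hg hsub => ?_⟩, hΔ.1.2⟩
    exact le_antisymm (hΔ.2 ⟨hg, hΔ.1.2.trans hsub⟩ hsub) hsub
  have hdich : ∀ Δ, MaxGood Δ → ∀ t ∈ 𝒯, t.support ⊆ Δ ∨ ∀ x ∈ Δ, t x = x := by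
    intro Δ hΔ t ht
    by_cases hc : ∀ x ∈ Δ, t x = x
    · exact Or.inr hc
    · left
      push Not at hc
      obtain ⟨a, ha, hta⟩ := hc
      have h1 := growth hΔ.1.1 hΔ.1.2 ht.2 ht.1 ha hta
      have h2 := hΔ.2 _ ⟨h1, hΔ.1.2.trans (Finset.card_le_card Finset.subset_union_left)⟩ Finset.subset_union_left
      rw [← h2]
      exact Finset.subset_union_right
  have hmem_alt : ∀ t ∈ 𝒯, ∀ Δ, t.support ⊆ Δ → t ∈ altOn Δ := by
    intro t ht Δ hsub
    refine ⟨ht.2.sign, fun x hx => ?_⟩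
    by_contra hc
    exact hx (hsub (mem_support.2 hc))
  -- Step 2
  obtain ⟨Δ, hΔ, hΔc⟩ : ∃ Δ, MaxGood Δ ∧ ¬ ⁅L, altOn Δ⁆ = ⊥ := by
    by_contra hc
    push Not at hc
    have h1 : D ≤ Subgroup.centralizer (L : Set (Perm α)) := by
      rw [hD, Subgroup.closure_le]
      intro t ht
      obtain ⟨Δ, hΔ, hsub⟩ := hexmax t ht
      have h2 := hc Δ hΔ
      show t ∈ Subgroup.centralizer (L : Set (Perm α))
      rw [Subgroup.mem_centralizer_iff]
      intro ℓ hℓ
      exact comm_of_commutator_bot h2 hℓ (hmem_alt t ht Δ hsub)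
    apply hne
    rw [← hperf, eq_bot_iff, Subgroup.commutator_le]
    intro a ha b hb
    rw [Subgroup.mem_bot, commutatorElement_eq_one_iff_mul_comm]
    exact (Subgroup.mem_centralizer_iff.1 (h1 (hLD hb))) a ha
  set A := altOn Δ with hA
  have hAH : A ≤ H := hΔ.1.1
  -- Step 3
  have hDA : D ≤ Subgroup.normalizer (A : Set (Perm α)) := by
    rw [hD, Subgroup.closure_le]
    intro t ht
    show t ∈ Subgroup.normalizer (A : Set (Perm α))
    rcases hdich Δ hΔ t ht with h1 | h1
    · exact Subgroup.le_normalizer (hmem_alt t ht Δ h1)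
    · apply mem_normalizer_of_map_conj_le
      rintro _ ⟨a, ha, rfl⟩
      show t * a * t⁻¹ ∈ A
      rw [comm_altOn_of_fix h1 ha, mul_inv_cancel_right]
      exact ha
  have hLA : L ≤ A := by
    have h1 : L ⊓ A = L ∨ L ⊓ A ≤ Subgroup.centralizer (L : Set (Perm α)) := by
      apply H12.qs_normal_at hq inf_le_left
      intro ℓ hℓ
      apply mem_normalizer_of_map_conj_eq
      rw [map_conj_inf, map_conj_eq_of_mem_normalizer (Subgroup.le_normalizer hℓ),
        map_conj_eq_of_mem_normalizer (hDA (hLD hℓ))]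
    rcases h1 with h1 | h1
    · exact inf_eq_left.1 h1
    · exfalso
      apply hΔc
      have h2 : ⁅A, L⁆ ≤ Subgroup.centralizer (L : Set (Perm α)) := by
        refine le_trans (le_inf ?_ ?_) h1
        · exact commutator_le_right_of_le_normalizer (hAH.trans hnL)
        · exact commutator_le_left_of_le_normalizer (hLD.trans hDA)
      have h3 := H12.comm_eq_bot_of_central hq h2
      rwa [Subgroup.commutator_comm] at h3
  -- Step 4
  have hΔ5 : 5 ≤ Δ.card := by
    by_contra hc
    exact hne (perfect_le_altOn_small (by omega) hperf (by omega) hLA)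
  -- Step 5
  have hLeq : L = A := by
    haveI := altOn_isSimple hΔ5
    have hn : (L.subgroupOf A).Normal := by
      apply (Subgroup.normal_subgroupOf_iff_le_normalizer hLA).2
      exact hAH.trans hnL
    rcases hn.eq_bot_or_eq_top with h1 | h1
    · exfalso
      apply hne
      rw [eq_bot_iff]
      intro x hx
      have h2 : (⟨x, hLA hx⟩ : A) ∈ L.subgroupOf A := hx
      rw [h1, Subgroup.mem_bot] at h2
      exact congrArg Subtype.val h2
    · apply le_antisymm hLA
      intro x hx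
      have h2 : (⟨x, hx⟩ : A) ∈ L.subgroupOf A := by rw [h1]; trivial
      exact h2
  -- Step 6
  have hsupp : ∀ t ∈ 𝒯, t.support ⊆ Δ := by
    intro t ht
    rcases hdich Δ hΔ t ht with h1 | h1
    · exact h1
    · exfalso
      have h2 : t ∈ Subgroup.centralizer (L : Set (Perm α)) := by
        rw [Subgroup.mem_centralizer_iff]
        intro ℓ hℓ
        exact (comm_altOn_of_fix h1 (hLA hℓ)).symm
      have h3 := hcent t ht.1 h2
      rw [hLeq] at h3
      apply ht.2.ne_one
      ext x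
      by_cases hx : x ∈ Δ
      · simpa using h1 x hx
      · simpa using h3.2 x hx
  refine ⟨Δ, ?_, ⟨?_⟩⟩
  · have h1 : (Finset.univ \ Δ).card ≤ 2 := by
      apply hfew
      intro x hx t ht
      by_contra hc
      have h2 := hsupp t ht (mem_support.2 hc)
      simp at hx
      exact hx h2
    rw [Finset.card_sdiff_of_subset (Finset.subset_univ Δ), Finset.card_univ] at h1
    omega
  · exact (L₀.equivMapOfInjective H.subtype H.subtype_injective).trans
      ((MulEquiv.subgroupCongr hLeq).trans (altOnEquiv Δ))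

end Cfsg.Agent.H13
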